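import Cfsg.Agent.CT.SymChar
import Cfsg.Agent.Blk.IndexTwo

/-! Characters of alternating groups vanishing on elements of prime power order. -/

set_option autoImplicit false
open Finset Equiv

namespace Cfsg
namespace SymCh

theorem phi_three_add {a b : ℤ} (ν ρ : Multiset ℕ)
    (h : ∀ r ∈ ν, a < r ∧ (b < r ∨ b = a + r)) (m : ℤ) :
    phi ![a, b, m] (ν + ρ) = phi ![a, b, m - ν.sum] ρ := by
  induction ν using Multiset.induction_on generalizing m with
  | empty => simp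
  | cons r ν ih =>
    obtain ⟨h1, h2⟩ := h r (Multiset.mem_cons_self _ _)
    rw [Multiset.cons_add, phi_cons, Fin.sum_univ_three,
      phi_eq_zero_of_neg (i := 0) (by simp; omega), zero_add]
    have e1 : phi (![a, b, m] - Pi.single 1 (r : ℤ) : Fin 3 → ℤ) (ν + ρ) = 0 := by
      rcases h2 with h2 | h2
      · exact phi_eq_zero_of_neg (i := 1) (by simp; omega) _
      · apply phi_eq_zero_of_not_injective
        intro hi
        have : (0 : Fin 3) = 1 := hi (by simp [h2])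
        exact absurd this (by decide)
    have e2 : (![a, b, m] - Pi.single 2 (r : ℤ) : Fin 3 → ℤ) = ![a, b, m - r] := by
      funext i; fin_cases i <;> simp
    rw [e1, zero_add, e2, ih (fun s hs => h s (Multiset.mem_cons_of_mem hs))]
    congr 2
    simp only [Multiset.sum_cons]; push_cast; ring_nf

theorem phi_three_eq_zero {a b m : ℤ} (h : m = a ∨ m = b) (ρ : Multiset ℕ) :
    phi ![a, b, m] ρ = 0 := by
  apply phi_eq_zero_of_not_injective
  intro hi
  rcases h with h | h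
  · have : (2 : Fin 3) = 0 := hi (by simp [h])
    exact absurd this (by decide)
  · have : (2 : Fin 3) = 1 := hi (by simp [h])
    exact absurd this (by decide)

theorem phi_del_comp_ne_zero {N : ℕ} (w : Perm (Fin N)) : phi (del N ∘ w) 0 ≠ 0 := by
  rw [phi_comp, phi_zero, dd_self del_injective, mul_one]
  intro h
  have := sg_mul_self w
  rw [h] at this
  norm_num at this

theorem phi_021 : phi ![0, 2, 1] 0 ≠ 0 := by
  have := phi_del_comp_ne_zero (swap (1 : Fin 3) 2)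
  convert this using 2
  funext i; fin_cases i <;> rfl

theorem phi_120 : phi ![1, 2, 0] 0 ≠ 0 := by
  have := phi_del_comp_ne_zero (swap (0 : Fin 3) 1 * swap 1 2)
  convert this using 2
  funext i; fin_cases i <;> rfl

theorem phi_031 : phi ![0, 3, 1] {1} ≠ 0 := by
  have : ({1} : Multiset ℕ) = 1 ::ₘ 0 := rfl
  rw [this, phi_cons, Fin.sum_univ_three, phi_eq_zero_of_neg (i := 0) (by simp), zero_add]
  have e1 : (![0, 3, 1] - Pi.single 1 ((1 : ℕ) : ℤ) : Fin 3 → ℤ) = ![0, 2, 1] := by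
    funext i; fin_cases i <;> simp
  have e2 : (![0, 3, 1] - Pi.single 2 ((1 : ℕ) : ℤ) : Fin 3 → ℤ) = ![0, 3, 0] := by
    funext i; fin_cases i <;> simp
  rw [e1, e2, phi_three_eq_zero (Or.inl rfl), add_zero]
  exact phi_021

theorem phi_032 : phi ![0, 3, 2] {1, 1} ≠ 0 := by
  have : ({1, 1} : Multiset ℕ) = 1 ::ₘ {1} := rfl
  rw [this, phi_cons, Fin.sum_univ_three, phi_eq_zero_of_neg (i := 0) (by simp), zero_add]
  have e1 : (![0, 3, 2] - Pi.single 1 ((1 : ℕ) : ℤ) : Fin 3 → ℤ) = ![0, 2, 2] := by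
    funext i; fin_cases i <;> simp
  have e2 : (![0, 3, 2] - Pi.single 2 ((1 : ℕ) : ℤ) : Fin 3 → ℤ) = ![0, 3, 1] := by
    funext i; fin_cases i <;> simp
  rw [e1, e2, phi_three_eq_zero (Or.inr rfl), zero_add]
  exact phi_031

theorem sgn_cons (r : ℕ) (ρ : Multiset ℕ) : sgn (r ::ₘ ρ) = -(-1 : ℚ) ^ r * sgn ρ := by
  simp [sgn]

theorem sgn_replicate (k r : ℕ) : sgn (Multiset.replicate k r) = (-(-1 : ℚ) ^ r) ^ k := by
  simp [sgn]

/-- The restriction of a labelled character to the alternating group. -/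
theorem exists_alt_vanish {n : ℕ} {a b m : ℕ} (hab : a < b) (hbm : b < m) (hs : a + b + m = n + 3)
    {ρ₀ ρ : Multiset ℕ} (h₀ : ρ₀.sum = n) (h₀' : ∀ r ∈ ρ₀, 0 < r) (hs₀ : sgn ρ₀ = -1)
    (hne : phi ![(a : ℤ), b, m] ρ₀ ≠ 0) (h₁ : ρ.sum = n) (h₁' : ∀ r ∈ ρ, 0 < r) (hs₁ : sgn ρ = 1)
    (hz : phi ![(a : ℤ), b, m] ρ = 0) :
    ∃ χ : IrrCharacter (alternatingGroup (Fin n)),
      (∃ x : alternatingGroup (Fin n), orderOf x = ρ.lcm ∧ χ.1 x = 0) ∧
      ∃ ψ : IrrCharacter (Perm (Fin n)), ∀ x : alternatingGroup (Fin n), ψ.1 x = χ.1 x := by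
  have hmono : StrictMono (![a, b, m] : Fin 3 → ℕ) := by
    intro i j hij
    fin_cases i <;> fin_cases j <;> simp_all <;> omega
  have hlab : lab 3 (univ.image (![a, b, m] : Fin 3 → ℕ)) = ![(a : ℤ), b, m] := by
    funext i
    rw [lab_image hmono]
    fin_cases i <;> simp
  have hX : univ.image (![a, b, m] : Fin 3 → ℕ) ∈ bs 3 (Fintype.card (Fin n)) := by
    rw [mem_bs, card_image_of_injective _ hmono.injective,
      sum_image fun _ _ _ _ e => hmono.injective e]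
    simp [Fin.sum_univ_three, tri, sum_range_succ, hs]
  obtain ⟨ψ, ε, hε, hψ⟩ := exists_isLab hX
  simp only [ph, hlab] at hψ
  obtain ⟨σ₀, hσ₀⟩ := exists_typ_eq (α := Fin n) (ρ := ρ₀) (mem_ptn.2 ⟨by simpa using h₀, h₀'⟩)
  obtain ⟨σ, hσ⟩ := exists_typ_eq (α := Fin n) (ρ := ρ) (mem_ptn.2 ⟨by simpa using h₁, h₁'⟩)
  have hsg₀ : Perm.sign σ₀ = -1 := by
    have := sgn_typ σ₀
    rw [hσ₀, hs₀] at this
    rcases Int.units_eq_one_or (Perm.sign σ₀) with e | e
    · rw [e] at this; norm_num at this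
    · exact e
  have hsg : Perm.sign σ = 1 := by
    have := sgn_typ σ
    rw [hσ, hs₁] at this
    rcases Int.units_eq_one_or (Perm.sign σ) with e | e
    · exact e
    · rw [e] at this; norm_num at this
  have hnm : σ₀ ∉ alternatingGroup (Fin n) := by
    rw [Perm.mem_alternatingGroup, hsg₀]; decide
  have hnt : Nontrivial (Fin n) := by
    by_contra hc
    rw [not_nontrivial_iff_subsingleton] at hc
    exact hnm (by rw [Subsingleton.elim σ₀ 1]; exact Subgroup.one_mem _)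
  classical
  have h1 : classInner (fun x : alternatingGroup (Fin n) => ψ.1 x)
      (fun x : alternatingGroup (Fin n) => ψ.1 x) = 1 := by
    by_contra hc
    have := apply_eq_zero_of_classInner_res_ne_one alternatingGroup.index_eq_two hc hnm
    rw [hψ, hσ₀] at this
    rcases hε with rfl | rfl
    · exact hne (by simpa using this)
    · exact hne (by simpa using this)
  refine ⟨⟨_, (ψ.isCharacter.res _).isIrr_iff.2 h1⟩, ⟨⟨σ, Perm.mem_alternatingGroup.2 hsg⟩, ?_, ?_⟩, ψ,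
    fun _ => rfl⟩
  · rw [← hσ, typ_def, Subgroup.orderOf_mk, Multiset.lcm_add, Perm.lcm_cycleType]
    have : (Multiset.replicate (Fintype.card (Fin n) - σ.cycleType.sum) 1).lcm = 1 :=
      Nat.dvd_one.1 (Multiset.lcm_dvd.2 fun s hs => by rw [Multiset.eq_of_mem_replicate hs])
    rw [this]; simp
  · show ψ.1 σ = 0
    rw [hψ, hσ, hz]; simp

theorem exists_odd_a {n : ℕ} (hn : 7 ≤ n) : ∃ ρ₀ : Multiset ℕ, ρ₀.sum = n ∧ (∀ r ∈ ρ₀, 0 < r) ∧
    sgn ρ₀ = -1 ∧ phi ![((0 : ℕ) : ℤ), (2 : ℕ), (n + 1 : ℕ)] ρ₀ ≠ 0 := by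
  rcases Nat.even_or_odd' n with ⟨k, rfl | rfl⟩
  · refine ⟨{2 * k} + 0, by simp, by simp; omega, by simp [sgn], ?_⟩
    rw [phi_three_add _ _ (by simp; omega)]
    convert phi_021 using 3 <;> simp
  · obtain ⟨j, rfl⟩ : ∃ j, k = j + 1 := ⟨k - 1, by omega⟩
    refine ⟨{2 * j + 1, 2} + 0, by simp; ring, by simp, by simp [sgn, pow_succ], ?_⟩
    rw [phi_three_add _ _ (by simp; omega)]
    convert phi_021 using 3 <;> simp; ring

theorem exists_odd_b {n : ℕ} (hn : 7 ≤ n) : ∃ ρ₀ : Multiset ℕ, ρ₀.sum = n ∧ (∀ r ∈ ρ₀, 0 < r) ∧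
    sgn ρ₀ = -1 ∧ phi ![((0 : ℕ) : ℤ), (3 : ℕ), (n : ℕ)] ρ₀ ≠ 0 := by
  rcases Nat.even_or_odd' n with ⟨k, rfl | rfl⟩
  · obtain ⟨j, rfl⟩ : ∃ j, k = j + 1 := ⟨k - 1, by omega⟩
    refine ⟨{2 * j} + {1, 1}, by simp; ring, by simp; omega, by simp [sgn], ?_⟩
    rw [phi_three_add _ _ (by simp; omega)]
    convert phi_032 using 3 <;> simp; ring
  · refine ⟨{2 * k} + {1}, by simp, by simp; omega, by simp [sgn], ?_⟩
    rw [phi_three_add _ _ (by simp; omega)]
    convert phi_031 using 3 <;> simp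

theorem exists_odd_c {n : ℕ} (hn : 7 ≤ n) : ∃ ρ₀ : Multiset ℕ, ρ₀.sum = n ∧ (∀ r ∈ ρ₀, 0 < r) ∧
    sgn ρ₀ = -1 ∧ phi ![((1 : ℕ) : ℤ), (2 : ℕ), (n : ℕ)] ρ₀ ≠ 0 := by
  rcases Nat.even_or_odd' n with ⟨k, rfl | rfl⟩
  · refine ⟨{2 * k} + 0, by simp, by simp; omega, by simp [sgn], ?_⟩
    rw [phi_three_add _ _ (by simp; omega)]
    convert phi_120 using 3 <;> simp
  · obtain ⟨j, rfl⟩ : ∃ j, k = j + 2 := ⟨k - 2, by omega⟩
    refine ⟨{2 * j + 1, 4} + 0, by simp; ring, by simp, by simp [sgn, pow_succ], ?_⟩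
    rw [phi_three_add _ _ (by simp; omega)]
    convert phi_120 using 3 <;> simp; ring

/-- An even permutation type with parts `r` and `2 r`. -/
theorem exists_even_type {r k : ℕ} (hr : Even r) (hk : 2 ≤ k) :
    ∃ ν : Multiset ℕ, ν.sum = r * k ∧ (∀ s ∈ ν, s = r ∨ s = 2 * r) ∧ sgn ν = 1 := by
  rcases Nat.even_or_odd' k with ⟨j, rfl | rfl⟩
  · refine ⟨Multiset.replicate (2 * j) r, by simp [mul_comm], fun s hs =>
      Or.inl (Multiset.eq_of_mem_replicate hs), ?_⟩
    rw [sgn_replicate, hr.neg_one_pow, pow_mul]; norm_num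
  · obtain ⟨i, rfl⟩ : ∃ i, j = i + 1 := ⟨j - 1, by omega⟩
    refine ⟨(2 * r) ::ₘ Multiset.replicate (2 * i + 1) r, by simp; ring, fun s hs => ?_, ?_⟩
    · rcases Multiset.mem_cons.1 hs with e | e
      · exact Or.inr e
      · exact Or.inl (Multiset.eq_of_mem_replicate e)
    · rw [sgn_cons, sgn_replicate, hr.neg_one_pow, pow_mul, pow_succ (-1 : ℚ) (2 * i), pow_mul]
      norm_num

theorem exists_pow_of_lcm {ρ : Multiset ℕ} (h : ∀ s ∈ ρ, s ∣ 2 ^ 3) : ∃ j, ρ.lcm = 2 ^ j := by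
  obtain ⟨j, -, e⟩ := (Nat.dvd_prime_pow Nat.prime_two).1 (Multiset.lcm_dvd.2 h)
  exact ⟨j, e⟩

theorem alt_vanish_two {n : ℕ} (hn : 7 ≤ n) : ∃ χ : IrrCharacter (alternatingGroup (Fin n)),
    (∃ x : alternatingGroup (Fin n), (∃ j : ℕ, orderOf x = 2 ^ j) ∧ χ.1 x = 0) ∧
      ∃ ψ : IrrCharacter (Perm (Fin n)), ∀ x : alternatingGroup (Fin n), ψ.1 x = χ.1 x := by
  rcases Nat.even_or_odd' n with ⟨k, rfl | rfl⟩
  · rcases Nat.even_or_odd' k with ⟨j, rfl | rfl⟩
    · obtain ⟨ν, h1, h2, h3⟩ := exists_even_type (r := 4) (k := j) (by decide) (by omega)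
      obtain ⟨ρ₀, a1, a2, a3, a4⟩ := exists_odd_b hn
      obtain ⟨χ, ⟨x, hx, hx0⟩, h⟩ := exists_alt_vanish (a := 0) (b := 3) (by norm_num) (by omega)
        (by ring) a1 a2 a3 a4 (ρ := ν + 0) (by simp [h1]; ring)
        (fun r hr => by rcases h2 r (by simpa using hr) with e | e <;> omega) (by simpa using h3)
        (by
          rw [phi_three_add _ _ (fun r hr => by rcases h2 r hr with e | e <;> omega), h1]
          exact phi_three_eq_zero (Or.inl (by push_cast; ring)) _)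
      refine ⟨χ, ⟨x, ?_, hx0⟩, h⟩
      rw [hx]
      exact exists_pow_of_lcm fun r hr => by
        rcases h2 r (by simpa using hr) with e | e <;> rw [e] <;> norm_num
    · obtain ⟨ν, h1, h2, h3⟩ := exists_even_type (r := 4) (k := j) (by decide) (by omega)
      obtain ⟨ρ₀, a1, a2, a3, a4⟩ := exists_odd_c hn
      obtain ⟨χ, ⟨x, hx, hx0⟩, h⟩ := exists_alt_vanish (a := 1) (b := 2) (by norm_num) (by omega)
        (by ring) a1 a2 a3 a4 (ρ := ν + {1, 1}) (by simp [h1]; ring)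
        (fun r hr => by
          rcases Multiset.mem_add.1 hr with hr | hr
          · rcases h2 r hr with e | e <;> omega
          · simp at hr; omega)
        (by rw [sgn_add, h3]; simp [sgn])
        (by
          rw [phi_three_add _ _ (fun r hr => by rcases h2 r hr with e | e <;> omega), h1]
          exact phi_three_eq_zero (Or.inr (by push_cast; ring)) _)
      refine ⟨χ, ⟨x, ?_, hx0⟩, h⟩
      rw [hx]
      exact exists_pow_of_lcm fun r hr => by
        rcases Multiset.mem_add.1 hr with hr | hr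
        · rcases h2 r hr with e | e <;> rw [e] <;> norm_num
        · simp at hr; simp [hr]
  · obtain ⟨ν, h1, h2, h3⟩ := exists_even_type (r := 2) (k := k) (by decide) (by omega)
    obtain ⟨ρ₀, a1, a2, a3, a4⟩ := exists_odd_a hn
    obtain ⟨χ, ⟨x, hx, hx0⟩, h⟩ := exists_alt_vanish (a := 0) (b := 2) (by norm_num) (by omega)
      (by ring) a1 a2 a3 a4 (ρ := ν + {1}) (by simp [h1])
      (fun r hr => by
        rcases Multiset.mem_add.1 hr with hr | hr
        · rcases h2 r hr with e | e <;> omega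
        · simp at hr; omega)
      (by rw [sgn_add, h3]; simp [sgn])
      (by
        rw [phi_three_add _ _ (fun r hr => by rcases h2 r hr with e | e <;> omega), h1]
        exact phi_three_eq_zero (Or.inr (by push_cast; ring)) _)
    refine ⟨χ, ⟨x, ?_, hx0⟩, h⟩
    rw [hx]
    exact exists_pow_of_lcm fun r hr => by
      rcases Multiset.mem_add.1 hr with hr | hr
      · rcases h2 r hr with e | e <;> rw [e] <;> norm_num
      · simp at hr; simp [hr]

theorem lcm_eq_three {ρ : Multiset ℕ} (h : ∀ s ∈ ρ, s ∣ 3) (h3 : 3 ∈ ρ) : ρ.lcm = 3 :=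
  Nat.dvd_antisymm (Multiset.lcm_dvd.2 h) (Multiset.dvd_lcm h3)

theorem alt_vanish_three {n : ℕ} (hn : 7 ≤ n) : ∃ χ : IrrCharacter (alternatingGroup (Fin n)),
    (∃ x : alternatingGroup (Fin n), orderOf x = 3 ∧ χ.1 x = 0) ∧
      ∃ ψ : IrrCharacter (Perm (Fin n)), ∀ x : alternatingGroup (Fin n), ψ.1 x = χ.1 x := by
  have key : ∀ (a b m k : ℕ) (ρ : Multiset ℕ), a < b → b < m → a + b + m = n + 3 → 1 ≤ k →
      3 * k + ρ.sum = n → (∀ s ∈ ρ, s = 1 ∨ s = 3) → a < 3 → (b < 3 ∨ b = a + 3) → m = b + 3 * k →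
      (∃ ρ₀ : Multiset ℕ, ρ₀.sum = n ∧ (∀ r ∈ ρ₀, 0 < r) ∧
        sgn ρ₀ = -1 ∧ phi ![(a : ℤ), b, m] ρ₀ ≠ 0) →
      ∃ χ : IrrCharacter (alternatingGroup (Fin n)),
        (∃ x : alternatingGroup (Fin n), orderOf x = 3 ∧ χ.1 x = 0) ∧
        ∃ ψ : IrrCharacter (Perm (Fin n)), ∀ x : alternatingGroup (Fin n), ψ.1 x = χ.1 x := by
    rintro a b m k ρ h1 h2 h3 h4 h5 h6 h7 h8 h9 ⟨ρ₀, a1, a2, a3, a4⟩
    have hmem : ∀ s ∈ Multiset.replicate k 3 + ρ, s = 1 ∨ s = 3 := fun s hs => by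
      rcases Multiset.mem_add.1 hs with hs | hs
      · exact Or.inr (Multiset.eq_of_mem_replicate hs)
      · exact h6 s hs
    obtain ⟨χ, ⟨x, hx, hx0⟩, h⟩ := exists_alt_vanish h1 h2 h3 a1 a2 a3 a4
      (ρ := Multiset.replicate k 3 + ρ) (by simp; omega)
      (fun r hr => by rcases hmem r hr with e | e <;> omega)
      (by
        unfold sgn
        apply Multiset.prod_eq_one
        intro y hy
        obtain ⟨r, hr, rfl⟩ := Multiset.mem_map.1 hy
        rcases hmem r hr with e | e <;> rw [e] <;> norm_num)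
      (by
        rw [phi_three_add _ _ (fun r hr => by
          rw [Multiset.eq_of_mem_replicate hr]; omega)]
        exact phi_three_eq_zero (Or.inr (by rw [h9]; simp; ring)) _)
    refine ⟨χ, ⟨x, ?_, hx0⟩, h⟩
    rw [hx]
    refine lcm_eq_three (fun s hs => by rcases hmem s hs with e | e <;> simp [e]) ?_
    exact Multiset.mem_add.2 (Or.inl (Multiset.mem_replicate.2 ⟨by omega, rfl⟩))
  obtain ⟨k, hk⟩ : ∃ k, n = 3 * k + 3 ∨ n = 3 * k + 1 ∨ n = 3 * k + 2 :=
    ⟨(n - 1) / 3, by omega⟩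
  rcases hk with hk | hk | hk
  · exact key 0 3 n k {3} (by omega) (by omega) (by omega) (by omega) (by simp [hk]) (by simp)
      (by omega) (by omega) (by omega) (exists_odd_b hn)
  · exact key 0 2 (n + 1) k {1} (by omega) (by omega) (by omega) (by omega) (by simp [hk]) (by simp)
      (by omega) (by omega) (by omega) (exists_odd_a hn)
  · exact key 1 2 n k {1, 1} (by omega) (by omega) (by omega) (by omega) (by simp [hk]) (by simp)
      (by omega) (by omega) (by omega) (exists_odd_c hn)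

end SymCh
end Cfsg
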