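import Cfsg.Agent.CT.FullyRam
import Cfsg.Agent.CT.Degrees
import Cfsg.Agent.Grp.Wreath

/-!
# Every solvable group embeds in `H / Z(H)` for a group `H` of central type
-/

set_option autoImplicit false
set_option linter.unusedSectionVars false

open scoped commutatorElement

namespace Cfsg

open RegularWreathProduct

universe u

/-- `l` is an invariant linear character of `ker π` which is fully ramified in `H`. -/
structure IsCTData (m : ℕ) {H Q : Type u} [Group H] [Group Q] (π : H →* Q) (l : H → ℂˣ) :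
    Prop where
  surj : Function.Surjective π
  mul : ∀ a b, π a = 1 → π b = 1 → l (a * b) = l a * l b
  conj : ∀ h z, π z = 1 → l (h * z * h⁻¹) = l z
  pow : ∀ z, π z = 1 → l z ^ m = 1
  nondeg : ∀ h, π h ≠ 1 → ∃ x : H, π ⁅x, h⁆ = 1 ∧ l ⁅x, h⁆ ≠ 1
  primes : ∀ q : ℕ, q.Prime → q ∣ Nat.card Q → q ∣ m

namespace IsCTData

variable {m : ℕ} {K Q : Type u} [Group K] [Group Q] {π : K →* Q} {l : K → ℂˣ}

theorem one (h : IsCTData m π l) : l 1 = 1 := by
  have := h.mul 1 1 (map_one _) (map_one _)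
  simpa using this

theorem inv (h : IsCTData m π l) {z : K} (hz : π z = 1) : l z⁻¹ = (l z)⁻¹ := by
  have := h.mul z⁻¹ z (by simp [hz]) hz
  rw [inv_mul_cancel, h.one] at this
  exact eq_inv_of_mul_eq_one_left this.symm

/-- the linear character as a homomorphism -/
def hom (h : IsCTData m π l) : π.ker →* ℂˣ where
  toFun z := l z
  map_one' := h.one
  map_mul' a b := h.mul a b a.2 b.2

end IsCTData

section step

variable {K Q : Type u} [Group K] [Group Q] (π : K →* Q) (l : K → ℂˣ) (C : Type u) [Group C]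
  [Fintype C] (A : Type u) [CommGroup A] (ev : A →* C →* ℂˣ)

/-- the projection in the wreath step -/
def ctProj : (K × A) ≀ᵣ C →* (Q ≀ᵣ C) × A where
  toFun w := (wreathMap (π.comp (MonoidHom.fst _ _)) C w, ∏ i, (w.left i).2)
  map_one' := by simp
  map_mul' a b := by
    refine Prod.ext (map_mul _ _ _) ?_
    simp only [mul_left, Pi.mul_apply, Prod.snd_mul, Finset.prod_mul_distrib]
    congr 1
    exact Fintype.prod_equiv (Equiv.mulLeft a.right⁻¹) _ _ fun _ => rfl

variable {A C} in
/-- the linear character in the wreath step -/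
def ctChar (w : (K × A) ≀ᵣ C) : ℂˣ := ∏ i, l (w.left i).1 * ev (w.left i).2 i

variable {π l C A ev}

theorem ctProj_eq_one {w : (K × A) ≀ᵣ C} : ctProj π C A w = 1 ↔
    w.right = 1 ∧ (∀ i, π (w.left i).1 = 1) ∧ ∏ i, (w.left i).2 = 1 := by
  constructor
  · intro h
    have h1 := congrArg Prod.fst h
    exact ⟨congrArg right h1, fun i => congrFun (congrArg left h1) i, congrArg Prod.snd h⟩
  · rintro ⟨h1, h2, h3⟩
    exact Prod.ext (RegularWreathProduct.ext (funext h2) h1) h3

theorem IsCTData.step [Finite Q] {m : ℕ} (h : IsCTData m π l) 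
    (hm : Nat.card C ∣ m) (hA : Nat.card A = Nat.card C) (hev : Function.Injective ev)
    (hsep : ∀ c, (∀ a, ev a c = 1) → c = 1) : IsCTData (Q := (Q ≀ᵣ C) × A) m (ctProj π C A) (ctChar l ev) := by
  classical
  have hprod : ∀ (f : C → A) (c : C), ev (∏ i, f i) c = ∏ i, ev (f i) c := fun f c => by
    rw [map_prod, MonoidHom.finsetProd_apply]
  refine ⟨?_, ?_, ?_, ?_, ?_, ?_⟩
  · rintro ⟨w, a⟩
    choose f hf using fun i => h.surj (w.left i)
    refine ⟨⟨fun i => (f i, (Pi.mulSingle (1 : C) a : C → A) i), w.right⟩,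
      Prod.ext (RegularWreathProduct.ext (funext hf) rfl) ?_⟩
    simp [ctProj]
  · intro a b ha hb
    rw [ctProj_eq_one] at ha hb
    simp only [ctChar, mul_left, Pi.mul_apply, Prod.fst_mul, Prod.snd_mul, ha.1, inv_one, one_mul,
      map_mul, MonoidHom.mul_apply, ← Finset.prod_mul_distrib]
    refine Finset.prod_congr rfl fun i _ => ?_
    rw [h.mul _ _ (ha.2.1 i) (hb.2.1 i)]
    ac_rfl
  · intro w z hz
    rw [ctProj_eq_one] at hz
    have h1 : ∀ i, (w * z * w⁻¹).left i = w.left i * z.left (w.right⁻¹ * i) * (w.left i)⁻¹ :=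
      fun i => by simp [hz.1]
    have h2 : ∏ i, ev (z.left i).2 w.right = 1 := by
      rw [← hprod, hz.2.2, map_one, MonoidHom.one_apply]
    simp only [ctChar, h1, Prod.fst_mul, Prod.fst_inv, Prod.snd_mul, Prod.snd_inv,
      h.conj _ _ (hz.2.1 _), mul_inv_cancel_comm]
    rw [← one_mul (∏ i, l (z.left i).1 * ev (z.left i).2 i), ← h2, ← Finset.prod_mul_distrib]
    refine Fintype.prod_equiv (Equiv.mulLeft w.right⁻¹) _ _ fun i => ?_
    rw [Equiv.coe_mulLeft, mul_left_comm, ← map_mul, mul_inv_cancel_left]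
  · intro z hz
    rw [ctProj_eq_one] at hz
    rw [ctChar, ← Finset.prod_pow]
    refine Finset.prod_eq_one fun i _ => ?_
    obtain ⟨k, rfl⟩ := hm
    rw [mul_pow, h.pow _ (hz.2.1 i), ← map_pow, pow_mul, pow_card_eq_one', one_pow, map_one,
      one_mul]
  · intro w hw
    by_cases h1 : w.right = 1
    swap
    · obtain ⟨a, ha⟩ : ∃ a : A, ev a w.right ≠ 1 := by
        by_contra h2
        push Not at h2
        exact h1 (hsep _ h2)
      let x : (K × A) ≀ᵣ C :=
        ⟨fun i => (1, (Pi.mulSingle (1 : C) a : C → A) i), 1⟩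
      have hx : ∀ i, ⁅x, w⁆.left i = (1, (Pi.mulSingle (1 : C) a : C → A) i *
          ((Pi.mulSingle (1 : C) a : C → A) (w.right⁻¹ * i))⁻¹) := fun i => by
        refine Prod.ext ?_ ?_ <;> simp [commutatorElement_def, x, mul_right_comm]
      have hx' : ∀ i, (Pi.mulSingle (1 : C) a : C → A) (w.right⁻¹ * i) =
          (Pi.mulSingle w.right a : C → A) i := fun i => by
        simp only [Pi.mulSingle_apply, inv_mul_eq_one, eq_comm]
      refine ⟨x, ctProj_eq_one.2 ⟨by simp [commutatorElement_def, x], fun i => by simp [hx], ?_⟩,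
        ?_⟩
      · simp [hx, hx', Finset.prod_mul_distrib]
      · have h3 : ∀ c : C, ∏ i, ev ((Pi.mulSingle c a : C → A) i) i = ev a c := fun c => by
          rw [Finset.prod_eq_single c (fun i _ hi => by simp [hi]) (by simp)]
          simp
        simp only [ctChar, hx, hx', h.one, one_mul, map_mul, map_inv, MonoidHom.mul_apply,
          MonoidHom.inv_apply,
          Finset.prod_mul_distrib, Finset.prod_inv_distrib, h3, map_one]
        simpa using ha
    by_cases h2 : ∀ i, π (w.left i).1 = 1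
    swap
    · push Not at h2
      obtain ⟨j, hj⟩ := h2
      obtain ⟨y, hy1, hy2⟩ := h.nondeg _ hj
      let x : (K × A) ≀ᵣ C := ⟨fun i => ((Pi.mulSingle j y : C → K) i, 1), 1⟩
      have hx : ∀ i, ⁅x, w⁆.left i = ((Pi.mulSingle j ⁅y, (w.left j).1⁆ : C → K) i, 1) :=
        fun i => by
          refine Prod.ext ?_ ?_
          · by_cases hi : i = j
            · subst hi; simp [commutatorElement_def, x, h1]
            · simp [commutatorElement_def, x, h1, hi]
          · simp [commutatorElement_def, x, h1]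
      refine ⟨x, ctProj_eq_one.2 ⟨by simp [commutatorElement_def, x], fun i => ?_, by simp [hx]⟩,
        ?_⟩
      · by_cases hi : i = j
        · subst hi; simpa [hx] using hy1
        · simp [hx, hi]
      · simp only [ctChar, hx, map_one, MonoidHom.one_apply, mul_one]
        rw [Finset.prod_eq_single j (fun i _ hi => by simp [hi, h.one]) (by simp)]
        simpa using hy2
    have h3 : ∏ i, (w.left i).2 ≠ 1 := fun h3 => hw (ctProj_eq_one.2 ⟨h1, h2, h3⟩)
    obtain ⟨c, hc⟩ : ∃ c, ev (∏ i, (w.left i).2) c ≠ 1 := by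
      by_contra h4
      push Not at h4
      exact h3 (hev ((MonoidHom.ext h4).trans (map_one ev).symm))
    have hx : ∀ i, ⁅(inl c : (K × A) ≀ᵣ C), w⁆.left i =
        w.left (c⁻¹ * i) * (w.left i)⁻¹ := fun i => by simp [commutatorElement_def, h1]
    have hs : ∀ (f : C → A), ∏ i, f (c⁻¹ * i) = ∏ i, f i :=
      fun f => Fintype.prod_equiv (Equiv.mulLeft c⁻¹) _ _ fun _ => rfl
    refine ⟨inl c, ctProj_eq_one.2 ⟨by simp [commutatorElement_def, h1], fun i => by simp [hx, h2],
      ?_⟩, ?_⟩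
    · simp only [hx, Prod.snd_mul, Prod.snd_inv, Finset.prod_mul_distrib, Finset.prod_inv_distrib]
      rw [hs fun i => (w.left i).2, mul_inv_cancel]
    · have h4 : ∀ i, l ((w.left (c⁻¹ * i)).1 * (w.left i).1⁻¹) =
          l (w.left (c⁻¹ * i)).1 * (l (w.left i).1)⁻¹ := fun i => by
        rw [h.mul _ _ (h2 _) (by simp [h2]), h.inv (h2 _)]
      simp only [ctChar, hx, Prod.fst_mul, Prod.fst_inv, Prod.snd_mul, Prod.snd_inv, h4, map_mul,
        map_inv, MonoidHom.mul_apply, MonoidHom.inv_apply, Finset.prod_mul_distrib, Finset.prod_inv_distrib]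
      rw [Fintype.prod_equiv (Equiv.mulLeft c⁻¹) (fun i => l (w.left (c⁻¹ * i)).1)
        (fun i => l (w.left i).1) fun _ => rfl, mul_inv_cancel, one_mul,
        Fintype.prod_equiv (Equiv.mulLeft c⁻¹) (fun i => ev (w.left (c⁻¹ * i)).2 i)
        (fun i => ev (w.left i).2 c * ev (w.left i).2 i) fun i => by
          rw [Equiv.coe_mulLeft, ← map_mul, mul_inv_cancel_left],
        Finset.prod_mul_distrib, mul_inv_cancel_right, ← hprod]
      exact hc
  · intro q hq hd
    rw [Nat.card_prod, card, hA] at hd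
    rcases (Nat.Prime.dvd_mul hq).1 hd with h1 | h1
    · rcases (Nat.Prime.dvd_mul hq).1 h1 with h2 | h2
      · exact h.primes q hq (hq.dvd_of_dvd_pow h2)
      · exact h2.trans hm
    · exact h1.trans hm

end step

theorem exists_isCTData (m : ℕ) (G : Type u) [Group G] [Finite G] (h : Group.IsSolvable G)
    (hm : ∀ q : ℕ, q.Prime → q ∣ Nat.card G → q ∣ m) :
    ∃ (H Q : Type u) (_ : Group H) (_ : Finite H) (_ : Group Q) (π : H →* Q) (l : H → ℂˣ),
      IsCTData m π l ∧ ∃ f : G →* Q, Function.Injective f := by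
  revert h hm
  refine induction_on_card (P := fun G _ _ => Group.IsSolvable G →
    (∀ q : ℕ, q.Prime → q ∣ Nat.card G → q ∣ m) →
    ∃ (H Q : Type u) (_ : Group H) (_ : Finite H) (_ : Group Q) (π : H →* Q) (l : H → ℂˣ),
      IsCTData m π l ∧ ∃ f : G →* Q, Function.Injective f) ?_ G
  intro G _ _ ih h hm
  rcases subsingleton_or_nontrivial G with hG | hG
  · exact ⟨G, G, inferInstance, inferInstance, inferInstance, MonoidHom.id G, fun _ => 1,
      ⟨Function.surjective_id, by simp, by simp, by simp,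
        fun h hh => (hh (Subsingleton.elim _ _)).elim, hm⟩, MonoidHom.id G, Function.injective_id⟩
  obtain ⟨N, hN, hp⟩ := exists_normal_prime_index h
  obtain ⟨K, Q, _, _, _, π, l, hK, f, hf⟩ := ih N (card_lt_of_ne_top fun h0 => by
    rw [h0, Subgroup.index_top] at hp; exact Nat.not_prime_one hp) inferInstance
    fun q hq hd => hm q hq (hd.trans N.card_subgroup_dvd_card)
  obtain ⟨φ, hφ⟩ := exists_injective_wreath N
  have := Fintype.ofFinite (G ⧸ N)
  have : Finite Q := Finite.of_surjective π hK.surj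
  have : Finite (G ⧸ N →* ℂˣ) := Finite.of_injective _ IrrCharacter.ofHom_injective
  have : Fact N.index.Prime := ⟨hp⟩
  have hcyc : IsCyclic (G ⧸ N) := isCyclic_of_prime_card (p := N.index) rfl
  have hcomm : commutator (G ⧸ N) = ⊥ := by
    rw [commutator_eq_bot_iff]; exact IsCyclic.isMulCommutative
  refine ⟨(K × (G ⧸ N →* ℂˣ)) ≀ᵣ (G ⧸ N), (Q ≀ᵣ (G ⧸ N)) × (G ⧸ N →* ℂˣ), inferInstance,
    inferInstance, inferInstance, _, _,
    hK.step (C := G ⧸ N) (A := G ⧸ N →* ℂˣ) (ev := MonoidHom.id _) (hm _ hp N.index_dvd_card)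
      (by rw [card_unitsHom, hcomm, Subgroup.index_bot]) Function.injective_id
      (fun c hc => Subgroup.mem_bot.1 (hcomm ▸ mem_commutator_iff_forall_unitsHom.2 hc)),
    (MonoidHom.inl _ _).comp ((wreathMap f _).comp φ), fun a b hab => ?_⟩
  exact hφ (wreathMap_injective hf (congrArg Prod.fst hab))

theorem IrrCharacter.dvd_card_center_of_centralType {H : Type u} [Group H] [Finite H]
    (χ : IrrCharacter H) (h : charDegree χ.1 ^ 2 = (Subgroup.center H).index) {p : ℕ}
    (hp : p.Prime) (hd : p ∣ Nat.card H) : p ∣ Nat.card (Subgroup.center H) := by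
  have : Fact p.Prime := ⟨hp⟩
  by_contra hZ
  obtain ⟨l, -, hl, -⟩ := χ.isCharacter.exists_hom_of_le_charCenter (fun h0 => χ.one_ne_zero (congrFun h0 1))
    χ.center_le_charCenter
  obtain ⟨hinv, hu, -⟩ := uniqOver_top_of_fullyRamified (θ := IrrCharacter.ofHom l) h
    fun z => by rw [hl, χ.one_eq_charDegree]; rfl
  obtain ⟨S⟩ : Nonempty (Sylow p H) := inferInstance
  have h1 := (hu.sup_sylow hinv S).le_of_extTo le_sup_left Subgroup.le_normalizer_of_normal
    (le_top.trans hinv) (extTo_of_coprime le_sup_left Subgroup.le_normalizer_of_normal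
      (le_top.trans hinv) (by
        rw [Subgroup.relIndex_sup_left]
        exact ((coprime_card_of_isPGroup S.isPGroup' hZ).coprime_dvd_left
          (Subgroup.relIndex_dvd_card _ _)).symm))
  exact hZ ((dvd_card_of_isPGroup_of_ne_bot S.isPGroup' (S.ne_bot_of_dvd_card hd)).trans
    (Subgroup.card_dvd_of_le (le_sup_right.trans h1)))

theorem IsCTData.exists_centralType {m : ℕ} {K Q : Type u} [Group K] [Finite K] [Group Q]
    {π : K →* Q} {l : K → ℂˣ} (h : IsCTData m π l) :
    ∃ (H : Type u) (_ : Group H) (_ : Finite H) (χ : IrrCharacter H), charKer χ.1 = ⊥ ∧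
      charDegree χ.1 ^ 2 = (Subgroup.center H).index ∧
      Nonempty (H ⧸ Subgroup.center H ≃* Q) ∧ Nat.card (Subgroup.center H) ∣ m := by
  have := Fintype.ofFinite K
  have := Fintype.ofFinite π.ker
  obtain ⟨χ, hχ⟩ := (IrrCharacter.ofHom h.hom).exists_over
  have hinv : (⊤ : Subgroup K) ≤ ezStab (IrrCharacter.ofHom h.hom) := by
    rw [ezStab_eq_charInertia]
    exact fun g _ => mem_charInertia_ofHom.2 fun n => h.conj g n n.2
  have hres : ∀ z, π z = 1 → χ.1 z = χ.1 1 * l z := fun z hz => by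
    have h1 := fun x hx => ez_eq_rmult_mul le_top Subgroup.le_normalizer_of_normal hinv
      (rmult_toTop_ne_zero_iff.2 hχ) (x := x) hx
    have h2 := h1 z hz
    have h3 := h1 1 (one_mem _)
    rw [IrrCharacter.ez_toTop, IrrCharacter.ez_of_mem _ (one_mem _)] at h3
    rw [IrrCharacter.ez_toTop, IrrCharacter.ez_of_mem _ hz] at h2
    rw [h2, h3]
    simp [IsCTData.hom, h.one]
  have hZ : π.ker ≤ charCenter χ.1 := fun z hz =>
    χ.isCharacter.mem_charCenter_of_eq_mul (norm_unitsHom h.hom ⟨z, hz⟩) (hres z hz)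
  have hker : ∀ z, π z = 1 → z ∈ charKer χ.1 → l z = 1 := fun z hz hk => by
    have h1 := χ.mem_charKer.1 hk
    rw [hres z hz] at h1
    exact Units.ext (mul_left_cancel₀ χ.one_ne_zero (h1.trans (mul_one _).symm))
  have hvan : ∀ g, g ∉ π.ker → χ.1 g = 0 := fun g hg => by
    obtain ⟨x, h1, h2⟩ := h.nondeg g hg
    refine χ.isCharacter.eq_zero_of_commutator_mem_charCenter (x := x) ?_ ?_
    · rw [← commutatorElement_inv]; exact inv_mem (hZ h1)
    · rw [← commutatorElement_inv, inv_mem_iff]; exact fun h3 => h2 (hker _ h1 h3)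
  have hZ' : charCenter χ.1 = π.ker := le_antisymm (fun g hg => by
    by_contra h1
    have h2 := χ.mem_charCenter.1 hg
    rw [hvan g h1, norm_zero] at h2
    exact χ.charDegree_pos.ne (by exact_mod_cast h2)) hZ
  have hKZ : charKer χ.1 ≤ π.ker := hZ' ▸ charKer_le_charCenter _
  obtain ⟨ψ, hψ⟩ := χ.exists_inflate_eq (charKer χ.1) le_rfl
  have hψk : charKer ψ.1 = ⊥ := by
    have h1 := IrrCharacter.charKer_inflate _ ψ
    rw [hψ] at h1
    rw [← map_comap_mk _ (charKer ψ.1), ← h1, map_mk_eq_bot_iff]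
  have hcen : (Subgroup.center (K ⧸ charKer χ.1)).comap (QuotientGroup.mk' _) = π.ker := by
    rw [← χ.charCenter_eq_comap, hZ']
  refine ⟨K ⧸ charKer χ.1, inferInstance, inferInstance, ψ, hψk, ?_, ?_, ?_⟩
  · rw [← index_comap_mk, hcen, ← ψ.charDegree_inflate, hψ]
    exact (χ.sq_charDegree_eq_index_iff_of_le hZ).2 hvan
  · obtain ⟨e, -⟩ := exists_quotient_mulEquiv_of_ker_eq (N := Subgroup.center (K ⧸ charKer χ.1))
      (QuotientGroup.lift (charKer χ.1) π hKZ)
      (QuotientGroup.lift_surjective_of_surjective _ _ h.surj _) (by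
        rw [QuotientGroup.ker_lift, ← hcen, map_comap_mk])
    exact ⟨e⟩
  · have hc : IsCyclic (Subgroup.center (K ⧸ charKer χ.1)) :=
      ψ.isCharacter.isCyclic_of_le_charCenter hψk ψ.center_le_charCenter
    rw [← IsCyclic.exponent_eq_card, Monoid.exponent_dvd_iff_forall_pow_eq_one]
    rintro ⟨z, hz⟩
    obtain ⟨z, rfl⟩ := QuotientGroup.mk_surjective z
    have h1 : z ∈ π.ker := hcen ▸ hz
    refine Subtype.ext ((QuotientGroup.eq_one_iff (z ^ m)).2 (χ.mem_charKer.2 ?_))
    have h2 : l (z ^ m) = 1 := (map_pow h.hom ⟨z, h1⟩ m).trans (h.pow z h1)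
    rw [hres _ (pow_mem h1 m), h2]
    simp

end Cfsg
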