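import Cfsg.Agent.CT.Extension
import Cfsg.Agent.CT.PRegular
import Cfsg.Agent.Grp.Frobenius
import Cfsg.Agent.Grp.SelfCent

/-!
# Codegrees of irreducible characters
-/

namespace Cfsg

universe u

variable {G : Type u} [Group G] [Finite G]

/-- the codegree of a character -/
noncomputable def codegree (χ : G → ℂ) : ℕ :=
  Nat.card G / (Nat.card {g : G // χ g = χ 1} * charDegree χ)

theorem IrrCharacter.codegree_mul_charDegree (χ : IrrCharacter G) :
    codegree χ.1 * charDegree χ.1 = (charKer χ.1).index := by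
  obtain ⟨c, hc⟩ := χ.charDegree_dvd_index_charKer
  rw [codegree, χ.isCharacter.card_charKer, ← (charKer χ.1).card_mul_index, hc, ← mul_assoc,
    Nat.mul_div_cancel_left _ (Nat.mul_pos Nat.card_pos χ.charDegree_pos), mul_comm]

theorem IrrCharacter.codegree_dvd_card (χ : IrrCharacter G) : codegree χ.1 ∣ Nat.card G :=
  (Dvd.intro _ χ.codegree_mul_charDegree).trans (Subgroup.index_dvd_card _)

/-- A group with a faithful irreducible character of prime codegree `p` has a self-centralizing
normal subgroup of order `p`. -/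
theorem IrrCharacter.exists_isSelfCentPrime_of_card_eq (χ : IrrCharacter G)
    {p : ℕ} (hp : p.Prime) (hcod : Nat.card G = p * charDegree χ.1) :
    ∃ x : G, IsSelfCentPrime p x ∧ (Subgroup.zpowers x).Normal := by
  haveI := Fact.mk hp
  haveI := Fintype.ofFinite G
  set d := charDegree χ.1 with hd
  have hd0 : 0 < d := χ.charDegree_pos
  have hlt : d < p := by
    have h1 := χ.sq_charDegree_le_index_center
    have h2 : (Subgroup.center G).index ≤ Nat.card G :=
      Nat.le_of_dvd Nat.card_pos (Subgroup.index_dvd_card _)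
    rw [← hd] at h1
    have h3 : d ≤ p := by
      have : d * d ≤ p * d := by rw [← sq, ← hcod]; exact h1.trans h2
      exact Nat.le_of_mul_le_mul_right this hd0
    refine lt_of_le_of_ne h3 fun he => ?_
    rw [he, ← sq] at hcod
    haveI : IsMulCommutative G := IsPGroup.isMulCommutative_of_card_eq_prime_sq hcod
    have := χ.charDegree_eq_one_of_comm
    rw [← hd, he] at this
    exact hp.one_lt.ne' this
  obtain ⟨x, hx⟩ := exists_prime_orderOf_dvd_card' (G := G) p (hcod ▸ Dvd.intro _ rfl)
  have hcard : Nat.card (Subgroup.zpowers x) = p := by rw [Nat.card_zpowers, hx]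
  have hidx : (Subgroup.zpowers x).index = d := by
    have := (Subgroup.zpowers x).card_mul_index
    rw [hcard, hcod] at this
    exact Nat.eq_of_mul_eq_mul_left hp.pos this
  obtain ⟨P, hP⟩ := exists_sylow_eq_of_not_dvd_index (P := Subgroup.zpowers x)
    (IsPGroup.of_card (n := 1) (by rw [hcard, pow_one]))
    (by rw [hidx]; exact Nat.not_dvd_of_pos_of_lt hd0 hlt)
  have hn : (Subgroup.zpowers x).Normal := by
    have h1 : Nat.card (Sylow p G) ≡ 1 [MOD p] := card_sylow_modEq_one p G
    have h2 := P.card_dvd_index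
    rw [hP, hidx] at h2
    have h3 : Nat.card (Sylow p G) < p := (Nat.le_of_dvd hd0 h2).trans_lt hlt
    have h4 : Nat.card (Sylow p G) = 1 := by
      have := h1.eq_of_lt_of_lt h3 hp.one_lt
      exact this
    haveI := (Nat.card_eq_one_iff_unique.1 h4).1
    rw [← hP]
    exact Sylow.normal_of_subsingleton P
  refine ⟨x, ⟨hx, ?_⟩, hn⟩
  haveI := Fintype.ofFinite (Subgroup.zpowers x)
  obtain ⟨θ, hθ⟩ := χ.exists_under (Subgroup.zpowers x)
  obtain ⟨e, he0, he, -, hdeg, -⟩ := clifford χ hθ
  have h1 := sum_sq_classInner_res θ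
  have h2 : e ^ 2 ≤ (Subgroup.zpowers x).relIndex (charInertia θ.1) := by
    have h3 : ∀ ψ : IrrCharacter G, ∃ n : ℕ,
        classInner (fun n : Subgroup.zpowers x => ψ.1 n) θ.1 = n := fun ψ =>
      (ψ.isCharacter.res _).exists_classInner_eq_nat θ.isCharacter
    choose m hm using h3
    simp only [hm] at h1
    have h4 : ∑ ψ, m ψ ^ 2 = (Subgroup.zpowers x).relIndex (charInertia θ.1) := by
      exact_mod_cast h1
    have h5 : m χ = e := by rw [hm] at he; exact_mod_cast he
    rw [← h4, ← h5]
    exact Finset.single_le_sum (f := fun ψ => m ψ ^ 2) (fun _ _ => Nat.zero_le _)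
      (Finset.mem_univ χ)
  rw [θ.charDegree_eq_one_of_comm, mul_one, ← hd, ← hidx,
    ← Subgroup.relIndex_mul_index θ.le_charInertia] at hdeg
  have h3 := Nat.eq_of_mul_eq_mul_right (Nat.pos_of_ne_zero Subgroup.index_ne_zero_of_finite) hdeg
  rw [h3] at h2
  have h4 : e = 1 := by nlinarith
  rw [h4, Subgroup.relIndex_eq_one] at h3
  refine le_antisymm ?_ (Subgroup.zpowers_le.2 (Subgroup.mem_centralizer_singleton_iff.2 rfl))
  rw [← centralizer_zpowers]
  exact (centralizer_le_charInertia θ.1).trans h3

end Cfsg
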