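import Cfsg.Agent.CT.Mult
import Cfsg.Agent.CT.Indicator
import Cfsg.Agent.CT.Det
import Cfsg.Agent.CT.Kernel

/-! Groups with an element `u` such that every nonprincipal irreducible character satisfies
`χ 1 - χ u = 4` or `χ u = 0`: first properties. -/

set_option autoImplicit false
set_option linter.unusedSectionVars false
open scoped ComplexConjugate Classical

namespace Cfsg
namespace CFour

universe u
variable {G : Type u} [Group G]

/-- The hypothesis on `u`. -/
def Hyp (u : G) : Prop :=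
  ∀ χ : IrrCharacter G, χ ≠ IrrCharacter.triv G → χ.1 1 - χ.1 u = 4 ∨ χ.1 u = 0

section avg
variable [Fintype G]

/-- The average of a function on the group. -/
noncomputable def avg (f : G → ℂ) : ℂ := (Nat.card G : ℂ)⁻¹ * ∑ g, f g

theorem classInner_eq_avg (φ ψ : G → ℂ) :
    classInner φ ψ = avg (fun g => φ g * conj (ψ g)) := classInner_def _ _

theorem avg_congr {f f' : G → ℂ} (h : ∀ g, f g = f' g) : avg f = avg f' := by
  rw [show f = f' from funext h]

theorem avg_add (f f' : G → ℂ) : avg (fun g => f g + f' g) = avg f + avg f' := by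
  simp [avg, Finset.sum_add_distrib, mul_add]

theorem avg_const_mul (c : ℂ) (f : G → ℂ) : avg (fun g => c * f g) = c * avg f := by
  simp only [avg, ← Finset.mul_sum]; ring

theorem avg_const (c : ℂ) : avg (fun _ : G => c) = c := by
  have : (Nat.card G : ℂ) ≠ 0 := by exact_mod_cast Nat.card_pos.ne'
  simp only [avg, Finset.sum_const, Finset.card_univ, nsmul_eq_mul, ← Nat.card_eq_fintype_card]
  field_simp

theorem avg_poly (x : G → ℂ) (a0 a1 a2 a3 a4 : ℂ) :
    avg (fun g => a0 + a1 * x g + a2 * x g ^ 2 + a3 * x g ^ 3 + a4 * x g ^ 4) =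
      a0 + a1 * avg x + a2 * avg (fun g => x g ^ 2) + a3 * avg (fun g => x g ^ 3) +
        a4 * avg (fun g => x g ^ 4) := by
  rw [avg_add (fun g => a0 + a1 * x g + a2 * x g ^ 2 + a3 * x g ^ 3),
    avg_add (fun g => a0 + a1 * x g + a2 * x g ^ 2), avg_add (fun g => a0 + a1 * x g),
    avg_add (fun _ => a0), avg_const, avg_const_mul, avg_const_mul, avg_const_mul, avg_const_mul]

theorem classInner_triv_eq_avg (φ : G → ℂ) :
    classInner φ (IrrCharacter.triv G).1 = avg φ := by
  rw [classInner_eq_avg]; simp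

theorem avg_irr {ψ : IrrCharacter G} (h : ψ ≠ IrrCharacter.triv G) : avg ψ.1 = 0 := by
  rw [← classInner_triv_eq_avg]; exact IrrCharacter.classInner_of_ne h

theorem classInner_ne_zero_of_common {φ φ' : G → ℂ} (h : IsCharacter G φ) (h' : IsCharacter G φ')
    {ξ : IrrCharacter G} (h1 : classInner φ ξ.1 ≠ 0) (h2 : classInner φ' ξ.1 ≠ 0) :
    classInner φ φ' ≠ 0 := by
  obtain ⟨a, ha⟩ := (h.sub_irr ξ h1).exists_classInner_eq_nat h'
  obtain ⟨b, hb⟩ := ξ.isCharacter.exists_classInner_eq_nat h'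
  have hb0 : b ≠ 0 := by
    rintro rfl
    apply h2
    rw [← conj_classInner, hb]; simp
  rw [classInner_sub_left, hb] at ha
  have : classInner φ φ' = ((a + b : ℕ) : ℂ) := by push_cast; linear_combination ha
  rw [this]
  exact_mod_cast (by omega : a + b ≠ 0)

end avg

section general
variable [Finite G] {u : G}

theorem detChar_eq_one_of_perfect (hperf : commutator G = ⊤) (χ : G → ℂ) (g : G) :
    detChar χ g = 1 := by
  have : g ∈ commutator G := hperf ▸ Subgroup.mem_top g
  have := mem_commutator_iff_forall_unitsHom.1 this (detHom χ)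
  rw [← coe_detHom, this]; rfl

theorem deg_three_mul_self (hperf : commutator G = ⊤) {χ : G → ℂ} (hχ : IsCharacter G χ)
    (hd : charDegree χ = 3) (g : G) : χ (g * g) = χ g ^ 2 - 2 * conj (χ g) := by
  obtain ⟨ε, h1, h2, h3, h4⟩ := hχ.exists_eigenvalues g
  rw [detChar_eq_one_of_perfect hperf] at h4
  have hinv := hχ.apply_inv g
  have e1 := h2 1
  have e2 := h2 2
  have e3 := h3 (-1)
  simp only [pow_one, zpow_neg, zpow_one] at e1 e3
  rw [pow_two] at e2
  have hne : ∀ i, ε i ≠ 0 := fun i h0 => by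
    have := h1 i
    rw [h0, zero_pow (orderOf_pos g).ne'] at this
    exact zero_ne_one this
  revert ε
  generalize charDegree χ = n at hd
  subst hd
  intro ε h1 h2 h3 h4 e1 e2 e3 hne
  simp only [Fin.sum_univ_three, Fin.prod_univ_three] at h4 e1 e2 e3
  rw [← hinv, e1, e2, e3]
  have a0 : (ε 0)⁻¹ = ε 1 * ε 2 := by
    field_simp [hne 0]; linear_combination h4
  have a1 : (ε 1)⁻¹ = ε 0 * ε 2 := by
    field_simp [hne 1]; linear_combination h4
  have a2 : (ε 2)⁻¹ = ε 0 * ε 1 := by
    field_simp [hne 2]; linear_combination h4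
  rw [a0, a1, a2]; ring

theorem Hyp.perfect (h : Hyp u) : commutator G = ⊤ := by
  rw [eq_top_iff]
  intro g _
  rw [mem_commutator_iff_forall_unitsHom]
  intro f
  by_cases hf : f = 1
  · simp [hf]
  · exfalso
    have hne : IrrCharacter.ofHom f ≠ IrrCharacter.triv G := by
      rw [← IrrCharacter.ofHom_one]
      exact fun e => hf (IrrCharacter.ofHom_injective e)
    rcases h _ hne with h1 | h1
    · simp only [IrrCharacter.ofHom_apply, map_one, Units.val_one] at h1
      have h2 : (f u : ℂ) = -3 := by linear_combination -h1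
      have := norm_unitsHom f u
      rw [h2] at this
      norm_num at this
    · simp at h1

theorem Hyp.not_mem_charKer (h : Hyp u) {χ : IrrCharacter G} (hχ : χ ≠ IrrCharacter.triv G) :
    u ∉ charKer χ.1 := by
  intro hu
  rw [χ.mem_charKer] at hu
  rcases h χ hχ with h1 | h1
  · rw [hu] at h1; norm_num at h1
  · exact χ.one_ne_zero (hu ▸ h1)

theorem Hyp.eq_top_of_mem (h : Hyp u) (N : Subgroup G) [N.Normal] (hu : u ∈ N) : N = ⊤ := by
  by_contra hN
  obtain ⟨g, hg⟩ : ∃ g, g ∉ N := by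
    by_contra hc
    push Not at hc
    exact hN (eq_top_iff.2 fun g _ => hc g)
  obtain ⟨χ, h1, h2⟩ := exists_irr_le_charKer_notMem N hg
  have : χ ≠ IrrCharacter.triv G := by
    rintro rfl
    apply h2
    rw [(IrrCharacter.charKer_eq_top_iff (IrrCharacter.triv G)).2 rfl]
    exact Subgroup.mem_top g
  exact h.not_mem_charKer this (h1 hu)

theorem Hyp.degree_ne_one (h : Hyp u) {χ : IrrCharacter G} (hχ : χ ≠ IrrCharacter.triv G) :
    charDegree χ.1 ≠ 1 := by
  intro h1
  have := (χ.charDegree_eq_one_iff_commutator_le).1 h1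
  rw [h.perfect, top_le_iff, IrrCharacter.charKer_eq_top_iff] at this
  exact hχ this

theorem Hyp.three_le (h : Hyp u) {χ : IrrCharacter G} (hχ : χ ≠ IrrCharacter.triv G)
    (h4 : χ.1 1 - χ.1 u = 4) : 3 ≤ charDegree χ.1 := by
  have h0 := χ.charDegree_pos
  have h1 := h.degree_ne_one hχ
  by_contra hlt
  have h2 : charDegree χ.1 = 2 := by omega
  have hu : u ∈ charCenter χ.1 := by
    rw [χ.mem_charCenter, h2]
    have : χ.1 u = -2 := by
      rw [χ.one_eq_charDegree, h2] at h4
      push_cast at h4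
      linear_combination -h4
    rw [this]; norm_num
  have := h.eq_top_of_mem _ hu
  rw [IrrCharacter.charCenter_eq_top_iff] at this
  exact h1 this

/-- The integer weight `χ(1) χ(u)`. -/
noncomputable def wt (u : G) (χ : IrrCharacter G) : ℤ :=
  if χ = IrrCharacter.triv G then 1 else
    if χ.1 u = 0 then 0 else (charDegree χ.1 : ℤ) * ((charDegree χ.1 : ℤ) - 4)

theorem Hyp.cast_wt (h : Hyp u) (χ : IrrCharacter G) : (wt u χ : ℂ) = χ.1 1 * χ.1 u := by
  unfold wt
  split_ifs with h1 h2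
  · simp [h1]
  · simp [h2]
  · rcases h χ h1 with h3 | h3
    · rw [χ.one_eq_charDegree] at h3 ⊢
      push_cast
      linear_combination (charDegree χ.1 : ℂ) * h3
    · exact absurd h3 h2

theorem Hyp.sum_wt (h : Hyp u) (hu : u ≠ 1) : ∑ χ : IrrCharacter G, wt u χ = 0 := by
  have := sum_irr_one_mul (G := G) u
  rw [if_neg hu] at this
  simp only [← h.cast_wt] at this
  exact_mod_cast this

theorem Hyp.wt_nonneg (h : Hyp u) {χ : IrrCharacter G}
    (h3 : ¬ (charDegree χ.1 = 3 ∧ χ.1 u = -1)) : 0 ≤ wt u χ := by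
  unfold wt
  split_ifs with h1 h2
  · norm_num
  · exact le_rfl
  · rcases h χ h1 with h4 | h4
    · have := h.three_le h1 h4
      have : charDegree χ.1 ≠ 3 := by
        intro e
        apply h3
        refine ⟨e, ?_⟩
        rw [χ.one_eq_charDegree, e] at h4
        push_cast at h4
        linear_combination -h4
      have h5 : (4 : ℤ) ≤ charDegree χ.1 := by omega
      nlinarith
    · exact absurd h4 h2

theorem Hyp.eq_zero_of_wt (h : Hyp u) {χ : IrrCharacter G} (h0 : wt u χ = 0) : χ.1 u = 0 := by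
  have := h.cast_wt χ
  rw [h0] at this
  push_cast at this
  exact (mul_eq_zero.1 this.symm).resolve_left χ.one_ne_zero

theorem Hyp.exists_three (h : Hyp u) (hu : u ≠ 1) :
    ∃ χ : IrrCharacter G, charDegree χ.1 = 3 ∧ χ.1 u = -1 := by
  by_contra hc
  push Not at hc
  have h0 := h.sum_wt hu
  have h1 : ∀ χ ∈ (Finset.univ : Finset (IrrCharacter G)), 0 ≤ wt u χ := fun χ _ =>
    h.wt_nonneg fun e => hc χ e.1 e.2
  have := (Finset.sum_eq_zero_iff_of_nonneg h1).1 h0 (IrrCharacter.triv G) (Finset.mem_univ _)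
  simp [wt] at this

theorem Hyp.sq_mem_charKer (h : Hyp u) {χ : IrrCharacter G} (hd : charDegree χ.1 = 3)
    (hu : χ.1 u = -1) : u * u ∈ charKer χ.1 := by
  rw [χ.mem_charKer, deg_three_mul_self h.perfect χ.isCharacter hd, hu, χ.one_eq_charDegree, hd]
  simp; norm_num

theorem Hyp.quotient (h : Hyp u) (N : Subgroup G) [N.Normal] : Hyp (u : G ⧸ N) := by
  intro ψ hψ
  have : ψ.inflate N ≠ IrrCharacter.triv G := by
    intro e
    apply hψ
    apply IrrCharacter.inflate_injective N
    rw [e]; rfl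
  have := h _ this
  simpa using this

theorem ne_triv_of_degree {χ : IrrCharacter G} (h : charDegree χ.1 ≠ 1) :
    χ ≠ IrrCharacter.triv G := by
  rintro rfl
  exact h IrrCharacter.charDegree_triv

end general

section invol
variable [Fintype G] {t : G} (h : Hyp t) (ht : t * t = 1)
include h ht

theorem Hyp.exists_h {θ : G → ℂ} (hθ : IsCharacter G θ) : ∃ n : ℕ, θ 1 - θ t = 4 * n := by
  obtain ⟨a, -, h1, h2⟩ := hθ.exists_int_of_sq_eq_one (g := t) (by rw [pow_two, ht])
  rw [detChar_eq_one_of_perfect h.perfect] at h2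
  have : Even a := by
    by_contra ha
    rw [Nat.not_even_iff_odd] at ha
    rw [ha.neg_one_pow] at h2
    norm_num at h2
  obtain ⟨b, rfl⟩ := this
  refine ⟨b, ?_⟩
  rw [h1, hθ.one_eq_charDegree]; push_cast; ring

theorem Hyp.val_three {χ : IrrCharacter G} (hd : charDegree χ.1 = 3) : χ.1 t = -1 := by
  have hne : χ ≠ IrrCharacter.triv G := ne_triv_of_degree (by omega)
  have h1 := χ.one_eq_charDegree
  rw [hd] at h1
  push_cast at h1
  rcases h χ hne with h4 | h4
  · linear_combination h1 - h4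
  · obtain ⟨n, hn⟩ := h.exists_h ht χ.isCharacter
    rw [h4, h1] at hn
    have : (3 : ℕ) = 4 * n := by
      have : ((3 : ℕ) : ℂ) = ((4 * n : ℕ) : ℂ) := by push_cast; linear_combination hn
      exact_mod_cast this
    omega

theorem Hyp.split {θ : G → ℂ} (hθ : IsCharacter G θ) (h0 : avg θ = 0) (hne : θ ≠ 0) {n : ℕ}
    (hn : θ 1 - θ t = 4 * n) :
    ∃ ψ : IrrCharacter G, ψ ≠ IrrCharacter.triv G ∧ IsCharacter G (θ - ψ.1) ∧
      avg (θ - ψ.1) = 0 ∧ ∃ m k : ℕ, m + k = n ∧ 1 ≤ m ∧ ψ.1 1 - ψ.1 t = 4 * m ∧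
        (θ - ψ.1) 1 - (θ - ψ.1) t = 4 * k := by
  obtain ⟨ψ, hψ⟩ := hθ.exists_irr_constituent hne
  have hnt : ψ ≠ IrrCharacter.triv G := by
    rintro rfl
    exact hψ (by rw [classInner_triv_eq_avg, h0])
  have hs := hθ.sub_irr ψ hψ
  obtain ⟨m, hm⟩ := h.exists_h ht ψ.isCharacter
  obtain ⟨k, hk⟩ := h.exists_h ht hs
  refine ⟨ψ, hnt, hs, ?_, m, k, ?_, ?_, hm, hk⟩
  · rw [← classInner_triv_eq_avg, classInner_sub_left, classInner_triv_eq_avg,
      classInner_triv_eq_avg, h0, avg_irr hnt, sub_zero]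
  · simp only [Pi.sub_apply] at hk
    have : ((m + k : ℕ) : ℂ) = n := by push_cast; linear_combination (hn - hm - hk) / 4
    exact_mod_cast this
  · by_contra hlt
    have : m = 0 := by omega
    subst this
    apply h.not_mem_charKer hnt
    rw [ψ.mem_charKer]
    push_cast at hm
    linear_combination -hm

theorem Hyp.eq_zero {θ : G → ℂ} (hθ : IsCharacter G θ) (h0 : avg θ = 0)
    (hn : θ 1 - θ t = 0) : θ = 0 := by
  by_contra hne
  obtain ⟨ψ, -, -, -, m, k, h1, h2, -⟩ := h.split ht hθ h0 hne (n := 0) (by simpa using hn)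
  omega

theorem Hyp.irr_of_one {θ : G → ℂ} (hθ : IsCharacter G θ) (h0 : avg θ = 0)
    (hn : θ 1 - θ t = 4) : ∃ ψ : IrrCharacter G, ψ ≠ IrrCharacter.triv G ∧ θ = ψ.1 := by
  have hne : θ ≠ 0 := by
    rintro rfl
    norm_num at hn
  obtain ⟨ψ, h1, h2, h3, m, k, h4, h5, -, h6⟩ := h.split ht hθ h0 hne (n := 1) (by simpa using hn)
  have : k = 0 := by omega
  subst this
  exact ⟨ψ, h1, sub_eq_zero.1 (h.eq_zero ht h2 h3 (by simpa using h6))⟩

theorem Hyp.two_irr {θ : G → ℂ} (hθ : IsCharacter G θ) (h0 : avg θ = 0)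
    (hn : θ 1 - θ t = 8) (h8 : θ 1 ≠ 8) :
    ∃ a b : IrrCharacter G, a ≠ IrrCharacter.triv G ∧ b ≠ IrrCharacter.triv G ∧
      a.1 1 - a.1 t = 4 ∧ b.1 1 - b.1 t = 4 ∧ charDegree a.1 ≤ charDegree b.1 ∧
      θ = a.1 + b.1 := by
  have hne : θ ≠ 0 := by
    rintro rfl
    norm_num at hn
  obtain ⟨ψ, h1, h2, h3, m, k, h4, h5, h7, h6⟩ :=
    h.split ht hθ h0 hne (n := 2) (by rw [hn]; norm_num)
  have hk : k = 0 ∨ k = 1 := by omega
  rcases hk with rfl | rfl
  · exfalso
    have e : θ = ψ.1 := sub_eq_zero.1 (h.eq_zero ht h2 h3 (by simpa using h6))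
    subst e
    rcases h ψ h1 with h9 | h9
    · rw [h9] at hn; norm_num at hn
    · rw [h9, sub_zero] at hn; exact h8 hn
  · have : m = 1 := by omega
    subst this
    obtain ⟨φ, hφ, e⟩ := h.irr_of_one ht h2 h3 (by simpa using h6)
    rw [e] at h6
    have e' : θ = ψ.1 + φ.1 := by rw [← e]; ring
    rcases le_total (charDegree ψ.1) (charDegree φ.1) with hle | hle
    · exact ⟨ψ, φ, h1, hφ, by simpa using h7, by simpa using h6, hle, e'⟩
    · exact ⟨φ, ψ, hφ, h1, by simpa using h6, by simpa using h7, hle, by rw [e', add_comm]⟩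

/-- The product of two degree three characters that are not complex conjugate. -/
theorem Hyp.mul_three {χ E : IrrCharacter G} (hχ : charDegree χ.1 = 3) (hE : charDegree E.1 = 3)
    (hne : E ≠ χ.cconj) :
    ∃ a b : IrrCharacter G, a ≠ IrrCharacter.triv G ∧ b ≠ IrrCharacter.triv G ∧
      a.1 1 - a.1 t = 4 ∧ b.1 1 - b.1 t = 4 ∧ 3 ≤ charDegree a.1 ∧
      charDegree a.1 + charDegree b.1 = 9 ∧ 5 ≤ charDegree b.1 ∧ χ.1 * E.1 = a.1 + b.1 := by
  have hc := χ.isCharacter.mul E.isCharacter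
  have h1 : (χ.1 * E.1) 1 = 9 := by
    rw [Pi.mul_apply, χ.one_eq_charDegree, E.one_eq_charDegree, hχ, hE]; norm_num
  have h0 : avg (χ.1 * E.1) = 0 := by
    have := IrrCharacter.classInner_of_ne hne
    rw [classInner_eq_avg] at this
    rw [← this]
    exact avg_congr fun g => by simp [mul_comm]
  obtain ⟨a, b, ha, hb, ha4, hb4, hle, e⟩ := h.two_irr ht hc h0
    (by rw [h1, Pi.mul_apply, h.val_three ht hχ, h.val_three ht hE]; norm_num)
    (by rw [h1]; norm_num)
  have hs : charDegree a.1 + charDegree b.1 = 9 := by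
    rw [e, Pi.add_apply, a.one_eq_charDegree, b.one_eq_charDegree] at h1
    exact_mod_cast h1
  exact ⟨a, b, ha, hb, ha4, hb4, h.three_le ha ha4, hs, by omega, e⟩

end invol

end CFour
end Cfsg
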