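import Cfsg.Agent.CT.ConstFourA

/-! The case of an involution: the degree three characters are real and have image of order 60. -/

set_option autoImplicit false
set_option linter.unusedSectionVars false
open scoped ComplexConjugate Classical

namespace Cfsg
namespace CFour

universe u
variable {G : Type u} [Group G] [Fintype G] {t : G} (h : Hyp t) (ht : t * t = 1)

theorem inner_of_degree_ne {a b : IrrCharacter G} (hd : charDegree a.1 ≠ charDegree b.1) :
    classInner a.1 b.1 = 0 :=
  IrrCharacter.classInner_of_ne fun e => hd (by rw [e])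

theorem degree_eq_of_one {a : IrrCharacter G} {n : ℕ} (hd : a.1 1 = n) : charDegree a.1 = n :=
  charDegree_eq_of_one_eq hd

theorem one_eq_of_degree {a : IrrCharacter G} {n : ℕ} (hd : charDegree a.1 = n) : a.1 1 = n := by
  rw [a.one_eq_charDegree, hd]

include h ht

theorem Hyp.symSq_three {χ : IrrCharacter G} (hχ : charDegree χ.1 = 3) :
    IsCharacter G (fun g => χ.1 g ^ 2 - conj (χ.1 g)) := by
  have := χ.isCharacter.symSq
  convert this using 2 with g
  rw [deg_three_mul_self h.perfect χ.isCharacter hχ]; ring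

theorem Hyp.real_three (ht1 : t ≠ 1) {χ : IrrCharacter G} (hχ : charDegree χ.1 = 3) :
    χ.cconj = χ := by
  by_contra hne
  have h1 : χ.1 1 = 3 := by simpa using one_eq_of_degree hχ
  have h2 : χ.1 t = -1 := h.val_three ht hχ
  have hnt : χ ≠ IrrCharacter.triv G := ne_triv_of_degree (by omega)
  have hnt' : χ.cconj ≠ IrrCharacter.triv G := ne_triv_of_degree (by simp [hχ])
  -- the symmetric square is irreducible
  obtain ⟨σ, hσ, eσ⟩ := h.irr_of_one ht (h.symSq_three ht hχ) (by
      have a1 := IrrCharacter.classInner_of_ne (Ne.symm hne)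
      have a2 := avg_irr hnt'
      rw [classInner_eq_avg] at a1
      rw [avg_congr (f' := fun g => χ.1 g * conj (χ.cconj.1 g) + (-1) * χ.cconj.1 g)
        (fun g => by simp; ring), avg_add, avg_const_mul, a1, a2]
      simp)
    (by simp only [h1, h2, map_neg, map_one, map_ofNat]; norm_num)
  have hσ1 : σ.1 1 = 6 := by
    rw [← eσ]; simp only [h1, map_ofNat]; norm_num
  have hσt : σ.1 t = 2 := by
    rw [← eσ]; simp only [h2, map_neg, map_one]; norm_num
  have hσd : charDegree σ.1 = 6 := degree_eq_of_one (by simpa using hσ1)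
  have esq : χ.1 * χ.1 = χ.cconj.1 + σ.1 := by
    funext g
    rw [← eσ]; simp; ring
  have hcσ : classInner χ.cconj.1 σ.1 = 0 := inner_of_degree_ne (by simp [hχ, hσd])
  have hσc : classInner σ.1 χ.cconj.1 = 0 := inner_of_degree_ne (by simp [hχ, hσd])
  have hsq2 : classInner (χ.1 * χ.1) (χ.1 * χ.1) = 2 := by
    rw [esq, classInner_add_left, classInner_add_right, classInner_add_right, hcσ, hσc,
      IrrCharacter.classInner_self, IrrCharacter.classInner_self]
    norm_num
  -- `χ χ̄ = 1 + α`
  have hN := χ.isCharacter.mul χ.cconj.isCharacter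
  have hN1 : classInner (χ.1 * χ.cconj.1) (IrrCharacter.triv G).1 = 1 := by
    rw [classInner_triv_eq_avg, ← χ.classInner_self, classInner_eq_avg]
    exact avg_congr fun g => by simp
  have hN1' : classInner (IrrCharacter.triv G).1 (χ.1 * χ.cconj.1) = 1 := by
    rw [← conj_classInner, hN1]; simp
  have hNN : classInner (χ.1 * χ.cconj.1) (χ.1 * χ.cconj.1) = 2 := by
    rw [← hsq2, classInner_eq_avg, classInner_eq_avg]
    exact avg_congr fun g => by simp; ring
  have hα := hN.sub_irr (IrrCharacter.triv G) (by rw [hN1]; exact one_ne_zero)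
  have hαi : IsIrrCharacter G (χ.1 * χ.cconj.1 - (IrrCharacter.triv G).1) := by
    rw [hα.isIrr_iff, classInner_sub_left, classInner_sub_right, classInner_sub_right, hNN, hN1,
      hN1', IrrCharacter.classInner_self]
    norm_num
  set α : IrrCharacter G := ⟨_, hαi⟩ with hαdef
  have hαd : charDegree α.1 = 8 := by
    apply degree_eq_of_one
    simp only [hαdef, Pi.sub_apply, Pi.mul_apply, IrrCharacter.cconj_apply, h1, map_ofNat,
      IrrCharacter.triv_apply]
    norm_num
  have eα : χ.1 * χ.cconj.1 = (IrrCharacter.triv G).1 + α.1 := by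
    simp only [hαdef]; ring
  -- the products are pairwise disjoint
  have hdisj : ∀ E E' : IrrCharacter G, charDegree E.1 = 3 → charDegree E'.1 = 3 → E ≠ E' →
      classInner (χ.1 * E.1) (χ.1 * E'.1) = 0 := by
    intro E E' hE hE' hEE
    obtain ⟨a, b, ha, hb, -, -, ha3, hab, hb5, e⟩ := h.mul_three ht hE (E := E'.cconj)
      (by simp [hE']) (fun e => hEE (IrrCharacter.cconj_involutive.injective e).symm)
    have : classInner (χ.1 * E.1) (χ.1 * E'.1) =
        classInner (E.1 * E'.cconj.1) (χ.1 * χ.cconj.1) := by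
      rw [classInner_eq_avg, classInner_eq_avg]
      exact avg_congr fun g => by simp; ring
    rw [this, e, eα, classInner_add_left, classInner_add_right, classInner_add_right,
      IrrCharacter.classInner_of_ne ha, IrrCharacter.classInner_of_ne hb,
      inner_of_degree_ne (a := a) (b := α) (by omega),
      inner_of_degree_ne (a := b) (b := α) (by omega)]
    simp
  set T : Finset (IrrCharacter G) := Finset.univ.filter fun E => charDegree E.1 = 3 with hT
  have hex : ∀ E : IrrCharacter G, ∃ F : IrrCharacter G, E ∈ T.erase χ.cconj →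
      classInner (χ.1 * E.1) F.1 ≠ 0 ∧ 5 ≤ charDegree F.1 ∧ F.1 1 - F.1 t = 4 ∧
        (E = χ → charDegree F.1 = 6) := by
    intro E
    by_cases hE : E = χ
    · subst hE
      refine ⟨σ, fun _ => ⟨?_, by omega, by rw [hσ1, hσt]; norm_num, fun _ => hσd⟩⟩
      rw [esq, classInner_add_left, hcσ, IrrCharacter.classInner_self]
      norm_num
    · by_cases hE' : E ∈ T.erase χ.cconj
      · simp only [hT, Finset.mem_erase, Finset.mem_filter, Finset.mem_univ, true_and] at hE'
        obtain ⟨a, b, ha, hb, -, hb4, ha3, hab, hb5, e⟩ := h.mul_three ht hχ hE'.2 hE'.1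
        refine ⟨b, fun _ => ⟨?_, hb5, hb4, fun e => absurd e hE⟩⟩
        rw [e, classInner_add_left, inner_of_degree_ne (a := a) (b := b) (by omega),
          IrrCharacter.classInner_self]
        norm_num
      · exact ⟨χ, fun e => absurd e hE'⟩
  choose f hf using hex
  have hinj : Set.InjOn f (T.erase χ.cconj : Finset _) := by
    intro E hE E' hE' e
    by_contra hEE
    have hE1 := hf E hE
    have hE2 := hf E' hE'
    simp only [hT, Finset.coe_erase, Finset.coe_filter, Finset.mem_univ, true_and, Set.mem_sdiff,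
      Set.mem_ofPred_eq] at hE hE'
    refine classInner_ne_zero_of_common (χ.isCharacter.mul E.isCharacter)
      (χ.isCharacter.mul E'.isCharacter) hE1.1 (e ▸ hE2.1) (hdisj E E' hE.1 hE'.1 hEE)
  have hwf : ∀ E ∈ T.erase χ.cconj, (if E = χ then (12 : ℤ) else 5) ≤ wt t (f E) := by
    intro E hE
    obtain ⟨-, a2, a3, a4⟩ := hf E hE
    have hnt : f E ≠ IrrCharacter.triv G := ne_triv_of_degree (by omega)
    have hz : (f E).1 t ≠ 0 := by
      intro hz
      rw [hz, sub_zero] at a3
      have := degree_eq_of_one (a := f E) (n := 4) (by simpa using a3)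
      omega
    rw [wt, if_neg hnt, if_neg hz]
    split_ifs with hE
    · rw [a4 hE]; norm_num
    · have : (5 : ℤ) ≤ charDegree (f E).1 := by exact_mod_cast a2
      nlinarith
  have hwT : ∀ E ∈ T, wt t E = -3 := by
    intro E hE
    simp only [hT, Finset.mem_filter, Finset.mem_univ, true_and] at hE
    have hnt : E ≠ IrrCharacter.triv G := ne_triv_of_degree (by omega)
    rw [wt, if_neg hnt, if_neg (by rw [h.val_three ht hE]; norm_num), hE]
    norm_num
  have hχT : χ ∈ T.erase χ.cconj := by
    simp only [hT, Finset.mem_erase, Finset.mem_filter, Finset.mem_univ, true_and]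
    exact ⟨Ne.symm hne, hχ⟩
  have hcT : χ.cconj ∈ T := by simp [hT, hχ]
  have hs0 := h.sum_wt ht1
  have hle : ∑ E ∈ insert (IrrCharacter.triv G) (T ∪ (T.erase χ.cconj).image f), wt t E ≤
      ∑ E : IrrCharacter G, wt t E := by
    apply Finset.sum_le_sum_of_subset_of_nonneg (Finset.subset_univ _)
    intro E _ hE
    apply h.wt_nonneg
    rintro ⟨a, -⟩
    apply hE
    simp [hT, a]
  have hd1 : IrrCharacter.triv G ∉ T ∪ (T.erase χ.cconj).image f := by
    simp only [Finset.mem_union, Finset.mem_image, not_or, not_exists, not_and]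
    refine ⟨by simp [hT], fun E hE e => ?_⟩
    have := (hf E hE).2.1
    rw [e, IrrCharacter.charDegree_triv] at this
    omega
  have hd2 : Disjoint T ((T.erase χ.cconj).image f) := by
    rw [Finset.disjoint_right]
    intro F hF hFT
    obtain ⟨E, hE, rfl⟩ := Finset.mem_image.1 hF
    have := (hf E hE).2.1
    simp only [hT, Finset.mem_filter, Finset.mem_univ, true_and] at hFT
    omega
  rw [Finset.sum_insert hd1, Finset.sum_union hd2, Finset.sum_image hinj,
    Finset.sum_congr rfl hwT, hs0] at hle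
  have hlow := Finset.sum_le_sum hwf
  rw [← Finset.add_sum_erase _ _ hχT, if_pos rfl, Finset.sum_congr rfl
    (g := fun _ => (5 : ℤ)) (fun E hE => if_neg (Finset.ne_of_mem_erase hE))] at hlow
  have c1 := Finset.card_erase_add_one hcT
  have c2 := Finset.card_erase_add_one hχT
  simp only [Finset.sum_const, nsmul_eq_mul, wt, if_true] at hle hlow
  have c3 : (T.card : ℤ) = ((T.erase χ.cconj).erase χ).card + 2 := by
    rw [← c1, ← c2]; push_cast; ring
  have c4 : (0 : ℤ) ≤ ((T.erase χ.cconj).erase χ).card := Int.natCast_nonneg _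
  linarith

section real
variable (ht1 : t ≠ 1) {χ : IrrCharacter G} (hχ : charDegree χ.1 = 3)
include ht1 hχ

theorem Hyp.conj_three (g : G) : conj (χ.1 g) = χ.1 g := by
  have := congrFun (congrArg Subtype.val (h.real_three ht ht1 hχ)) g
  simpa using this

theorem Hyp.avg_sq : avg (fun g => χ.1 g ^ 2) = 1 := by
  rw [← χ.classInner_self, classInner_eq_avg]
  exact avg_congr fun g => by rw [h.conj_three ht ht1 hχ]; ring

theorem Hyp.exists_V : ∃ V : IrrCharacter G, charDegree V.1 = 5 ∧
    ∀ g, V.1 g = χ.1 g ^ 2 - χ.1 g - 1 := by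
  have h1 : χ.1 1 = 3 := by simpa using one_eq_of_degree hχ
  have h2 : χ.1 t = -1 := h.val_three ht hχ
  have hnt : χ ≠ IrrCharacter.triv G := ne_triv_of_degree (by omega)
  have hS : IsCharacter G (fun g => χ.1 g ^ 2 - χ.1 g) := by
    have := h.symSq_three ht hχ
    simpa only [h.conj_three ht ht1 hχ] using this
  have hS1 : avg (fun g => χ.1 g ^ 2 - χ.1 g) = 1 := by
    rw [avg_congr (f' := fun g => χ.1 g ^ 2 + (-1) * χ.1 g) (fun g => by ring), avg_add,
      avg_const_mul, h.avg_sq ht ht1 hχ, avg_irr hnt]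
    simp
  have hV := hS.sub_irr (IrrCharacter.triv G)
    (by rw [classInner_triv_eq_avg, hS1]; exact one_ne_zero)
  obtain ⟨V, -, e⟩ := h.irr_of_one ht hV (by
      rw [← classInner_triv_eq_avg, classInner_sub_left, classInner_triv_eq_avg, hS1,
        IrrCharacter.classInner_self, sub_self])
    (by simp only [Pi.sub_apply, h1, h2, IrrCharacter.triv_apply]; norm_num)
  refine ⟨V, degree_eq_of_one ?_, fun g => ?_⟩
  · rw [← e]; simp only [Pi.sub_apply, h1, IrrCharacter.triv_apply]; norm_num
  · rw [← e]; simp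

theorem Hyp.moments : avg χ.1 = 0 ∧ avg (fun g => χ.1 g ^ 2) = 1 ∧
    avg (fun g => χ.1 g ^ 3) = 1 ∧ avg (fun g => χ.1 g ^ 4) = 3 := by
  have hnt : χ ≠ IrrCharacter.triv G := ne_triv_of_degree (by omega)
  obtain ⟨V, hV, eV⟩ := h.exists_V ht ht1 hχ
  have m1 := avg_irr hnt
  have m2 := h.avg_sq ht ht1 hχ
  have a1 : classInner V.1 χ.1 = 0 := inner_of_degree_ne (by omega)
  have a2 := V.classInner_self
  rw [classInner_eq_avg, avg_congr (f' := fun g => 0 + (-1) * χ.1 g + (-1) * χ.1 g ^ 2 +
    1 * χ.1 g ^ 3 + 0 * χ.1 g ^ 4) (fun g => by rw [eV, h.conj_three ht ht1 hχ]; ring),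
    avg_poly, m1, m2] at a1
  rw [classInner_eq_avg, avg_congr (f' := fun g => 1 + 2 * χ.1 g + (-1) * χ.1 g ^ 2 +
    (-2) * χ.1 g ^ 3 + 1 * χ.1 g ^ 4) (fun g => by
      rw [eV]; simp only [map_sub, map_pow, map_one, h.conj_three ht ht1 hχ]; ring),
    avg_poly, m1, m2] at a2
  have m3 : avg (fun g => χ.1 g ^ 3) = 1 := by linear_combination a1
  exact ⟨m1, m2, m3, by linear_combination a2 + 2 * m3⟩

theorem Hyp.avg_poly' (a0 a1 a2 a3 a4 : ℂ) {f : G → ℂ}
    (hf : ∀ g, f g = a0 + a1 * χ.1 g + a2 * χ.1 g ^ 2 + a3 * χ.1 g ^ 3 + a4 * χ.1 g ^ 4) :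
    avg f = a0 + a2 + a3 + 3 * a4 := by
  obtain ⟨m1, m2, m3, m4⟩ := h.moments ht ht1 hχ
  rw [avg_congr hf, avg_poly, m1, m2, m3, m4]; ring

theorem Hyp.sq_sub_eq {E : IrrCharacter G} (hE : charDegree E.1 = 3) (g : G) :
    E.1 g ^ 2 - E.1 g = χ.1 g ^ 2 - χ.1 g := by
  by_cases hne : E = χ
  · rw [hne]
  obtain ⟨V, hV, eV⟩ := h.exists_V ht ht1 hχ
  obtain ⟨W, hW, eW⟩ := h.exists_V ht ht1 hE
  obtain ⟨a, b, ha, hb, -, -, ha3, hab, hb5, e⟩ := h.mul_three ht hχ hE
    (by rw [h.real_three ht ht1 hχ]; exact hne)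
  have h2 : classInner (χ.1 * E.1) (χ.1 * E.1) = 2 := by
    rw [e, classInner_add_left, classInner_add_right, classInner_add_right,
      inner_of_degree_ne (a := a) (b := b) (by omega),
      inner_of_degree_ne (a := b) (b := a) (by omega), IrrCharacter.classInner_self,
      IrrCharacter.classInner_self]
    norm_num
  have h3 : classInner (χ.1 * E.1) (χ.1 * E.1) =
      classInner ((IrrCharacter.triv G).1 + χ.1 + V.1) ((IrrCharacter.triv G).1 + E.1 + W.1) := by
    rw [classInner_eq_avg, classInner_eq_avg]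
    refine avg_congr fun g => ?_
    simp only [Pi.mul_apply, Pi.add_apply, IrrCharacter.triv_apply, eV, eW, map_mul, map_add,
      map_sub, map_pow, map_one, h.conj_three ht ht1 hχ, h.conj_three ht ht1 hE]
    ring
  have d1 : charDegree (IrrCharacter.triv G).1 = 1 := IrrCharacter.charDegree_triv
  have hVW : V = W := by
    apply IrrCharacter.eq_of_classInner_ne_zero
    intro h0
    rw [h3] at h2
    simp only [classInner_add_left, classInner_add_right] at h2
    rw [h0, IrrCharacter.classInner_self, IrrCharacter.classInner_of_ne (Ne.symm hne),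
      inner_of_degree_ne (a := IrrCharacter.triv G) (b := E) (by omega),
      inner_of_degree_ne (a := IrrCharacter.triv G) (b := W) (by omega),
      inner_of_degree_ne (a := χ) (b := IrrCharacter.triv G) (by omega),
      inner_of_degree_ne (a := χ) (b := W) (by omega),
      inner_of_degree_ne (a := V) (b := IrrCharacter.triv G) (by omega),
      inner_of_degree_ne (a := V) (b := E) (by omega)] at h2
    norm_num at h2
  have := eV g
  rw [hVW, eW] at this
  linear_combination this

theorem Hyp.exists_VAB : ∃ V A B : IrrCharacter G, charDegree V.1 = 5 ∧ charDegree A.1 = 3 ∧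
    charDegree B.1 = 4 ∧ A ≠ χ ∧ (∀ g, V.1 g = χ.1 g ^ 2 - χ.1 g - 1) ∧
    (∀ g, A.1 g + B.1 g = χ.1 g ^ 3 - 2 * χ.1 g ^ 2 - χ.1 g + 1) ∧
    ∀ g, χ.1 g * A.1 g = V.1 g + B.1 g := by
  have h1 : χ.1 1 = 3 := by simpa using one_eq_of_degree hχ
  have h2 : χ.1 t = -1 := h.val_three ht hχ
  have hc := h.conj_three ht ht1 hχ
  obtain ⟨V, hV, eV⟩ := h.exists_V ht ht1 hχ
  have hVc : ∀ g, conj (V.1 g) = V.1 g := fun g => by
    rw [eV]; simp only [map_sub, map_pow, map_one, hc]
  have hsq : ∀ g, χ.1 (g * g) = χ.1 g ^ 2 - 2 * χ.1 g := fun g => by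
    rw [deg_three_mul_self h.perfect χ.isCharacter hχ, hc]
  have hL : IsCharacter G (fun g => χ.1 g ^ 3 - 2 * χ.1 g ^ 2 + 1) := by
    have := V.isCharacter.altSq
    convert this using 2 with g
    rw [eV, eV, hsq]; ring
  have hS : IsCharacter G (fun g => χ.1 g ^ 4 - 3 * χ.1 g ^ 3 + χ.1 g ^ 2 + 2 * χ.1 g) := by
    have := V.isCharacter.symSq
    convert this using 2 with g
    rw [eV, eV, hsq]; ring
  have hLχ : classInner (fun g => χ.1 g ^ 3 - 2 * χ.1 g ^ 2 + 1) χ.1 = 1 := by
    rw [classInner_eq_avg, h.avg_poly' ht ht1 hχ 0 1 0 (-2) 1 (fun g => by rw [hc]; ring)]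
    norm_num
  have h3 := hL.sub_irr χ (by rw [hLχ]; exact one_ne_zero)
  obtain ⟨A, B, hA, hB, hA4, hB4, hle, e⟩ := h.two_irr ht h3
    (by rw [h.avg_poly' ht ht1 hχ 1 (-1) (-2) 1 0 (fun g => by simp; ring)]; norm_num)
    (by simp only [Pi.sub_apply, h1, h2]; norm_num)
    (by simp only [Pi.sub_apply, h1]; norm_num)
  have eAB : ∀ g, A.1 g + B.1 g = χ.1 g ^ 3 - 2 * χ.1 g ^ 2 - χ.1 g + 1 := fun g => by
    have := congrFun e g
    simp only [Pi.sub_apply, Pi.add_apply] at this
    linear_combination -this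
  have hs : charDegree A.1 + charDegree B.1 = 7 := by
    have := eAB 1
    rw [h1, A.one_eq_charDegree, B.one_eq_charDegree] at this
    have h7 : ((charDegree A.1 + charDegree B.1 : ℕ) : ℂ) = (7 : ℕ) := by
      push_cast; linear_combination this
    exact_mod_cast h7
  have hA3 := h.three_le hA hA4
  have dA : charDegree A.1 = 3 := by omega
  have dB : charDegree B.1 = 4 := by omega
  have hAc := h.conj_three ht ht1 dA
  have hBc : ∀ g, conj (B.1 g) = B.1 g := fun g => by
    have : B.1 g = χ.1 g ^ 3 - 2 * χ.1 g ^ 2 - χ.1 g + 1 - A.1 g := by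
      linear_combination eAB g
    rw [this]; simp only [map_sub, map_add, map_mul, map_pow, map_one, map_ofNat, hc, hAc]
  have hAχ : A ≠ χ := by
    intro eq
    have : classInner (A.1 + B.1) χ.1 = 0 := by
      rw [← e, classInner_sub_left, hLχ, IrrCharacter.classInner_self, sub_self]
    rw [classInner_add_left, inner_of_degree_ne (a := B) (b := χ) (by omega), eq,
      IrrCharacter.classInner_self] at this
    norm_num at this
  have d1 : charDegree (IrrCharacter.triv G).1 = 1 := IrrCharacter.charDegree_triv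
  -- `(χ A, V) = 1`
  have i1 : classInner (χ.1 * A.1) V.1 = 1 := by
    have : classInner (χ.1 * A.1) V.1 = classInner (χ.1 + V.1 + A.1 + B.1) A.1 := by
      rw [classInner_eq_avg, classInner_eq_avg]
      refine avg_congr fun g => ?_
      simp only [Pi.mul_apply, Pi.add_apply, hVc, hAc]
      have := eAB g
      rw [eV]
      linear_combination (-A.1 g) * this
    rw [this]
    simp only [classInner_add_left]
    rw [IrrCharacter.classInner_of_ne (Ne.symm hAχ), IrrCharacter.classInner_self,
      inner_of_degree_ne (a := V) (b := A) (by omega),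
      inner_of_degree_ne (a := B) (b := A) (by omega)]
    simp
  -- `(χ A, B) ≥ 1`
  have i2 : classInner (χ.1 * A.1) B.1 ≠ 0 := by
    obtain ⟨W, hW, eW⟩ := h.exists_V ht ht1 dA
    obtain ⟨n, hn⟩ := hS.exists_classInner_eq_nat A.isCharacter
    have e1 : classInner (χ.1 * A.1) B.1 =
        classInner ((fun g => χ.1 g ^ 4 - 3 * χ.1 g ^ 3 + χ.1 g ^ 2 + 2 * χ.1 g) -
          (IrrCharacter.triv G).1 + A.1 + B.1) A.1 -
        classInner ((IrrCharacter.triv G).1 + A.1 + W.1) χ.1 := by
      rw [classInner_eq_avg, classInner_eq_avg, classInner_eq_avg, eq_sub_iff_add_eq, ← avg_add]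
      refine avg_congr fun g => ?_
      simp only [Pi.mul_apply, Pi.add_apply, Pi.sub_apply, IrrCharacter.triv_apply, hBc, hAc, hc,
        eW]
      have := eAB g
      linear_combination (χ.1 g * A.1 g - A.1 g) * this
    rw [e1]
    simp only [classInner_add_left, classInner_sub_left]
    rw [hn, IrrCharacter.classInner_self, IrrCharacter.classInner_of_ne hAχ,
      inner_of_degree_ne (a := IrrCharacter.triv G) (b := A) (by omega),
      inner_of_degree_ne (a := B) (b := A) (by omega),
      inner_of_degree_ne (a := IrrCharacter.triv G) (b := χ) (by omega),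
      inner_of_degree_ne (a := W) (b := χ) (by omega)]
    have : ((n + 1 : ℕ) : ℂ) ≠ 0 := by exact_mod_cast Nat.succ_ne_zero n
    simpa using this
  have hVB : V ≠ B := fun e => by rw [e] at hV; omega
  refine ⟨V, A, B, hV, dA, dB, hAχ, eV, eAB, fun g => ?_⟩
  have := (χ.isCharacter.mul A.isCharacter).eq_sum_of_charDegree_le {V, B}
    (by
      intro ξ hξ
      rcases Finset.mem_insert.1 hξ with rfl | hξ
      · rw [i1]; exact one_ne_zero
      · rw [Finset.mem_singleton.1 hξ]; exact i2)
    (by
      rw [Finset.sum_pair hVB, χ.isCharacter.charDegree_mul A.isCharacter, hχ, dA, hV, dB]) g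
  rw [Finset.sum_pair hVB] at this
  exact this

theorem Hyp.root_three (g : G) :
    χ.1 g = 3 ∨ χ.1 g * (χ.1 g + 1) * (χ.1 g ^ 2 - χ.1 g - 1) = 0 := by
  obtain ⟨V, A, B, -, hA, -, -, eV, eAB, eP⟩ := h.exists_VAB ht ht1 hχ
  have e1 := h.sq_sub_eq ht ht1 hχ hA g
  have e2 := eP g
  have e3 := eAB g
  rw [eV] at e2
  set x := χ.1 g
  set a := A.1 g
  have e4 : (x + 1) * (a - x * (x - 2)) = 0 := by linear_combination e2 + e3
  rcases mul_eq_zero.1 e4 with e5 | e5
  · right; rw [e5]; ring
  · have e6 : a = x * (x - 2) := by linear_combination e5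
    rw [e6] at e1
    have e7 : (x - 3) * (x * (x ^ 2 - x - 1)) = 0 := by linear_combination e1
    rcases mul_eq_zero.1 e7 with e8 | e8
    · left; linear_combination e8
    · right; linear_combination (x + 1) * e8

theorem Hyp.charKer_three_le {E : IrrCharacter G} (hE : charDegree E.1 = 3) :
    charKer E.1 ≤ charKer χ.1 := by
  intro g hg
  rw [IrrCharacter.mem_charKer] at hg ⊢
  rw [one_eq_of_degree hE] at hg
  rw [one_eq_of_degree hχ]
  have e1 := h.sq_sub_eq ht ht1 hχ hE g
  rw [hg] at e1
  push_cast at e1 ⊢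
  rcases h.root_three ht ht1 hχ g with e | e
  · exact e
  · have e2 : (χ.1 g - 3) * (χ.1 g + 2) = 0 := by linear_combination -e1
    rcases mul_eq_zero.1 e2 with e3 | e3
    · linear_combination e3
    · have : χ.1 g = -2 := by linear_combination e3
      rw [this] at e
      norm_num at e

theorem Hyp.card_eq_sixty (hf : charKer χ.1 = ⊥) : Nat.card G = 60 := by
  have h1 : χ.1 1 = 3 := by simpa using one_eq_of_degree hχ
  have e := h.avg_poly' ht ht1 hχ 0 (-1) (-2) 0 1
    (f := fun g => χ.1 g * (χ.1 g + 1) * (χ.1 g ^ 2 - χ.1 g - 1)) (fun g => by ring)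
  rw [avg, Finset.sum_eq_single 1, h1] at e
  · have hc : (Nat.card G : ℂ) ≠ 0 := by exact_mod_cast Nat.card_pos.ne'
    have : (Nat.card G : ℂ) = (60 : ℕ) := by
      field_simp at e
      push_cast
      linear_combination -e
    exact_mod_cast this
  · intro g _ hg
    rcases h.root_three ht ht1 hχ g with e | e
    · exact absurd ((χ.charKer_eq_bot_iff).1 hf g (by rw [e, h1])) hg
    · exact e
  · intro hh; exact absurd (Finset.mem_univ _) hh

/-- The character table information in the faithful case. -/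
theorem Hyp.faithful_data (hf : charKer χ.1 = ⊥) :
    (∀ ψ : IrrCharacter G, ψ ≠ IrrCharacter.triv G → charKer ψ.1 = ⊥) ∧
    (∀ y : G, y * y = 1 → y ≠ 1 → IsConj t y) ∧
    Nat.card (Subgroup.centralizer ({t} : Set G)) = 4 := by
  obtain ⟨V, A, B, hV, hA, hB, hAχ, eV, eAB, eP⟩ := h.exists_VAB ht ht1 hχ
  have hc := h.card_eq_sixty ht ht1 hχ hf
  have d1 : charDegree (IrrCharacter.triv G).1 = 1 := IrrCharacter.charDegree_triv
  have hne : ∀ {a b : IrrCharacter G}, charDegree a.1 ≠ charDegree b.1 → a ≠ b :=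
    fun hd e => hd (by rw [e])
  have hsum : ∀ {M : Type} [AddCommMonoid M] (f : IrrCharacter G → M),
      ∑ ψ ∈ ({IrrCharacter.triv G, χ, A, B, V} : Finset _), f ψ =
        f (IrrCharacter.triv G) + f χ + f A + f B + f V := by
    intro M _ f
    rw [Finset.sum_insert, Finset.sum_insert, Finset.sum_insert, Finset.sum_pair, add_assoc,
      add_assoc, add_assoc]
    · exact hne (by omega)
    · simp only [Finset.mem_insert, Finset.mem_singleton, not_or]
      exact ⟨hne (by omega), hne (by omega)⟩
    · simp only [Finset.mem_insert, Finset.mem_singleton, not_or]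
      exact ⟨Ne.symm hAχ, hne (by omega), hne (by omega)⟩
    · simp only [Finset.mem_insert, Finset.mem_singleton, not_or]
      exact ⟨hne (by omega), hne (by omega), hne (by omega), hne (by omega)⟩
  have hall : ({IrrCharacter.triv G, χ, A, B, V} : Finset _) = Finset.univ := by
    by_contra hn
    obtain ⟨ψ, hψ⟩ : ∃ ψ, ψ ∉ ({IrrCharacter.triv G, χ, A, B, V} : Finset _) := by
      by_contra hc
      push Not at hc
      exact hn (Finset.eq_univ_iff_forall.2 hc)
    have e1 := sum_charDegree_sq (G := G)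
    have e2 := Finset.sum_le_sum_of_subset (f := fun ψ : IrrCharacter G => charDegree ψ.1 ^ 2)
      (Finset.subset_univ (insert ψ ({IrrCharacter.triv G, χ, A, B, V} : Finset _)))
    rw [Finset.sum_insert hψ, hsum, e1, hc, d1, hχ, hA, hB, hV] at e2
    have := ψ.charDegree_pos
    have : 0 < charDegree ψ.1 ^ 2 := by positivity
    omega
  have hcases : ∀ ψ : IrrCharacter G, ψ = IrrCharacter.triv G ∨ ψ = χ ∨ ψ = A ∨ ψ = B ∨ ψ = V := by
    intro ψ
    have : ψ ∈ ({IrrCharacter.triv G, χ, A, B, V} : Finset _) := hall ▸ Finset.mem_univ ψ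
    simpa using this
  have hfA : charKer A.1 = ⊥ := le_bot_iff.1 (hf ▸ h.charKer_three_le ht ht1 hχ hA)
  have h1 : χ.1 1 = 3 := by simpa using one_eq_of_degree hχ
  have hA1 : A.1 1 = 3 := by simpa using one_eq_of_degree hA
  have hone : ∀ g, χ.1 g = 3 → g = 1 := fun g e => (χ.charKer_eq_bot_iff).1 hf g (by rw [e, h1])
  -- values at involutions
  have hinv : ∀ {E : IrrCharacter G}, charDegree E.1 = 3 → charKer E.1 = ⊥ → ∀ y : G, y * y = 1 →
      y ≠ 1 → E.1 y = -1 := by
    intro E hE hfE y hy hy1
    have e1 : E.1 1 = 3 := by simpa using one_eq_of_degree hE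
    have := deg_three_mul_self h.perfect E.isCharacter hE y
    rw [hy, e1, h.conj_three ht ht1 hE] at this
    have e2 : (E.1 y - 3) * (E.1 y + 1) = 0 := by linear_combination -this
    rcases mul_eq_zero.1 e2 with e3 | e3
    · exact absurd ((E.charKer_eq_bot_iff).1 hfE y (by rw [e1]; linear_combination e3)) hy1
    · linear_combination e3
  have hval : ∀ y : G, y * y = 1 → y ≠ 1 →
      χ.1 y = -1 ∧ A.1 y = -1 ∧ B.1 y = 0 ∧ V.1 y = 1 := by
    intro y hy hy1
    have a1 := hinv hχ hf y hy hy1
    have a2 := hinv hA hfA y hy hy1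
    have a3 := eAB y
    have a4 := eV y
    rw [a1] at a3 a4
    rw [a2] at a3
    exact ⟨a1, a2, by linear_combination a3, by linear_combination a4⟩
  refine ⟨fun ψ hψ => ?_, fun y hy hy1 => ?_, ?_⟩
  · rcases hcases ψ with rfl | rfl | rfl | rfl | rfl
    · exact absurd rfl hψ
    · exact hf
    · exact hfA
    · rw [IrrCharacter.charKer_eq_bot_iff]
      intro g hg
      rw [one_eq_of_degree hB] at hg
      push_cast at hg
      rcases h.root_three ht ht1 hχ g with e | e
      · exact hone g e
      · exfalso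
        have a1 := h.sq_sub_eq ht ht1 hχ hA g
        have a2 := eAB g
        have a3 := eP g
        rw [eV, hg] at a3
        rw [hg] at a2
        set x := χ.1 g
        set a := A.1 g
        have a4 : a = x ^ 3 - 2 * x ^ 2 - x - 3 := by linear_combination a2
        rcases mul_eq_zero.1 e with e | e
        · rcases mul_eq_zero.1 e with e | e
          · rw [e] at a3; norm_num at a3
          · have : x = -1 := by linear_combination e
            rw [this] at a4 a1
            rw [a4] at a1
            norm_num at a1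
        · have a5 : a = -x - 4 := by linear_combination a4 + (x - 1) * e
          rw [a5] at a3 a1
          have a6 : x = -1 := by linear_combination (-1 / 5 : ℂ) * a3 - (2 / 5 : ℂ) * e
          rw [a6] at e
          norm_num at e
    · rw [IrrCharacter.charKer_eq_bot_iff]
      intro g hg
      rw [one_eq_of_degree hV, eV] at hg
      push_cast at hg
      rcases h.root_three ht ht1 hχ g with e | e
      · exact hone g e
      · have e2 : (χ.1 g - 3) * (χ.1 g + 2) = 0 := by linear_combination hg
        rcases mul_eq_zero.1 e2 with e3 | e3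
        · exact hone g (by linear_combination e3)
        · have : χ.1 g = -2 := by linear_combination e3
          rw [this] at e
          norm_num at e
  · rw [isConj_iff_forall_irr]
    intro ψ
    obtain ⟨a1, a2, a3, a4⟩ := hval y hy hy1
    obtain ⟨b1, b2, b3, b4⟩ := hval t ht ht1
    rcases hcases ψ with rfl | rfl | rfl | rfl | rfl
    · simp
    · rw [a1, b1]
    · rw [a2, b2]
    · rw [a3, b3]
    · rw [a4, b4]
  · have e := sum_irr_mul_conj (G := G) t t
    obtain ⟨b1, b2, b3, b4⟩ := hval t ht ht1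
    rw [if_pos (IsConj.refl t), ← hall, hsum, b1, b2, b3, b4] at e
    simp only [IrrCharacter.triv_apply, map_one, map_neg, map_zero] at e
    have : (Nat.card (Subgroup.centralizer ({t} : Set G)) : ℂ) = (4 : ℕ) := by
      rw [← e]; norm_num
    exact_mod_cast this

theorem Hyp.sq_eq_one_of_four (hf : charKer χ.1 = ⊥) {y : G} (hy : y * y * (y * y) = 1) :
    y * y = 1 := by
  by_contra hy1
  have hc := (h.faithful_data ht ht1 hχ hf).2.1 _ hy hy1
  have e := χ.isClassFunction.eq_of_isConj hc
  rw [h.val_three ht hχ, deg_three_mul_self h.perfect χ.isCharacter hχ,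
    h.conj_three ht ht1 hχ] at e
  have e1 : (χ.1 y - 1) ^ 2 = 0 := by linear_combination -e
  have e2 : χ.1 y = 1 := by
    have := pow_eq_zero_iff (two_ne_zero) |>.1 e1
    linear_combination this
  rcases h.root_three ht ht1 hχ y with e3 | e3
  · rw [e2] at e3; norm_num at e3
  · rw [e2] at e3; norm_num at e3

end real

end CFour
end Cfsg
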