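import Cfsg.Agent.CT.ConstFourB
import Cfsg.Agent.Grp.DoubleCover
import Cfsg.Agent.Grp.Frobenius
import Cfsg.Prelude.Def_CaseTheorems

/-! The structure of a group with `χ 1 - χ u = 4` or `χ u = 0` for all nonprincipal `χ`. -/

set_option autoImplicit false
set_option linter.unusedSectionVars false
open scoped ComplexConjugate Classical commutatorElement

namespace Cfsg
namespace CFour

universe u
variable {G : Type u} [Group G] [Finite G] {u : G}

/-- The group theoretic information extracted from the character table. -/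
structure Data (u : G) (K : Subgroup G) [K.Normal] : Prop where
  perfect : commutator G = ⊤
  top : ∀ N : Subgroup G, N.Normal → u ∈ N → N = ⊤
  card : Nat.card (G ⧸ K) = 60
  simple : IsSimpleGroup (G ⧸ K)
  notMem : u ∉ K
  sq : u * u ∈ K
  isConj : ∀ y, y ∉ K → y * y ∈ K → IsConj u y
  four : ∀ y, y * y * (y * y) ∈ K → y * y ∈ K
  cent : Nat.card (Subgroup.centralizer ({u} : Set G)) = 4

theorem Hyp.charKer_le (h : Hyp u) {χ E : IrrCharacter G} (hχ : charDegree χ.1 = 3)
    (hχu : χ.1 u = -1) (hE : charDegree E.1 = 3) (hEu : E.1 u = -1) :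
    charKer χ.1 ≤ charKer E.1 := by
  let N := charKer χ.1 ⊓ charKer E.1
  have := Fintype.ofFinite (G ⧸ N)
  have h' := h.quotient N
  have ht : (u : G ⧸ N) * (u : G ⧸ N) = 1 := by
    rw [← QuotientGroup.mk_mul, QuotientGroup.eq_one_iff]
    exact ⟨h.sq_mem_charKer hχ hχu, h.sq_mem_charKer hE hEu⟩
  have ht1 : (u : G ⧸ N) ≠ 1 := by
    rw [Ne, QuotientGroup.eq_one_iff]
    exact fun e => h.not_mem_charKer (ne_triv_of_degree (by omega)) e.1
  have := h'.charKer_three_le ht ht1 (χ := E.deflate N inf_le_right) (by simp [hE])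
    (E := χ.deflate N inf_le_left) (by simp [hχ])
  intro g hg
  rw [IrrCharacter.mem_charKer] at hg ⊢
  have h2 := this (x := (g : G ⧸ N)) (by
    rw [IrrCharacter.mem_charKer, ← QuotientGroup.mk_one, IrrCharacter.deflate_apply,
      IrrCharacter.deflate_apply]; exact hg)
  rwa [IrrCharacter.mem_charKer, ← QuotientGroup.mk_one, IrrCharacter.deflate_apply,
    IrrCharacter.deflate_apply] at h2

theorem Hyp.exists_data (h : Hyp u) (hu : u ≠ 1) :
    ∃ (K : Subgroup G) (_ : K.Normal), Data u K := by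
  obtain ⟨χ, hχ, hχu⟩ := h.exists_three hu
  set K := charKer χ.1 with hK
  have := Fintype.ofFinite (G ⧸ K)
  have h' := h.quotient K
  have hsq := h.sq_mem_charKer hχ hχu
  have hnm : u ∉ K := h.not_mem_charKer (ne_triv_of_degree (by omega))
  have ht : (u : G ⧸ K) * (u : G ⧸ K) = 1 := by
    rw [← QuotientGroup.mk_mul, QuotientGroup.eq_one_iff]; exact hsq
  have ht1 : (u : G ⧸ K) ≠ 1 := by
    rw [Ne, QuotientGroup.eq_one_iff]; exact hnm
  have hd : charDegree (χ.deflate K le_rfl).1 = 3 := by simp [hχ]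
  have hf : charKer (χ.deflate K le_rfl).1 = ⊥ := χ.charKer_deflate_self
  obtain ⟨d1, d2, d3⟩ := h'.faithful_data ht ht1 hd hf
  have hc := h'.card_eq_sixty ht ht1 hd hf
  -- characters not containing `K` in the kernel vanish at `u`
  have hvan : ∀ ψ : IrrCharacter G, ¬ K ≤ charKer ψ.1 → ψ.1 u = 0 := by
    intro ψ hψ
    have e1 := h.sum_wt hu
    have e2 := sum_irr_one_mul_le_charKer K u
    rw [if_neg hnm] at e2
    simp only [← h.cast_wt] at e2
    have e3 : ∑ χ : IrrCharacter G with K ≤ charKer χ.1, wt u χ = 0 := by exact_mod_cast e2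
    rw [← Finset.sum_filter_add_sum_filter_not Finset.univ (fun χ => K ≤ charKer χ.1), e3,
      zero_add, Finset.sum_eq_zero_iff_of_nonneg] at e1
    · exact h.eq_zero_of_wt (e1 ψ (by simpa using hψ))
    · intro E hE
      refine h.wt_nonneg fun e => ?_
      simp only [Finset.mem_filter, Finset.mem_univ, true_and] at hE
      exact hE (h.charKer_le hχ hχu e.1 e.2)
  have hsum : ∀ y, y ∉ K → y * y ∈ K → ∑ ψ : IrrCharacter G, ψ.1 u * conj (ψ.1 y) = 4 := by
    intro y hy hy2
    have e1 := sum_irr_mul_conj (u : G ⧸ K) (y : G ⧸ K)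
    rw [if_pos (d2 _ (by rw [← QuotientGroup.mk_mul, QuotientGroup.eq_one_iff]; exact hy2)
      (by rw [Ne, QuotientGroup.eq_one_iff]; exact hy)), d3] at e1
    have e2 := sum_irr_quotient K (fun ψ : IrrCharacter G => ψ.1 u * conj (ψ.1 y))
    simp only [IrrCharacter.inflate_apply] at e2
    rw [← Finset.sum_filter_add_sum_filter_not Finset.univ (fun χ => K ≤ charKer χ.1), ← e2]
    rw [Finset.sum_eq_zero (s := Finset.univ.filter fun χ : IrrCharacter G => ¬ K ≤ charKer χ.1)
      (fun ψ hψ => by rw [hvan ψ (by simpa using hψ), zero_mul]), add_zero]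
    convert e1 using 1
    norm_num
  refine ⟨K, inferInstance, h.perfect, fun N _ hN => h.eq_top_of_mem N hN, hc, ?_, hnm, hsq,
    fun y hy hy2 => ?_, fun y hy => ?_, ?_⟩
  · have : Nontrivial (G ⧸ K) := ⟨⟨_, _, ht1⟩⟩
    refine ⟨fun N hN => ?_⟩
    by_cases hN' : N = ⊤
    · exact Or.inr hN'
    left
    obtain ⟨g, hg⟩ : ∃ g, g ∉ N := by
      by_contra hc
      push Not at hc
      exact hN' (eq_top_iff.2 fun g _ => hc g)
    obtain ⟨ψ, h1, h2⟩ := exists_irr_le_charKer_notMem N hg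
    have : ψ ≠ IrrCharacter.triv _ := by
      rintro rfl
      apply h2
      rw [(IrrCharacter.charKer_eq_top_iff (IrrCharacter.triv _)).2 rfl]
      exact Subgroup.mem_top g
    rw [d1 ψ this] at h1
    exact le_bot_iff.1 h1
  · by_contra hc
    have e1 := sum_irr_mul_conj u y
    rw [if_neg hc, hsum y hy hy2] at e1
    norm_num at e1
  · have := h'.sq_eq_one_of_four ht ht1 hd hf (y := (y : G ⧸ K))
      (by rw [← QuotientGroup.mk_mul, ← QuotientGroup.mk_mul, QuotientGroup.eq_one_iff]; exact hy)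
    rwa [← QuotientGroup.mk_mul, QuotientGroup.eq_one_iff] at this
  · have e1 := sum_irr_mul_conj u u
    rw [if_pos (IsConj.refl u), hsum u hnm hsq] at e1
    have : (Nat.card (Subgroup.centralizer ({u} : Set G)) : ℂ) = (4 : ℕ) := by
      rw [← e1]; norm_num
    exact_mod_cast this

namespace Data
variable {K : Subgroup G} [K.Normal] (D : Data u K)
include D

theorem sq_mem_of_pow {y : G} {k : ℕ} (hy : y ^ 2 ^ k = 1) : y * y ∈ K := by
  have : ∀ j, y ^ 2 ^ (j + 1) ∈ K → y * y ∈ K := by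
    intro j
    induction j with
    | zero => intro h; simpa [pow_two] using h
    | succ j ih =>
      intro h
      apply ih
      have := D.four (y ^ 2 ^ j) (by
        convert h using 1
        simp only [← pow_add]; congr 1; ring)
      convert this using 1
      rw [← pow_add]; congr 1; ring
  apply this k
  rw [pow_succ, pow_mul, hy, one_pow]
  exact K.one_mem

theorem cent_of {y : G} (hy : y ∉ K) (hy2 : y * y ∈ K) :
    Nat.card (Subgroup.centralizer ({y} : Set G)) = 4 := by
  have h1 := sum_irr_mul_conj u u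
  have h2 := sum_irr_mul_conj y y
  have hc := D.isConj y hy hy2
  rw [if_pos (IsConj.refl _)] at h1 h2
  simp only [← fun ψ : IrrCharacter G => ψ.isClassFunction.eq_of_isConj hc] at h2
  rw [h1, D.cent] at h2
  exact_mod_cast h2.symm

theorem orderOf_of {y : G} (hy : y ∉ K) (hy2 : y * y ∈ K) : orderOf y = orderOf u := by
  obtain ⟨c, rfl⟩ := isConj_iff.1 (D.isConj y hy hy2)
  exact orderOf_injective (MulAut.conj c).toMonoidHom (MulAut.conj c).injective u

theorem orderOf_cases : orderOf u = 2 ∨ orderOf u = 4 := by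
  have h1 : orderOf u ∣ 4 := by
    rw [← D.cent]
    exact Subgroup.orderOf_dvd_natCard _ (Subgroup.mem_centralizer_singleton_iff.2 rfl)
  have h2 : orderOf u ≠ 1 := by
    rw [Ne, orderOf_eq_one_iff]
    rintro rfl
    exact D.notMem K.one_mem
  have := Nat.le_of_dvd (by norm_num) h1
  generalize orderOf u = n at *
  interval_cases n <;> simp_all

theorem oddCore_le : oddCore G ≤ K := by
  have := D.simple
  have h1 := map_pPrimeCore_le 2 (QuotientGroup.mk' K) (QuotientGroup.mk'_surjective K)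
  have h2 : pPrimeCore 2 (G ⧸ K) = ⊥ := by
    rcases (inferInstance : (pPrimeCore 2 (G ⧸ K)).Normal).eq_bot_or_eq_top with h | h
    · exact h
    · rw [pPrimeCore_eq_top_iff, D.card] at h
      norm_num at h
  rw [h2, le_bot_iff, Subgroup.map_eq_bot_iff, QuotientGroup.ker_mk'] at h1
  exact h1

theorem psl : Nonempty (G ⧸ K ≃* Matrix.ProjectiveSpecialLinearGroup (Fin 2) (ZMod 5)) := by
  have := D.simple
  refine psl25_of_simple_card_sixty ?_ D.card
  rw [commutator_def, ← Subgroup.map_top_of_surjective _ (QuotientGroup.mk'_surjective K),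
    ← Subgroup.map_commutator, ← commutator_def, D.perfect]

theorem eq_bot_of_two (h2 : orderOf u = 2) : K = ⊥ := by
  have : Fact (Nat.Prime 2) := ⟨Nat.prime_two⟩
  have hsq : ∀ y, y ∉ K → y * y ∈ K → y * y = 1 := fun y hy hy2 => by
    have := pow_orderOf_eq_one y
    rwa [D.orderOf_of hy hy2, h2, pow_two] at this
  have huu := hsq u D.notMem D.sq
  have hinv : ∀ k ∈ K, u * k * u⁻¹ = k⁻¹ := by
    intro k hk
    have := hsq (u * k) (fun e => D.notMem (by simpa using K.mul_mem e (K.inv_mem hk))) (by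
      have : u * k * (u * k) = (u * k * u⁻¹) * (u * u) * k := by group
      rw [this]
      exact K.mul_mem (K.mul_mem (Subgroup.Normal.conj_mem inferInstance k hk u) D.sq) hk)
    have e : u⁻¹ = u := inv_eq_of_mul_eq_one_right huu
    rw [e]
    exact eq_inv_of_mul_eq_one_left (by rw [← this]; group)
  set C := Subgroup.centralizer (K : Set G) with hC
  have hN := D.top ((Subgroup.center (G ⧸ C)).comap (QuotientGroup.mk' C)) inferInstance (by
    rw [Subgroup.mem_comap, Subgroup.mem_center_iff]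
    intro g
    obtain ⟨g, rfl⟩ := QuotientGroup.mk_surjective g
    rw [QuotientGroup.mk'_apply, ← QuotientGroup.mk_mul, ← QuotientGroup.mk_mul, QuotientGroup.eq]
    intro k hk
    have a1 := hinv _ (Subgroup.Normal.conj_mem inferInstance k hk g)
    have a2 := hinv _ (K.inv_mem hk)
    have a3 : u⁻¹ * k⁻¹ * u = k := by
      rw [← hinv k hk]; group
    calc k * ((g * u)⁻¹ * (u * g)) = (u⁻¹ * k⁻¹ * u) * ((g * u)⁻¹ * (u * g)) := by rw [a3]
      _ = u⁻¹ * g⁻¹ * (g * k * g⁻¹)⁻¹ * u * g := by group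
      _ = u⁻¹ * g⁻¹ * (u * (g * k * g⁻¹) * u⁻¹) * u * g := by rw [a1]
      _ = (g * u)⁻¹ * (u * g) * k := by group)
  have hCt : C = ⊤ := by
    rw [eq_top_iff, ← D.perfect, ← Subgroup.Normal.quotient_commutative_iff_commutator_le]
    refine ⟨⟨fun a b => ?_⟩⟩
    obtain ⟨b, rfl⟩ := QuotientGroup.mk_surjective b
    have : b ∈ (Subgroup.center (G ⧸ C)).comap (QuotientGroup.mk' C) := hN ▸ Subgroup.mem_top b
    exact Subgroup.mem_center_iff.1 this a
  have hkk : ∀ k ∈ K, k * k = 1 := by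
    intro k hk
    have a1 : u ∈ C := hCt ▸ Subgroup.mem_top u
    have a2 := hinv k hk
    rw [← a1 k hk, mul_inv_cancel_right] at a2
    exact mul_eq_one_iff_eq_inv.2 a2
  by_contra hK
  obtain ⟨⟨z, hz⟩, hz1⟩ := (Subgroup.ne_bot_iff_exists_ne_one).1 hK
  have hz1 : z ≠ 1 := fun e => hz1 (Subtype.ext e)
  have h2K : 2 ∣ Nat.card K := by
    have : orderOf z = 2 := orderOf_eq_prime (by rw [pow_two, hkk z hz]) hz1
    rw [← this]
    exact Subgroup.orderOf_dvd_natCard _ hz
  have h8 : 2 ^ 3 ∣ Nat.card G := by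
    rw [Subgroup.card_eq_card_quotient_mul_card_subgroup K, D.card]
    obtain ⟨m, hm⟩ := h2K
    rw [hm]
    exact ⟨15 * m, by ring⟩
  obtain ⟨P, hP⟩ := (IsPGroup.of_card (G := Subgroup.zpowers u) (p := 2) (n := 1)
    (by rw [Nat.card_zpowers, h2]; rfl)).exists_le_sylow
  have huP : u ∈ (P : Subgroup G) := hP (Subgroup.mem_zpowers u)
  have hall : ∀ y ∈ (P : Subgroup G), y * y = 1 := by
    intro y hy
    by_cases hyK : y ∈ K
    · exact hkk y hyK
    · obtain ⟨k, hk⟩ := P.isPGroup' ⟨y, hy⟩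
      exact hsq y hyK (D.sq_mem_of_pow (k := k) (by simpa using congrArg Subtype.val hk))
  have hle : (P : Subgroup G) ≤ Subgroup.centralizer ({u} : Set G) := by
    intro y hy
    rw [Subgroup.mem_centralizer_singleton_iff]
    have a1 := hall _ (Subgroup.mul_mem _ hy huP)
    have a2 := hall y hy
    calc y * u = (y * u)⁻¹ := eq_inv_of_mul_eq_one_left a1
      _ = u * y := by
        rw [mul_inv_rev, inv_eq_of_mul_eq_one_right huu, inv_eq_of_mul_eq_one_right a2]
  have h4 := Subgroup.card_dvd_of_le hle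
  rw [D.cent, P.card_eq_multiplicity] at h4
  have h3 : 3 ≤ (Nat.card G).factorization 2 :=
    (Nat.prime_two.pow_dvd_iff_le_factorization Nat.card_pos.ne').1 h8
  have := (pow_dvd_pow 2 h3).trans h4
  norm_num at this

omit D in
theorem eq_sq_of_cent {y w : G} (h4 : orderOf y = 4)
    (hc : Nat.card (Subgroup.centralizer ({y} : Set G)) = 4) (hw : w * y = y * w)
    (hw2 : w * w = 1) : w = 1 ∨ w = y * y := by
  have e : Subgroup.zpowers y = Subgroup.centralizer ({y} : Set G) := by
    apply Subgroup.eq_of_le_of_card_ge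
    · rw [Subgroup.zpowers_le]; exact Subgroup.mem_centralizer_singleton_iff.2 rfl
    · rw [hc, Nat.card_zpowers, h4]
  have : w ∈ Subgroup.zpowers y := e ▸ Subgroup.mem_centralizer_singleton_iff.2 hw
  rw [← mem_powers_iff_mem_zpowers] at this
  obtain ⟨n, rfl⟩ := this
  simp only at hw2 ⊢
  rw [← pow_add, ← orderOf_dvd_iff_pow_eq_one, h4] at hw2
  rw [← pow_mod_orderOf y n, h4]
  have : n % 4 = 0 ∨ n % 4 = 2 := by omega
  rcases this with e | e
  · left; rw [e, pow_zero]
  · right; rw [e, pow_two]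

theorem exists_z (h4 : orderOf u = 4) (P : Sylow 2 G) :
    ∃ z ∈ K, z ≠ 1 ∧ z * z = 1 ∧ (∀ y ∈ (P : Subgroup G), y * z = z * y) ∧
      ∀ n ∈ K, n * z = z * n → n = 1 ∨ n = z := by
  have : Fact (Nat.Prime 2) := ⟨Nat.prime_two⟩
  -- the image of `P` has order four
  have hc : Nat.card (P.mapSurjective (QuotientGroup.mk'_surjective K)) = 4 := by
    rw [Sylow.card_eq_multiplicity, D.card]
    have : Nat.factorization 60 2 = 2 := by
      rw [show (60 : ℕ) = 2 ^ 2 * 15 by norm_num, Nat.factorization_mul (by norm_num) (by norm_num),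
        Nat.Prime.factorization_pow Nat.prime_two]
      simp [Nat.factorization_eq_zero_of_not_dvd (by norm_num : ¬ 2 ∣ 15)]
    rw [this]; norm_num
  have hex : ∀ a : G ⧸ K, ∃ y ∈ (P : Subgroup G), y ∉ K ∧ (y : G ⧸ K) ≠ a := by
    intro a
    by_contra hn
    push Not at hn
    have hsub : (((P.mapSurjective (QuotientGroup.mk'_surjective K) : Sylow 2 (G ⧸ K)) :
        Subgroup (G ⧸ K)) : Set (G ⧸ K)) ⊆ {1, a} := by
      rintro _ ⟨y, hy, rfl⟩
      by_cases hyK : y ∈ K
      · left; exact (QuotientGroup.eq_one_iff y).2 hyK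
      · right; exact hn y hy hyK
    have h1 := Set.ncard_le_ncard hsub
    have h2 := Set.ncard_insert_le (1 : G ⧸ K) {a}
    rw [Set.ncard_singleton] at h2
    rw [← Nat.card_coe_set_eq] at h1
    have h3 : Nat.card (((P.mapSurjective (QuotientGroup.mk'_surjective K) : Sylow 2 (G ⧸ K)) :
        Subgroup (G ⧸ K)) : Set (G ⧸ K)) = 4 := hc
    omega
  obtain ⟨a, ha, haK, -⟩ := hex 1
  obtain ⟨b, hb, hbK, hab⟩ := hex (a : G ⧸ K)⁻¹
  have habK : a * b ∉ K := fun e => hab (by
    rw [← QuotientGroup.eq_one_iff, QuotientGroup.mk_mul] at e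
    exact eq_inv_of_mul_eq_one_right e)
  have hsq : ∀ y ∈ (P : Subgroup G), y * y ∈ K := fun y hy => by
    obtain ⟨k, hk⟩ := P.isPGroup' ⟨y, hy⟩
    exact D.sq_mem_of_pow (k := k) (by simpa using congrArg Subtype.val hk)
  have hnt : Nontrivial (P : Subgroup G) :=
    ⟨⟨⟨a, ha⟩, 1, fun e => haK (by rw [show a = 1 from congrArg Subtype.val e]; exact K.one_mem)⟩⟩
  have hZ := P.isPGroup'.center_nontrivial
  obtain ⟨z, hz⟩ : ∃ z : Subgroup.center (P : Subgroup G), orderOf z = 2 := by
    apply exists_prime_orderOf_dvd_card'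
    obtain ⟨k, hk0, hk⟩ := (P.isPGroup'.to_subgroup
      (Subgroup.center (P : Subgroup G))).nontrivial_iff_card.1 hZ
    rw [hk]
    exact dvd_pow_self 2 hk0.ne'
  have hz2 : (z.1.1 : G) * z.1.1 = 1 := by
    have := pow_orderOf_eq_one z
    rw [hz, pow_two] at this
    exact congrArg (fun x : Subgroup.center (P : Subgroup G) => (x.1.1 : G)) this
  have hz1 : (z.1.1 : G) ≠ 1 := by
    intro e
    have : z = 1 := Subtype.ext (Subtype.ext e)
    rw [this, orderOf_one] at hz
    norm_num at hz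
  have hzc : ∀ y ∈ (P : Subgroup G), y * z.1.1 = z.1.1 * y := fun y hy =>
    congrArg Subtype.val (Subgroup.mem_center_iff.1 z.2 ⟨y, hy⟩)
  generalize (z.1.1 : G) = w at hz1 hz2 hzc
  have hkey : ∀ y, y ∉ K → y * y ∈ K → w * y = y * w → w = y * y := fun y hy hy2 hw =>
    (eq_sq_of_cent (by rw [D.orderOf_of hy hy2, h4]) (D.cent_of hy hy2) hw hz2).resolve_left hz1
  have hwK : w ∈ K := by
    rw [hkey a haK (hsq a ha) (hzc a ha).symm]; exact hsq a ha
  refine ⟨w, hwK, hz1, hz2, hzc, fun n hn hnw => ?_⟩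
  have hinv : ∀ y ∈ (P : Subgroup G), y ∉ K → y⁻¹ * n * y = n⁻¹ := by
    intro y hy hyK
    have e1 := hkey y hyK (hsq y hy) (hzc y hy).symm
    have e2 := hkey (y * n) (fun e => hyK (by simpa using K.mul_mem e (K.inv_mem hn))) (by
      have : y * n * (y * n) = (y * n * y⁻¹) * (y * y) * n := by group
      rw [this]
      exact K.mul_mem (K.mul_mem (Subgroup.Normal.conj_mem inferInstance n hn y) (hsq y hy)) hn)
      (by rw [← mul_assoc, ← hzc y hy, mul_assoc, ← hnw, mul_assoc])
    rw [e1, mul_assoc] at e2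
    have e3 := mul_left_cancel e2
    have e4 : y⁻¹ * n * y * n = 1 := by
      calc y⁻¹ * n * y * n = y⁻¹ * (n * (y * n)) := by group
        _ = 1 := by rw [← e3]; group
    exact eq_inv_of_mul_eq_one_left e4
  have e1 := hinv a ha haK
  have e2 := hinv b hb hbK
  have e3 := hinv _ (Subgroup.mul_mem _ ha hb) habK
  have e4 : (a * b)⁻¹ * n * (a * b) = n := by
    calc (a * b)⁻¹ * n * (a * b) = b⁻¹ * (a⁻¹ * n * a) * b := by group
      _ = (b⁻¹ * n * b)⁻¹ := by rw [e1]; group
      _ = n := by rw [e2, inv_inv]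
  have e5 : n * n = 1 := by
    rw [e4] at e3
    exact mul_eq_one_iff_eq_inv.2 e3
  have hab2 := hsq _ (Subgroup.mul_mem _ ha hb)
  rcases eq_sq_of_cent (w := n) (by rw [D.orderOf_of habK hab2, h4]) (D.cent_of habK hab2)
    (by
      calc n * (a * b) = (a * b) * ((a * b)⁻¹ * n * (a * b)) := by group
        _ = a * b * n := by rw [e4]) e5 with e | e
  · exact Or.inl e
  · right
    rw [e]
    exact (hkey _ habK hab2 (hzc _ (Subgroup.mul_mem _ ha hb)).symm).symm

theorem structure_of_four (h4 : orderOf u = 4) : IsMulCommutative (oddCore G) ∧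
    Nonempty (G ⧸ oddCore G ≃* Matrix.SpecialLinearGroup (Fin 2) (ZMod 5)) := by
  have : Fact (Nat.Prime 2) := ⟨Nat.prime_two⟩
  obtain ⟨Q⟩ : Nonempty (Sylow 2 K) := inferInstance
  obtain ⟨P, hP⟩ := (Q.isPGroup'.map K.subtype).exists_le_sylow
  obtain ⟨z, hzK, hz1, hz2, hzc, hz⟩ := D.exists_z h4 P
  have hO := D.oddCore_le
  have hzO : z ∉ oddCore G := fun e => by
    apply not_dvd_orderOf_of_mem_pPrimeCore e
    rw [orderOf_eq_prime (by rw [pow_two, hz2]) hz1]
  have hQ : ∀ q ∈ (Q : Subgroup K), (q : G) = 1 ∨ (q : G) = z := fun q hq =>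
    hz q q.2 (hzc q (hP ⟨q, hq, rfl⟩))
  refine ⟨isMulCommutative_of_fixedPointFree_involution (t := z) ?_ ?_ ?_, ?_⟩
  · rw [Subgroup.normalizer_eq_top]; exact Subgroup.mem_top z
  · rw [hz2]; exact Subgroup.one_mem _
  · intro n hn e
    exact (hz n (hO hn) e.symm).resolve_right fun e' => hzO (e' ▸ hn)
  have hcyc : IsCyclic (Q : Subgroup K) := by
    by_cases hzQ : (⟨z, hzK⟩ : K) ∈ (Q : Subgroup K)
    · refine ⟨⟨⟨_, hzQ⟩, fun q => ?_⟩⟩
      rcases hQ q.1 q.2 with e | e
      · exact ⟨0, Subtype.ext (Subtype.ext (by simp [e]))⟩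
      · exact ⟨1, Subtype.ext (Subtype.ext (by simp [e]))⟩
    · refine ⟨⟨1, fun q => ?_⟩⟩
      rcases hQ q.1 q.2 with e | e
      · exact ⟨0, Subtype.ext (Subtype.ext (by simp [e]))⟩
      · exact absurd (by
          have : (⟨z, hzK⟩ : K) = q.1 := Subtype.ext e.symm
          rw [this]; exact q.2) hzQ
  have hN := (hasNormalPComplement_two_of_isCyclic Q hcyc).isComplement' Q
  have hK : ∀ k ∈ K, k ∈ oddCore G ∨ z⁻¹ * k ∈ oddCore G := by
    intro k hk
    obtain ⟨⟨q, o⟩, e, -⟩ := hN.symm.existsUnique (⟨k, hk⟩ : K)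
    have ho : ((o : K) : G) ∈ oddCore G := by
      have : ((o : K) : G) ∈ (pPrimeCore 2 K).map K.subtype := ⟨o, o.2, rfl⟩
      rw [map_subtype_pPrimeCore_of_normal] at this
      exact this.1
    have e' : ((q : K) : G) * ((o : K) : G) = k := congrArg Subtype.val e
    rcases hQ q.1 q.2 with h | h
    · left; rw [← e', h, one_mul]; exact ho
    · right; rw [← e', h, inv_mul_cancel_left]; exact ho
  obtain ⟨e⟩ := D.psl
  refine sl25_of_double_cover ?_
    (e.toMonoidHom.comp (QuotientGroup.map (oddCore G) K (MonoidHom.id G) hO)) ?_ ?_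
    (z := (z : G ⧸ oddCore G)) ?_ ?_
  · rw [commutator_def, ← Subgroup.map_top_of_surjective _ (QuotientGroup.mk'_surjective _),
      ← Subgroup.map_commutator, ← commutator_def, D.perfect]
  · refine e.surjective.comp fun x => ?_
    obtain ⟨x, rfl⟩ := QuotientGroup.mk_surjective x
    exact ⟨x, rfl⟩
  · rw [← Nat.card_congr e.toEquiv, D.card]; norm_num
  · rwa [Ne, QuotientGroup.eq_one_iff]
  · intro x
    obtain ⟨x, rfl⟩ := QuotientGroup.mk_surjective x
    have : (e.toMonoidHom.comp (QuotientGroup.map (oddCore G) K (MonoidHom.id G) hO))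
        (x : G ⧸ oddCore G) = e (x : G ⧸ K) := rfl
    rw [this, map_eq_one_iff e e.injective, QuotientGroup.eq_one_iff, QuotientGroup.eq_one_iff,
      eq_comm (a := (x : G ⧸ oddCore G)), QuotientGroup.eq]
    refine ⟨hK x, ?_⟩
    rintro (h | h)
    · exact hO h
    · simpa using K.mul_mem hzK (hO h)

end Data

theorem Hyp.structure (h : Hyp u) (hu : u ≠ 1) : IsMulCommutative (oddCore G) ∧
    ((Nonempty (G ⧸ oddCore G ≃* Matrix.ProjectiveSpecialLinearGroup (Fin 2) (ZMod 5)) ∧
      orderOf u = 2) ∨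
    (Nonempty (G ⧸ oddCore G ≃* Matrix.SpecialLinearGroup (Fin 2) (ZMod 5)) ∧ orderOf u = 4)) := by
  obtain ⟨K, _, D⟩ := h.exists_data hu
  rcases D.orderOf_cases with h2 | h4
  · have hK := D.eq_bot_of_two h2
    have hO : oddCore G = K := le_antisymm D.oddCore_le (hK ▸ bot_le)
    obtain ⟨e⟩ := D.psl
    refine ⟨?_, Or.inl ⟨⟨(QuotientGroup.quotientMulEquivOfEq hO).trans e⟩, h2⟩⟩
    rw [hO, hK]
    infer_instance
  · exact ⟨(D.structure_of_four h4).1, Or.inr ⟨(D.structure_of_four h4).2, h4⟩⟩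

end CFour
end Cfsg
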