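import Cfsg.Agent.CT.Extension
import Cfsg.Agent.CT.Vanish
import Cfsg.Agent.Grp.Frobenius
import Cfsg.Agent.Grp.Misc

/-!
# Gagola characters: irreducible characters vanishing on all but two classes
-/

open scoped ComplexConjugate Pointwise

namespace Cfsg

universe u

variable {G : Type u} [Group G] [Finite G]

/-- The basic structure attached to an irreducible character which is nonzero on exactly two
classes. -/
structure IsGagola (χ : IrrCharacter G) (N : Subgroup G) (a : ℕ) : Prop where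
  normal : N.Normal
  ne_bot : N ≠ ⊥
  a_pos : 0 < a
  ne_triv : χ ≠ IrrCharacter.triv G
  apply_of_not_mem : ∀ g, g ∉ N → χ.1 g = 0
  apply_of_mem : ∀ g ∈ N, g ≠ 1 → χ.1 g = -(a : ℂ)
  degree : charDegree χ.1 + a = a * Nat.card N
  isConj : ∀ x ∈ N, ∀ y ∈ N, x ≠ 1 → y ≠ 1 → IsConj x y
  le_charKer : ∀ ψ : IrrCharacter G, ψ ≠ χ → N ≤ charKer ψ.1

omit [Finite G] in
private theorem gagola_exists_elem (χ : IrrCharacter G)
    (hχ : Nat.card {C : ConjClasses G // ∃ g ∈ C.carrier, χ.1 g ≠ 0} = 2) :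
    ∃ x : G, x ≠ 1 ∧ χ.1 x ≠ 0 ∧ ∀ g, χ.1 g ≠ 0 → g = 1 ∨ IsConj x g := by
  let c1 : {C : ConjClasses G // ∃ g ∈ C.carrier, χ.1 g ≠ 0} :=
    ⟨ConjClasses.mk 1, 1, ConjClasses.mem_carrier_mk, χ.one_ne_zero⟩
  obtain ⟨y, hy, huniq⟩ := (Nat.card_eq_two_iff' c1).1 hχ
  obtain ⟨x, hx, hx0⟩ := y.2
  have hx' : ConjClasses.mk x = y.1 := ConjClasses.mem_carrier_iff_mk_eq.1 hx
  refine ⟨x, ?_, hx0, fun g hg => ?_⟩
  · rintro rfl
    exact hy (Subtype.ext hx'.symm)
  · by_cases h1 : g = 1
    · exact Or.inl h1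
    · right
      have : (⟨ConjClasses.mk g, g, ConjClasses.mem_carrier_mk, hg⟩ :
          {C : ConjClasses G // ∃ g ∈ C.carrier, χ.1 g ≠ 0}) = y := by
        apply huniq
        intro hc
        have := ConjClasses.mk_eq_mk_iff_isConj.1 (congrArg Subtype.val hc)
        exact h1 (isConj_one_left.1 this)
      have h2 : ConjClasses.mk g = ConjClasses.mk x := by rw [hx', ← this]
      exact (ConjClasses.mk_eq_mk_iff_isConj.1 h2).symm

theorem exists_isGagola (hG : 2 < Nat.card G) (χ : IrrCharacter G)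
    (hχ : Nat.card {C : ConjClasses G // ∃ g ∈ C.carrier, χ.1 g ≠ 0} = 2) :
    ∃ (N : Subgroup G) (a : ℕ), IsGagola χ N a := by
  classical
  haveI := Fintype.ofFinite G
  obtain ⟨x, hx1, hx0, hx⟩ := gagola_exists_elem χ hχ
  set k := (Subgroup.centralizer ({x} : Set G)).index with hk
  have hk0 : k ≠ 0 := Subgroup.index_ne_zero_of_finite
  have hsum : ∀ f : G → ℂ, IsClassFunction G f → (∀ g, χ.1 g = 0 → f g = 0) →
      ∑ g, f g = f 1 + k * f x := by
    intro f hf h0
    have : ∀ g, f g = (if g = 1 then f 1 else 0) + (if IsConj x g then f x else 0) := by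
      intro g
      by_cases h1 : g = 1
      · subst h1
        have : ¬ IsConj x 1 := fun h => hx1 (isConj_one_left.1 h)
        rw [if_pos rfl, if_neg this, add_zero]
      · by_cases h2 : IsConj x g
        · rw [if_neg h1, if_pos h2, zero_add, hf.eq_of_isConj h2]
        · have : χ.1 g = 0 := by
            by_contra hc
            rcases hx g hc with h | h
            · exact h1 h
            · exact h2 h
          rw [if_neg h1, if_neg h2, zero_add, h0 g this]
    rw [Finset.sum_congr rfl fun g _ => this g, Finset.sum_add_distrib, Finset.sum_ite_eq',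
      ← Finset.sum_filter, Finset.sum_const, card_filter_isConj]
    simp [hk]
  have hne : χ ≠ IrrCharacter.triv G := by
    rintro rfl
    have := hsum (fun _ => 1) (IsClassFunction.const 1) (fun g hg => by simp at hg)
    simp only [Finset.sum_const, Finset.card_univ, nsmul_eq_mul, mul_one] at this
    have h2 : Nat.card G = 1 + k := by
      rw [Nat.card_eq_fintype_card]; exact_mod_cast this
    have h3 : k ∣ Nat.card G := Subgroup.index_dvd_card _
    rw [h2] at h3
    have : k ∣ 1 := (Nat.dvd_add_left (dvd_refl k)).1 h3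
    have := Nat.le_of_dvd one_pos this
    omega
  have horth : ∀ ψ : IrrCharacter G, ψ ≠ χ →
      χ.1 1 * conj (ψ.1 1) + k * (χ.1 x * conj (ψ.1 x)) = 0 := by
    intro ψ hψ
    have h1 := IrrCharacter.classInner_of_ne hψ.symm
    rw [classInner_def] at h1
    have hc : ((Nat.card G : ℂ))⁻¹ ≠ 0 := inv_ne_zero (by exact_mod_cast Nat.card_pos.ne')
    have h2 := (mul_eq_zero.1 h1).resolve_left hc
    rw [hsum (fun g => χ.1 g * conj (ψ.1 g)) (χ.isClassFunction.mul ψ.isClassFunction.conj)
      (fun g hg => by simp [hg])] at h2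
    exact h2
  have h1 : χ.1 1 + k * χ.1 x = 0 := by simpa using horth _ hne.symm
  have hker : ∀ ψ : IrrCharacter G, ψ ≠ χ → x ∈ charKer ψ.1 := by
    intro ψ hψ
    have h2 := horth ψ hψ
    have h3 : χ.1 1 * (conj (ψ.1 1) - conj (ψ.1 x)) = 0 := by
      linear_combination h2 - conj (ψ.1 x) * h1
    have h4 := (mul_eq_zero.1 h3).resolve_left χ.one_ne_zero
    rw [ψ.mem_charKer]
    exact ((starRingEnd ℂ).injective (sub_eq_zero.1 h4)).symm
  have hkC : (k : ℂ) ≠ 0 := by exact_mod_cast hk0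
  have hdvd : k ∣ charDegree χ.1 := by
    apply nat_dvd_of_isIntegral_div hk0
    have : (charDegree χ.1 : ℂ) / k = -χ.1 x := by
      rw [← χ.one_eq_charDegree]; field_simp; linear_combination h1
    rw [this]
    exact (χ.isIntegral x).neg
  obtain ⟨a, ha⟩ := hdvd
  have hxa : χ.1 x = -(a : ℂ) := by
    rw [χ.one_eq_charDegree, ha] at h1
    push_cast at h1
    have : (k : ℂ) * (a + χ.1 x) = 0 := by linear_combination h1
    have := (mul_eq_zero.1 this).resolve_left hkC
    linear_combination this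
  let N : Subgroup G := ⨅ ψ : {ψ : IrrCharacter G // ψ ≠ χ}, charKer ψ.1.1
  have hmem : ∀ g, g ∈ N ↔ ∀ ψ : IrrCharacter G, ψ ≠ χ → g ∈ charKer ψ.1 := by
    intro g
    simp [N, Subgroup.mem_iInf]
  have hN : N.Normal := ⟨fun n hn g => (hmem _).2 fun ψ hψ =>
    (inferInstance : (charKer ψ.1).Normal).conj_mem n ((hmem n).1 hn ψ hψ) g⟩
  have hxN : x ∈ N := (hmem x).2 hker
  have hne0 : ∀ g ∈ N, χ.1 g ≠ 0 := by
    intro g hg h0
    have hg1 : g ≠ 1 := by rintro rfl; exact χ.one_ne_zero h0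
    have h2 := sum_irr_one_mul g
    rw [if_neg hg1, ← Finset.add_sum_erase _ _ (Finset.mem_univ χ), h0, mul_zero, zero_add] at h2
    have h3 : ∑ ψ ∈ Finset.univ.erase χ, ψ.1 1 * ψ.1 g =
        ((∑ ψ ∈ Finset.univ.erase χ, charDegree ψ.1 ^ 2 : ℕ) : ℂ) := by
      push_cast
      refine Finset.sum_congr rfl fun ψ hψ => ?_
      rw [ψ.mem_charKer.1 ((hmem g).1 hg ψ (Finset.ne_of_mem_erase hψ)), ψ.one_eq_charDegree, sq]
    rw [h3] at h2
    have h4 : ∑ ψ ∈ Finset.univ.erase χ, charDegree ψ.1 ^ 2 = 0 := by exact_mod_cast h2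
    have h5 := Finset.sum_eq_zero_iff.1 h4 (IrrCharacter.triv G) (by simp [hne.symm])
    rw [IrrCharacter.charDegree_triv] at h5
    simp at h5
  have hiff : ∀ g, g ∈ N ↔ g = 1 ∨ IsConj x g := by
    intro g
    refine ⟨fun hg => hx g (hne0 g hg), ?_⟩
    rintro (rfl | h)
    · exact one_mem _
    · obtain ⟨c, rfl⟩ := isConj_iff.1 h
      exact hN.conj_mem x hxN c
  have hcard : Nat.card N = 1 + k := by
    have : Finset.univ.filter (fun g => g ∈ N) =
        insert 1 (Finset.univ.filter fun g => IsConj x g) := by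
      ext g; simp [hiff]
    rw [Nat.card_eq_fintype_card, Fintype.card_subtype, this, Finset.card_insert_of_notMem,
      card_filter_isConj, add_comm]
    simp only [Finset.mem_filter, Finset.mem_univ, true_and]
    exact fun h => hx1 (isConj_one_left.1 h)
  refine ⟨N, a, hN, ?_, ?_, hne, ?_, ?_, ?_, ?_, fun ψ hψ g hg => (hmem g).1 hg ψ hψ⟩
  · intro h
    rw [h] at hxN
    exact hx1 (Subgroup.mem_bot.1 hxN)
  · rcases Nat.eq_zero_or_pos a with h | h
    · rw [h] at hxa; simp [hx0] at hxa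
    · exact h
  · intro g hg
    by_contra hc
    exact hg ((hiff g).2 (hx g hc))
  · intro g hg hg1
    rw [← hxa]
    exact (χ.isClassFunction.eq_of_isConj (((hiff g).1 hg).resolve_left hg1)).symm
  · rw [hcard, ha]; ring
  · intro y hy z hz hy1 hz1
    exact (((hiff y).1 hy).resolve_left hy1).symm.trans (((hiff z).1 hz).resolve_left hz1)

namespace IsGagola

variable {χ : IrrCharacter G} {N : Subgroup G} {a : ℕ}

omit [Finite G] in
theorem ne_zero_iff (h : IsGagola χ N a) (g : G) : χ.1 g ≠ 0 ↔ g ∈ N := by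
  refine ⟨fun hg => by_contra fun hc => hg (h.apply_of_not_mem g hc), fun hg => ?_⟩
  by_cases h1 : g = 1
  · rw [h1]; exact χ.one_ne_zero
  · rw [h.apply_of_mem g hg h1]
    exact neg_ne_zero.2 (by exact_mod_cast h.a_pos.ne')

omit [Finite G] in
theorem eq_of_forall (h : IsGagola χ N a) {N' : Subgroup G} (hN : ∀ g, g ∈ N' ↔ χ.1 g ≠ 0) :
    N' = N := by
  ext g; rw [hN, h.ne_zero_iff]

theorem charKer_eq_bot (h : IsGagola χ N a) : charKer χ.1 = ⊥ := by
  rw [χ.charKer_eq_bot_iff]
  intro g hg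
  by_contra h1
  have hN : g ∈ N := (h.ne_zero_iff g).1 (by rw [hg]; exact χ.one_ne_zero)
  rw [h.apply_of_mem g hN h1, χ.one_eq_charDegree] at hg
  have : ((charDegree χ.1 + a : ℕ) : ℂ) = 0 := by push_cast; linear_combination -hg
  have h2 : charDegree χ.1 + a = 0 := by exact_mod_cast this
  have := h.a_pos
  omega

theorem le_charKer_iff (h : IsGagola χ N a) (ψ : IrrCharacter G) : N ≤ charKer ψ.1 ↔ ψ ≠ χ := by
  refine ⟨fun hψ he => h.ne_bot ?_, h.le_charKer ψ⟩
  rw [he, h.charKer_eq_bot] at hψ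
  exact le_bot_iff.1 hψ

theorem le_of_normal (h : IsGagola χ N a) (K : Subgroup G) [K.Normal] (hK : K ≠ ⊥) : N ≤ K := by
  intro x hx
  by_contra hc
  obtain ⟨ψ, h1, h2⟩ := exists_irr_le_charKer_notMem K hc
  by_cases he : ψ = χ
  · rw [he, h.charKer_eq_bot] at h1
    exact hK (le_bot_iff.1 h1)
  · exact h2 (h.le_charKer ψ he hx)

theorem isMinNormal (h : IsGagola χ N a) : IsMinNormal N := by
  refine ⟨h.normal, h.ne_bot, fun K hK hle => ?_⟩
  by_cases h1 : K = ⊥
  · exact Or.inl h1
  · exact Or.inr (le_antisymm hle (h.le_of_normal K h1))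

theorem one_lt_card (h : IsGagola χ N a) : 1 < Nat.card N :=
  (Subgroup.one_lt_card_iff_ne_bot N).2 h.ne_bot

theorem exists_prime (h : IsGagola χ N a) : ∃ p : ℕ, p.Prime ∧ IsPGroup p N := by
  obtain ⟨p, hp, hd⟩ := Nat.exists_prime_and_dvd h.one_lt_card.ne'
  haveI := Fact.mk hp
  obtain ⟨x, hx, hxp⟩ := exists_orderOf_eq_prime_of_dvd_card hd
  have hx1 : x ≠ 1 := by
    rintro rfl
    rw [orderOf_one] at hxp
    exact hp.one_lt.ne hxp
  refine ⟨p, hp, fun y => ⟨1, ?_⟩⟩
  by_cases hy : (y : G) = 1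
  · have : y = 1 := Subtype.ext hy
    simp [this]
  · obtain ⟨c, hc⟩ := isConj_iff.1 (h.isConj x hx y y.2 hx1 hy)
    apply Subtype.ext
    rw [pow_one, Subgroup.coe_pow, ← hc, conj_pow, ← hxp, pow_orderOf_eq_one]
    simp

theorem isElementaryAbelian (h : IsGagola χ N a) {p : ℕ} [Fact p.Prime] (hp : IsPGroup p N) :
    IsElementaryAbelian p N := h.isMinNormal.isElementaryAbelian_of_isPGroup hp

theorem isMulCommutative (h : IsGagola χ N a) : IsMulCommutative N := by
  obtain ⟨p, hp, hN⟩ := h.exists_prime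
  haveI := Fact.mk hp
  exact (h.isElementaryAbelian hN).1

theorem le_centralizer (h : IsGagola χ N a) {x : G} (hx : x ∈ N) :
    N ≤ Subgroup.centralizer ({x} : Set G) := by
  haveI := h.isMulCommutative
  intro y hy
  rw [Subgroup.mem_centralizer_singleton_iff]
  exact setLike_mul_comm hy hx

theorem index_centralizer (h : IsGagola χ N a) {x : G} (hx : x ∈ N) (hx1 : x ≠ 1) :
    (Subgroup.centralizer ({x} : Set G)).index + 1 = Nat.card N := by
  classical
  haveI := Fintype.ofFinite G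
  have : Finset.univ.filter (fun g => g ∈ N) =
      insert 1 (Finset.univ.filter fun g => IsConj x g) := by
    ext g
    simp only [Finset.mem_filter, Finset.mem_univ, true_and, Finset.mem_insert]
    constructor
    · intro hg
      by_cases h1 : g = 1
      · exact Or.inl h1
      · exact Or.inr (h.isConj x hx g hg hx1 h1)
    · rintro (rfl | hc)
      · exact one_mem _
      · obtain ⟨c, rfl⟩ := isConj_iff.1 hc
        exact h.normal.conj_mem x hx c
  rw [Nat.card_eq_fintype_card, Fintype.card_subtype, this, Finset.card_insert_of_notMem,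
    card_filter_isConj]
  simp only [Finset.mem_filter, Finset.mem_univ, true_and]
  exact fun h => hx1 (isConj_one_left.1 h)

omit [Finite G] in
/-- sums of `χ` against a function on `N` -/
theorem sum_mul (h : IsGagola χ N a) [Fintype N] (f : N → ℂ) :
    ∑ n : N, χ.1 n * f n = a * (Nat.card N * f 1 - ∑ n : N, f n) := by
  classical
  have h1 : ∀ n : N, χ.1 n * f n = (if n = 1 then (a * Nat.card N : ℂ) * f 1 else 0) - a * f n := by
    intro n
    by_cases hn : n = 1
    · subst hn
      have := congrArg (Nat.cast : ℕ → ℂ) h.degree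
      push_cast at this
      simp only [OneMemClass.coe_one, if_true, χ.one_eq_charDegree]
      linear_combination f 1 * this
    · rw [if_neg hn, h.apply_of_mem n n.2 (fun hc => hn (Subtype.ext hc))]
      ring
  rw [Finset.sum_congr rfl fun n _ => h1 n, Finset.sum_sub_distrib, Finset.sum_ite_eq',
    ← Finset.mul_sum]
  simp only [Finset.mem_univ, if_true]
  ring

theorem classInner_res (h : IsGagola χ N a) [Fintype N] (μ : IrrCharacter N)
    (hμ : μ ≠ IrrCharacter.triv N) : classInner (fun n : N => χ.1 n) μ.1 = a := by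
  haveI := h.isMulCommutative
  have h0 := IrrCharacter.classInner_of_ne hμ.symm
  have hc : (Nat.card N : ℂ) ≠ 0 := by exact_mod_cast Nat.card_pos.ne'
  rw [classInner_def] at h0 ⊢
  have h1 := (mul_eq_zero.1 h0).resolve_left (inv_ne_zero hc)
  simp only [IrrCharacter.triv_apply, one_mul] at h1
  rw [h.sum_mul (fun n => conj (μ.1 n)), h1, μ.one_eq_charDegree, μ.charDegree_eq_one_of_comm]
  field_simp
  simp [mul_comm]

theorem index_charInertia (h : IsGagola χ N a) [N.Normal] (μ : IrrCharacter N)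
    (hμ : μ ≠ IrrCharacter.triv N) : (charInertia μ.1).index + 1 = Nat.card N := by
  haveI := Fintype.ofFinite G
  haveI := Fintype.ofFinite N
  haveI := h.isMulCommutative
  have h0 := h.classInner_res μ hμ
  have ha : (a : ℂ) ≠ 0 := by exact_mod_cast h.a_pos.ne'
  obtain ⟨e, -, he, -, hd, -⟩ := clifford χ (θ := μ) (by rw [h0]; exact ha)
  have hea : e = a := by rw [h0] at he; exact_mod_cast he.symm
  have h2 := h.degree
  rw [hd, hea, μ.charDegree_eq_one_of_comm, mul_one] at h2
  exact Nat.eq_of_mul_eq_mul_left h.a_pos (by rw [← h2]; ring)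

theorem index_eq (h : IsGagola χ N a) : N.index + a ^ 2 = a ^ 2 * Nat.card N := by
  haveI := Fintype.ofFinite G
  haveI := Fintype.ofFinite N
  have h1 := (classInner_res_self_eq_iff N χ.1).2 h.apply_of_not_mem
  have hc : (Nat.card N : ℂ) ≠ 0 := by exact_mod_cast Nat.card_pos.ne'
  rw [χ.classInner_self, mul_one, classInner_def, h.sum_mul (fun n => conj (χ.1 n))] at h1
  have h2 := h.sum_mul (fun _ => 1)
  simp only [mul_one, Finset.sum_const, Finset.card_univ, nsmul_eq_mul,
    ← Nat.card_eq_fintype_card, sub_self, mul_zero] at h2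
  rw [← map_sum, h2, map_zero, sub_zero, OneMemClass.coe_one, χ.one_eq_charDegree,
    Complex.conj_natCast] at h1
  have h3 := congrArg (Nat.cast : ℕ → ℂ) h.degree
  push_cast at h3
  have h4 : (N.index : ℂ) = a * charDegree χ.1 := by rw [← h1]; field_simp
  have : ((N.index + a ^ 2 : ℕ) : ℂ) = ((a ^ 2 * Nat.card N : ℕ) : ℂ) := by
    push_cast
    linear_combination h4 + a * h3
  exact_mod_cast this

/-- a subgroup containing `N` of index `|N| - 1` has relative index `a ^ 2` over `N`. -/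
theorem relIndex_eq (h : IsGagola χ N a) {T : Subgroup G} (hNT : N ≤ T)
    (hT : T.index + 1 = Nat.card N) : N.relIndex T = a ^ 2 := by
  have h1 := Subgroup.relIndex_mul_index hNT
  have h2 := h.index_eq
  rw [← h1, ← hT] at h2
  have h0 : 0 < T.index := Nat.pos_of_ne_zero Subgroup.index_ne_zero_of_finite
  exact Nat.eq_of_mul_eq_mul_right h0 (by linarith)

/-- If a linear character of `H ≥ N` is nontrivial on `N`, then `|H : N|` divides `a`. -/
theorem relIndex_dvd (h : IsGagola χ N a) {H : Subgroup G} (hNH : N ≤ H) (μ : H →* ℂˣ)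
    (hμ : ∃ n : N, μ ⟨n, hNH n.2⟩ ≠ 1) : N.relIndex H ∣ a := by
  classical
  haveI := Fintype.ofFinite G
  haveI := Fintype.ofFinite N
  haveI := Fintype.ofFinite H
  let l : N →* ℂˣ := μ.comp (Subgroup.inclusion hNH)
  have hl : IrrCharacter.ofHom l ≠ IrrCharacter.triv N := by
    rw [← IrrCharacter.ofHom_one]
    intro hc
    obtain ⟨n, hn⟩ := hμ
    exact hn (DFunLike.congr_fun (IrrCharacter.ofHom_injective hc) n)
  have h1 := h.classInner_res _ hl
  obtain ⟨m, hm⟩ := (χ.isCharacter.res H).exists_classInner_eq_nat (isCharacter_unitsHom μ)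
  rw [classInner_def] at h1 hm
  have h2 : ∑ g : H, χ.1 g * conj ((μ g : ℂˣ) : ℂ) =
      ∑ n : N, χ.1 n * conj ((IrrCharacter.ofHom l).1 n) := by
    symm
    refine Finset.sum_of_injOn (fun n => Subgroup.inclusion hNH n)
      (Subgroup.inclusion_injective hNH).injOn (fun _ _ => Finset.mem_coe.2 (Finset.mem_univ _))
      ?_ (fun n _ => rfl)
    intro g _ hg
    rw [h.apply_of_not_mem g (fun hc => hg ⟨⟨g, hc⟩, by simp, rfl⟩), zero_mul]
  rw [h2] at hm
  have hc : (Nat.card N : ℂ) ≠ 0 := by exact_mod_cast Nat.card_pos.ne'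
  have hcH : (Nat.card H : ℂ) ≠ 0 := by exact_mod_cast Nat.card_pos.ne'
  have h3 := congrArg (Nat.cast : ℕ → ℂ) (card_mul_relIndex hNH)
  push_cast at h3
  refine ⟨m, ?_⟩
  have : (a : ℂ) = ((N.relIndex H * m : ℕ) : ℂ) := by
    push_cast
    rw [← h1, ← hm, ← h3]
    field_simp
    rw [← h3] at hcH
    rw [mul_div_cancel_right₀ _ (right_ne_zero_of_mul hcH)]
  exact_mod_cast this

theorem exists_irr_ne_triv (h : IsGagola χ N a) :
    ∃ l : N →* ℂˣ, IrrCharacter.ofHom l ≠ IrrCharacter.triv N := by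
  haveI := h.isMulCommutative
  have h1 : 1 < Nat.card (IrrCharacter N) := by rw [card_irr_of_comm]; exact h.one_lt_card
  haveI := Finite.one_lt_card_iff_nontrivial.1 h1
  obtain ⟨μ, hμ⟩ := exists_ne (IrrCharacter.triv N)
  obtain ⟨l, rfl⟩ := μ.exists_eq_ofHom μ.charDegree_eq_one_of_comm
  exact ⟨l, hμ⟩

theorem exists_a_eq_pow (h : IsGagola χ N a) {p : ℕ} [hp : Fact p.Prime] (hN : IsPGroup p N) :
    ∃ k : ℕ, a = p ^ k := by
  haveI := h.normal
  refine ⟨_, Nat.eq_prime_pow_of_unique_prime_dvd h.a_pos.ne' ?_⟩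
  intro q hq hqa
  by_contra hqp
  haveI := Fact.mk hq
  obtain ⟨l, hl⟩ := h.exists_irr_ne_triv
  set T := charInertia (IrrCharacter.ofHom l).1 with hT
  have hNT : N ≤ T := (IrrCharacter.ofHom l).le_charInertia
  have hrel := h.relIndex_eq hNT (h.index_charInertia _ hl)
  obtain ⟨Q, -, hQT, hQ, hQi⟩ := exists_le_sylowIn (p := q) (H := T) (R := ⊥) IsPGroup.of_bot bot_le
  have hcop : (Nat.card N).Coprime (Nat.card Q) := IsPGroup.coprime_card_of_ne p q (Ne.symm hqp) N Q hN hQ
  have hNH : N ≤ N ⊔ Q := le_sup_left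
  have hidx : N.relIndex (N ⊔ Q) = Nat.card Q := by
    have h1 := card_mul_relIndex hNH
    rw [card_sup_of_disjoint Subgroup.le_normalizer_of_normal (inf_eq_bot_of_coprime_card hcop)] at h1
    exact Nat.eq_of_mul_eq_mul_left Nat.card_pos h1
  let l' : N.subgroupOf (N ⊔ Q) →* ℂˣ := l.comp (Subgroup.subgroupOfEquivOfLe hNH).toMonoidHom
  have hord : orderOf l' ∣ Nat.card N := by
    apply orderOf_dvd_of_pow_eq_one
    ext n
    simp only [l', MonoidHom.pow_apply, MonoidHom.comp_apply, ← map_pow, pow_card_eq_one', map_one,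
      MonoidHom.one_apply]
  obtain ⟨μ, ⟨hμ, -⟩, -⟩ := existsUnique_extension_linear l' (fun g n => by
    have hg : (g : G) ∈ T := (sup_le hNT hQT) g.2
    have := (mem_charInertia.1 hg) ⟨n, n.2⟩
    simp only [IrrCharacter.ofHom_apply] at this
    exact Units.val_injective this) (by
      change (orderOf l').Coprime (N.relIndex (N ⊔ Q))
      rw [hidx]; exact hcop.coprime_dvd_left hord)
  have hdvd := h.relIndex_dvd hNH μ (by
    by_contra hc
    push Not at hc
    apply hl
    rw [← IrrCharacter.ofHom_one]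
    congr 1
    ext n
    have := hμ ⟨⟨n, hNH n.2⟩, n.2⟩
    rw [hc n] at this
    exact congrArg Units.val this.symm)
  rw [hidx, card_sylowIn hQT hQ hQi, ← card_mul_relIndex hNT, hrel] at hdvd
  have ha0 := h.a_pos.ne'
  have h5 := (hq.pow_dvd_iff_le_factorization ha0).1 hdvd
  rw [Nat.factorization_mul Nat.card_pos.ne' (pow_ne_zero _ ha0), Nat.factorization_pow] at h5
  have h6 := hq.factorization_pos_of_dvd ha0 hqa
  simp only [Finsupp.add_apply, Finsupp.smul_apply, smul_eq_mul] at h5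
  omega

theorem exists_sylow_eq (h : IsGagola χ N a) {p : ℕ} [hp : Fact p.Prime] (hN : IsPGroup p N)
    {T : Subgroup G} (hNT : N ≤ T) (hT : T.index + 1 = Nat.card N) :
    ∃ P : Sylow p G, (P : Subgroup G) = T := by
  obtain ⟨k, hk⟩ := h.exists_a_eq_pow hN
  obtain ⟨m, hm⟩ := IsPGroup.iff_card.1 hN
  apply exists_sylow_eq_of_not_dvd_index
  · refine IsPGroup.iff_card.2 ⟨m + k * 2, ?_⟩
    rw [← card_mul_relIndex hNT, h.relIndex_eq hNT hT, hm, hk, pow_add, pow_mul]
  · intro hd
    have h1 : p ∣ Nat.card N := dvd_card_of_isPGroup_of_ne_bot hN h.ne_bot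
    rw [← hT] at h1
    exact hp.out.one_lt.ne' (Nat.dvd_one.1 ((Nat.dvd_add_right hd).1 h1))

theorem exists_sylow_eq_centralizer (h : IsGagola χ N a) {p : ℕ} [hp : Fact p.Prime]
    (hN : IsPGroup p N) {x : G} (hx : x ∈ N) (hx1 : x ≠ 1) :
    ∃ P : Sylow p G, (P : Subgroup G) = Subgroup.centralizer ({x} : Set G) :=
  h.exists_sylow_eq hN (h.le_centralizer hx) (h.index_centralizer hx hx1)

theorem isPGroup_centralizer (h : IsGagola χ N a) {p : ℕ} [hp : Fact p.Prime]
    (hN : IsPGroup p N) {x : G} (hx : x ∈ N) (hx1 : x ≠ 1) :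
    IsPGroup p (Subgroup.centralizer ({x} : Set G)) := by
  obtain ⟨P, hP⟩ := h.exists_sylow_eq_centralizer hN hx hx1
  rw [← hP]; exact P.isPGroup'

/-- `C_G(N) = O_p(G)`. -/
theorem centralizer_eq_pCore (h : IsGagola χ N a) {p : ℕ} [hp : Fact p.Prime]
    (hN : IsPGroup p N) : Subgroup.centralizer (N : Set G) = pCore p G := by
  haveI := h.normal
  apply le_antisymm
  · obtain ⟨⟨x, hx⟩, hx1⟩ := Subgroup.ne_bot_iff_exists_ne_one.1 h.ne_bot
    refine le_pCore inferInstance ((h.isPGroup_centralizer hN hx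
      (fun hc => hx1 (Subtype.ext hc))).to_le ?_)
    exact Subgroup.centralizer_le (Set.singleton_subset_iff.2 hx)
  · exact pCore_le_centralizer_of_isMinNormal p h.isMinNormal

/-- The Camina property. -/
theorem card_centralizer (h : IsGagola χ N a) [N.Normal] {x : G} (hx : x ∉ N) :
    Nat.card (Subgroup.centralizer ({x} : Set G)) =
      Nat.card (Subgroup.centralizer ({(x : G ⧸ N)} : Set (G ⧸ N))) := by
  classical
  have h1 := sum_irr_norm_sq_eq_card_centralizer x
  have h2 := sum_irr_norm_sq_eq_card_centralizer (x : G ⧸ N)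
  have h3 := sum_irr_quotient N (fun ψ : IrrCharacter G => ‖ψ.1 x‖ ^ 2)
  simp only [IrrCharacter.inflate_apply] at h3
  rw [h2, Finset.sum_filter_of_ne, h1] at h3
  · exact_mod_cast h3.symm
  · intro ψ _ hψ
    rw [h.le_charKer_iff]
    rintro rfl
    simp [h.apply_of_not_mem x hx] at hψ

/-- The Camina property: elements of a coset `xN ≠ N` are conjugate. -/
theorem isConj_mul (h : IsGagola χ N a) {x n : G} (hx : x ∉ N) (hn : n ∈ N) :
    IsConj x (x * n) := by
  rw [isConj_iff_forall_irr]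
  intro ψ
  by_cases he : ψ = χ
  · rw [he, h.apply_of_not_mem x hx, h.apply_of_not_mem]
    exact fun hc => hx (by simpa using mul_mem hc (inv_mem hn))
  · rw [ψ.isClassFunction.apply_mul_of_mem_charKer' (h.le_charKer ψ he hn)]

end IsGagola

end Cfsg
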