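import Cfsg.Agent.CT.ItoPSolv
import Cfsg.Agent.CT.Glauberman
import Cfsg.Agent.CT.RealOdd
import Cfsg.Agent.Blk.Over
import Cfsg.Agent.CT.Degrees

/-!
# `p'`-degree and `q'`-degree characters of `p`- and `q`-solvable groups
-/

set_option autoImplicit false
set_option linter.unusedSectionVars false

open scoped Pointwise commutatorElement

namespace Cfsg

universe u

variable {G : Type u} [Group G] [Finite G] {p q : ℕ} [hp : Fact p.Prime] [hq : Fact q.Prime]

omit hq in
theorem le_centralizer_inf_of_glauberman {P L Q : Subgroup G} [L.Normal] (hP : IsPGroup p P)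
    (hL : ¬ p ∣ Nat.card L) (hPQ : Q ≤ Subgroup.centralizer (P : Set G))
    (hc : (Nat.card L).Coprime (Nat.card Q)) (hs : Group.IsSolvable Q)
    (h : ∀ θ : IrrCharacter L, P ≤ charInertia θ.1 → Q ≤ charInertia θ.1) :
    Q ≤ Subgroup.centralizer ((L ⊓ Subgroup.centralizer (P : Set G) : Subgroup G) : Set G) := by
  obtain ⟨C, hC⟩ : ∃ C, C = L ⊓ Subgroup.centralizer (P : Set G) := ⟨_, rfl⟩
  have hCL : C ≤ L := hC ▸ inf_le_left
  have hQC : Q ≤ Subgroup.normalizer (C : Set G) := hC ▸ le_normalizer_inf_centralizer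
    Subgroup.le_normalizer_of_normal (hPQ.trans (Subgroup.centralizer_le_normalizer _))
  have hb := glBij_of_isPGroup hp.out hP Subgroup.le_normalizer_of_normal
    (coprime_card_of_isPGroup hP hL).symm hC hCL
  have hfix : ∀ β : IrrCharacter C, ∀ a ∈ Q, CharInv a β.1 := fun β a ha => by
    obtain ⟨θ, h1, h2⟩ := hb.surj β trivial
    have hLa : a ∈ Subgroup.normalizer (L : Set G) := Subgroup.le_normalizer_of_normal ha
    have h3 := h2.smul (α := normAut L hLa) (α' := normAut C (hQC ha)) (fun c => rfl)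
    rw [(charInv_iff_smul hLa).1 (mem_charInertia_iff_charInv.1
      (h θ (fun s hs => mem_charInertia_iff_charInv.2 (h1 s hs)) ha))] at h3
    exact (charInv_iff_smul (hQC ha)).2 (h2.unique hp.out h3)
  rw [← hC, Subgroup.le_centralizer_iff, ← Subgroup.subgroupOf_eq_top]
  refine eq_top_of_forall_exists_conj_mem fun k => ?_
  obtain ⟨n, hn, h1⟩ := exists_conj_mem_centralizer_of_coprime (N := C) (A := Q) hQC
    (Nat.Coprime.coprime_dvd_left (Subgroup.card_dvd_of_le hCL) hc) (Or.inr hs) (x := k)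
    (fun a ha => by
      obtain ⟨n, hn⟩ := isConj_iff.1 (isConj_iff_forall_irr.2
        (fun β : IrrCharacter C => (hfix β a ha k (normAut C (hQC ha) k) rfl).symm))
      exact ⟨n, n.2, congrArg Subtype.val hn⟩)
  exact ⟨⟨n, hn⟩, h1⟩

theorem le_centralizer_of_le_normalizer_of_residual {P Q : Subgroup G} (hP : IsPGroup p P)
    (hQ : IsPGroup q Q) (hB : ¬ q ∣ Nat.card (pPrimeResidual p G))
    (h : P ≤ Subgroup.normalizer (Q : Set G)) : Q ≤ Subgroup.centralizer (P : Set G) := by
  have h1 := inf_normalizer_eq_inf_centralizer (N := pPrimeResidual p G) (A := Q)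
    Subgroup.le_normalizer_of_normal
    (inf_eq_bot_of_coprime_card (coprime_card_of_isPGroup hQ hB).symm)
  rw [Subgroup.le_centralizer_iff]
  exact (le_inf (le_pPrimeResidual_of_isPGroup hP) h).trans (h1.le.trans inf_le_right)

theorem exists_commuting_sylow_of_residual (hA : ¬ p ∣ Nat.card (pPrimeResidual q G))
    (hB : ¬ q ∣ Nat.card (pPrimeResidual p G)) (P : Sylow p G) :
    ∃ Q : Sylow q G, (Q : Subgroup G) ≤ Subgroup.centralizer ((P : Subgroup G) : Set G) := by
  obtain ⟨Q, h1, h2, h3, h4⟩ := exists_invariant_sylow q (N := pPrimeResidual q G) (A := P)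
    Subgroup.le_normalizer_of_normal (coprime_card_of_isPGroup P.2 hA).symm
    (Or.inr (isSolvable_of_isPGroup P.2))
  obtain ⟨S, rfl⟩ := exists_sylow_eq_of_not_dvd_index h2 (by
    rw [← Subgroup.relIndex_mul_index h1]
    exact hq.out.not_dvd_mul h3 (not_dvd_index_pPrimeResidual q))
  exact ⟨S, le_centralizer_of_le_normalizer_of_residual P.2 S.2 hB h4⟩

theorem exists_sylow_forall_invariant_le (hqs : IsPSolvable q G)
    (hA : ¬ p ∣ Nat.card (pPrimeResidual q G)) (hB : ¬ q ∣ Nat.card (pPrimeResidual p G))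
    (h : ∀ χ : IrrCharacter G, ¬ p ∣ charDegree χ.1 → ¬ q ∣ charDegree χ.1) (P : Sylow p G) :
    ∃ Q : Sylow q G, (Q : Subgroup G) ≤ Subgroup.centralizer ((P : Subgroup G) : Set G) ∧
      ∀ Q₁ : Subgroup G, IsPGroup q Q₁ → (P : Subgroup G) ≤ Subgroup.normalizer (Q₁ : Set G) →
        Q₁ ≤ Q := by
  obtain ⟨Q, hQ⟩ := exists_commuting_sylow_of_residual hA hB P
  refine ⟨Q, hQ, fun Q₁ h1 h2 => ?_⟩
  have hPK : (P : Subgroup G) ≤ pPrimeCore q G :=
    (le_pPrimeResidual_of_isPGroup P.2).trans (le_pPrimeCore_of_not_dvd inferInstance hB)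
  have hn : ((Q : Subgroup G) ⊔ pPrimeCore q G).Normal :=
    sylow_normal_of_quotient Q fun S => (hqs.quotient _).sylow_normal_of_forall_not_dvd
      (fun χ => by
        have := h (χ.inflate _) (fun hd => P.not_dvd_index (by
          rw [IrrCharacter.charDegree_inflate] at hd
          exact (hd.trans χ.charDegree_dvd_card).trans (Subgroup.index_dvd_of_le hPK)))
        rwa [IrrCharacter.charDegree_inflate] at this) S
  have hQR : (Q : Subgroup G) ≤ pPrimeResidual q G := le_pPrimeResidual_of_isPGroup Q.2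
  have hR : pPrimeResidual q G = (pPrimeCore q G ⊓ pPrimeResidual q G) ⊔ (Q : Subgroup G) := by
    rw [← sup_inf_of_le_normalizer' Subgroup.le_normalizer_of_normal hQR, eq_comm, inf_eq_right,
      sup_comm]
    exact pPrimeResidual_le fun hd =>
      Q.not_dvd_index (hd.trans (Subgroup.index_dvd_of_le le_sup_left))
  obtain ⟨L, hL⟩ : ∃ L, L = pPrimeCore q G ⊓ pPrimeResidual q G := ⟨_, rfl⟩
  have hLn : L.Normal := hL ▸ inferInstance
  have hLR : L ≤ pPrimeResidual q G := hL ▸ inf_le_right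
  have hLp : ¬ p ∣ Nat.card L := fun hd => hA (hd.trans (Subgroup.card_dvd_of_le hLR))
  have hLq : ¬ q ∣ Nat.card L := fun hd => not_dvd_card_pPrimeCore (G := G) q
    (hd.trans (Subgroup.card_dvd_of_le (hL ▸ inf_le_left)))
  rw [← hL] at hR
  obtain ⟨k, hk⟩ : ∃ k, L.relIndex (pPrimeResidual q G) = q ^ k := by
    rw [hR, Subgroup.relIndex_sup_left]
    obtain ⟨n, hn⟩ := IsPGroup.iff_card.1 Q.isPGroup'
    have : L.relIndex (Q : Subgroup G) ∣ q ^ n := hn ▸ Subgroup.relIndex_dvd_card _ _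
    obtain ⟨j, -, hj⟩ := (Nat.dvd_prime_pow hq.out).1 this
    exact ⟨j, hj⟩
  have h3 := le_centralizer_inf_of_glauberman P.2 hLp hQ (coprime_card_of_isPGroup Q.2 hLq).symm
    (isSolvable_of_isPGroup Q.2) fun θ hθ => by
      have := Fintype.ofFinite L
      obtain ⟨χ, hχ, hd⟩ := exists_mem_irrOver_not_dvd hLp P hθ
      obtain ⟨S, hS⟩ := exists_sylow_le_of_not_dvd_index'
        (not_dvd_index_charInertia_of_over (mem_irrOver_subtype.1 hχ) (h χ hd))
      refine hQR.trans ((le_sup_of_relIndex_eq_pow (U := ⊤) (S := S) le_top le_top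
        Subgroup.le_normalizer_of_normal hLR
        (by rw [Subgroup.relIndex_top_right]; exact S.not_dvd_index) hk).trans ?_)
      exact sup_le θ.le_charInertia hS
  have h4 : Q₁ ≤ Subgroup.normalizer ((Q : Subgroup G) : Set G) := by
    have h5 : Q₁ ≤ (L ⊔ (Q : Subgroup G)) ⊓ Subgroup.centralizer ((P : Subgroup G) : Set G) :=
      le_inf (hR ▸ le_pPrimeResidual_of_isPGroup h1)
        (le_centralizer_of_le_normalizer_of_residual P.2 h1 hB h2)
    rw [sup_inf_of_le_normalizer' Subgroup.le_normalizer_of_normal hQ] at h5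
    exact h5.trans (sup_le ((Subgroup.le_centralizer_iff.1 h3).trans
      (Subgroup.centralizer_le_normalizer _)) Subgroup.le_normalizer)
  have h5 := Q.is_maximal' (IsPGroup.to_sup_of_normal_left' Q.isPGroup' h1 h4) le_sup_left
  exact le_sup_right.trans h5.le

theorem not_dvd_card_pPrimeResidual_step (hpq : p ≠ q) (hps : IsPSolvable p G)
    (hqs : IsPSolvable q G)
    (h : ∀ χ : IrrCharacter G, pPrimeCore p G ≤ charKer χ.1 → ¬ p ∣ charDegree χ.1 →
      ¬ q ∣ charDegree χ.1)
    (ih : ∀ (N : Subgroup G) [N.Normal], N ≠ ⊥ → ¬ p ∣ Nat.card (pPrimeResidual q (G ⧸ N)) ∧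
      ¬ q ∣ Nat.card (pPrimeResidual p (G ⧸ N))) :
    ¬ p ∣ Nat.card (pPrimeResidual q G) := by
  intro hd
  have hO : pPrimeCore p G = ⊥ := by
    by_contra hne
    have h1 := (ih _ hne).1
    rw [← map_pPrimeResidual q _ (QuotientGroup.mk'_surjective _), card_map_mk] at h1
    rw [← card_inf_mul_relIndex (pPrimeCore p G)] at hd
    exact hp.out.not_dvd_mul (fun h2 => not_dvd_card_pPrimeCore (G := G) p
      (h2.trans (Subgroup.card_dvd_of_le inf_le_left))) h1 hd
  have h' : ∀ χ : IrrCharacter G, ¬ p ∣ charDegree χ.1 → ¬ q ∣ charDegree χ.1 :=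
    fun χ => h χ (hO ▸ bot_le)
  have hA : pPrimeResidual q G ≠ ⊥ := fun h0 => by
    rw [h0, Subgroup.card_bot] at hd
    exact hp.out.one_lt.ne' (Nat.dvd_one.1 hd)
  have : Nontrivial G := by
    by_contra hn
    rw [not_nontrivial_iff_subsingleton] at hn
    exact hA (Subsingleton.elim _ _)
  have hcen := hps.centralizer_pCore_le hO
  have hN0 : pCore p G ≠ ⊥ := hps.pCore_ne_bot_or.resolve_right (fun h0 => h0 hO)
  have hNp := isPGroup_pCore p G
  obtain ⟨P⟩ : Nonempty (Sylow p G) := inferInstance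
  have hNP := pCore_le_sylow P
  have hNn : (pCore p G).Normal := inferInstance
  generalize pCore p G = N at hcen hN0 hNp hNP hNn
  obtain ⟨Qb, hQb, huniq⟩ := exists_sylow_forall_invariant_le (hqs.quotient N) (ih N hN0).1
    (ih N hN0).2 (fun χ h1 => by simpa using h' (χ.inflate N) (by simpa using h1))
    (P.mapSurjective (QuotientGroup.mk'_surjective N))
  obtain ⟨Q, rfl⟩ := Sylow.mapSurjective_surjective (QuotientGroup.mk'_surjective N) q Qb
  change (Q : Subgroup G).map (QuotientGroup.mk' N) ≤ Subgroup.centralizer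
    (((P : Subgroup G).map (QuotientGroup.mk' N) : Subgroup (G ⧸ N)) : Set (G ⧸ N)) at hQb
  have hPQ : ⁅(P : Subgroup G), (Q : Subgroup G)⁆ ≤ N := by
    rw [← map_mk_eq_bot_iff, Subgroup.map_commutator, Subgroup.commutator_eq_bot_iff_le_centralizer,
      Subgroup.le_centralizer_iff]
    exact hQb
  have hQp : ¬ p ∣ Nat.card (Q : Subgroup G) := by
    obtain ⟨k, hk⟩ := IsPGroup.iff_card.1 Q.isPGroup'
    rw [hk]
    exact fun h1 => hpq ((Nat.prime_dvd_prime_iff_eq hp.out hq.out).1 (hp.out.dvd_of_dvd_pow h1))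
  have hQN : (Q : Subgroup G) ≤ Subgroup.normalizer ((P : Subgroup G) : Set G) := fun y hy =>
    Subgroup.mem_normalizer_fintype fun x hx => by
      have h1 := hNP (hPQ (Subgroup.commutator_mem_commutator (inv_mem hx) hy))
      have h2 : y * x * y⁻¹ = x * ⁅x⁻¹, y⁆ := by rw [commutatorElement_def]; group
      rw [SetLike.mem_coe, h2]
      exact mul_mem hx h1
  have hP1 := commutator_sup_centralizer_of_coprime hQN (coprime_card_of_isPGroup P.2 hQp)
    (Or.inr (isSolvable_of_isPGroup Q.2))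
  have hN1 := commutator_sup_centralizer_of_coprime (N := N) (A := Q)
    Subgroup.le_normalizer_of_normal (coprime_card_of_isPGroup hNp hQp)
    (Or.inr (isSolvable_of_isPGroup Q.2))
  by_cases hc : (P : Subgroup G) ≤ Subgroup.centralizer ((Q : Subgroup G) : Set G)
  · have h1 : (Q : Subgroup G) ≤ N := (Subgroup.le_centralizer_iff.1 (hNP.trans hc)).trans hcen
    have h2 := eq_bot_of_isPGroup_of_not_dvd (hNp.to_le h1) hQp
    refine hA (pPrimeResidual_eq_bot_iff.2 ?_)
    have := Q.not_dvd_index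
    rwa [h2, Subgroup.index_bot] at this
  obtain ⟨D, hD, hCD⟩ := (eq_top_or_exists_le_coatom
    ((Subgroup.centralizer ((Q : Subgroup G) : Set G)).subgroupOf P)).resolve_left
      fun h1 => hc (Subgroup.subgroupOf_eq_top.1 h1)
  obtain ⟨hDn, hDi⟩ := index_eq_of_isCoatom_of_isPGroup P.isPGroup' hD
  obtain ⟨g, hg⟩ : ∃ g, g ∉ D := by
    by_contra h1
    push Not at h1
    exact hD.1 (eq_top_iff.2 fun x _ => h1 x)
  obtain ⟨μ, hμ, hμg⟩ := exists_unitsHom_le_ker_ne_one (N := D) (by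
    have : IsCyclic (P ⧸ D) := isCyclic_of_prime_card (p := p) hDi
    rw [← Subgroup.Normal.quotient_commutative_iff_commutator_le]
    exact IsCyclic.isMulCommutative) hg
  have := Fintype.ofFinite (P : Subgroup G)
  have := Fintype.ofFinite N
  obtain ⟨χ, hχ, hχd⟩ := (IrrCharacter.ofHom μ).exists_over_not_dvd hp.out P.not_dvd_index
    (by simpa using hp.out.ne_one)
  have hχN : classInner (fun n : N => χ.1 n)
      (IrrCharacter.ofHom (μ.comp (Subgroup.inclusion hNP))).1 ≠ 0 :=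
    classInner_res_ne_zero_trans hNP χ.isCharacter (IrrCharacter.ofHom μ)
      (IrrCharacter.isCharacter _) hχ (by
        have := (IrrCharacter.ofHom (μ.comp (Subgroup.inclusion hNP))).classInner_self
        exact fun h0 => one_ne_zero (this.symm.trans h0))
  have hT := not_dvd_index_charInertia_of_over hχN (h' χ hχd)
  have hNT := (IrrCharacter.ofHom (μ.comp (Subgroup.inclusion hNP))).le_charInertia
  have hPT : (P : Subgroup G) ≤
      charInertia (IrrCharacter.ofHom (μ.comp (Subgroup.inclusion hNP))).1 := fun x hx =>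
    mem_charInertia_ofHom.2 fun n => by
      change μ (⟨x, hx⟩ * Subgroup.inclusion hNP n * ⟨x, hx⟩⁻¹) = μ (Subgroup.inclusion hNP n)
      simp
  have hQT : (Q : Subgroup G) ≤
      charInertia (IrrCharacter.ofHom (μ.comp (Subgroup.inclusion hNP))).1 := by
    generalize charInertia (IrrCharacter.ofHom (μ.comp (Subgroup.inclusion hNP))).1 = T
      at hT hNT hPT
    obtain ⟨Q₁, h1, h2, h3, h4⟩ := exists_invariant_sylow q
      (N := pPrimeResidual q (G ⧸ N) ⊓ T.map (QuotientGroup.mk' N))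
      (A := (P : Subgroup G).map (QuotientGroup.mk' N))
      (fun x hx => Subgroup.mem_normalizer_fintype fun y hy => by
        rw [SetLike.mem_coe, Subgroup.mem_inf] at hy ⊢
        have hx' := Subgroup.map_mono hPT hx
        exact ⟨Subgroup.Normal.conj_mem inferInstance _ hy.1 _,
          mul_mem (mul_mem hx' hy.2) (inv_mem hx')⟩)
      (coprime_card_of_isPGroup (P.2.map _) fun h1 => (ih N hN0).1
        (h1.trans (Subgroup.card_dvd_of_le inf_le_left))).symm
      (Or.inr (isSolvable_of_isPGroup (P.2.map _)))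
    have h5 := huniq Q₁ h2 h4
    have h6 : ¬ q ∣ Q₁.relIndex ⊤ := by
      rw [Subgroup.relIndex_top_right, ← Subgroup.relIndex_mul_index h1,
        ← Subgroup.relIndex_mul_index (inf_le_right : _ ≤ T.map (QuotientGroup.mk' N)),
        Subgroup.inf_relIndex_right, index_map_mk, sup_eq_left.2 hNT]
      exact hq.out.not_dvd_mul h3 (hq.out.not_dvd_mul (fun h7 => not_dvd_index_pPrimeResidual q
        (h7.trans (Subgroup.relIndex_dvd_index_of_normal _ _))) hT)
    have h7 := eq_of_le_of_sylowIn h6 h5 le_top (Sylow.isPGroup' _)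
    have h8 : (Q : Subgroup G).map (QuotientGroup.mk' N) ≤ T.map (QuotientGroup.mk' N) :=
      h7.le.trans (h1.trans inf_le_right)
    rwa [map_mk_le_map_mk_iff, sup_eq_left.2 hNT] at h8
  have hC : (P : Subgroup G) ⊓ Subgroup.centralizer ((Q : Subgroup G) : Set G) ≤
      μ.ker.map (P : Subgroup G).subtype := fun x hx => ⟨⟨x, hx.1⟩, hμ (hCD hx.2), rfl⟩
  have hNE : N ≤ μ.ker.map (P : Subgroup G).subtype := by
    rw [← hN1]
    refine sup_le (Subgroup.commutator_le.2 fun n hn y hy => ?_)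
      ((inf_le_inf_right _ hNP).trans hC)
    have h1 := mem_charInertia_ofHom.1 (hQT hy) ⟨n⁻¹, inv_mem hn⟩
    refine ⟨Subgroup.inclusion hNP ⟨n, hn⟩ * Subgroup.inclusion hNP
      ⟨y * n⁻¹ * y⁻¹, hNn.conj_mem _ (inv_mem hn) y⟩, ?_, by
        simp [commutatorElement_def, mul_assoc]⟩
    rw [SetLike.mem_coe, MonoidHom.mem_ker, map_mul]
    erw [h1]
    rw [MonoidHom.comp_apply, ← map_mul, ← map_mul]
    exact (congrArg (fun z => μ (Subgroup.inclusion hNP z))
      (Subtype.ext (mul_inv_cancel n) : (⟨n, hn⟩ : N) * ⟨n⁻¹, inv_mem hn⟩ = 1)).trans (by simp)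
  have hPE : (P : Subgroup G) ≤ μ.ker.map (P : Subgroup G).subtype := by
    conv_lhs => rw [← hP1]
    exact sup_le (hPQ.trans hNE) hC
  obtain ⟨g', hg', h1⟩ := hPE g.2
  exact hμg (Subtype.ext h1 ▸ hg')

theorem not_dvd_card_pPrimeResidual_of_degrees (hpq : p ≠ q) (G : Type u) [Group G] [Finite G]
    (hps : IsPSolvable p G) (hqs : IsPSolvable q G)
    (h1 : ∀ χ : IrrCharacter G, pPrimeCore p G ≤ charKer χ.1 → ¬ p ∣ charDegree χ.1 →
      ¬ q ∣ charDegree χ.1)
    (h2 : ∀ χ : IrrCharacter G, pPrimeCore q G ≤ charKer χ.1 → ¬ q ∣ charDegree χ.1 →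
      ¬ p ∣ charDegree χ.1) :
    ¬ p ∣ Nat.card (pPrimeResidual q G) ∧ ¬ q ∣ Nat.card (pPrimeResidual p G) := by
  revert hps hqs h1 h2
  refine induction_on_card (P := fun G _ _ => IsPSolvable p G → IsPSolvable q G →
    (∀ χ : IrrCharacter G, pPrimeCore p G ≤ charKer χ.1 → ¬ p ∣ charDegree χ.1 →
      ¬ q ∣ charDegree χ.1) →
    (∀ χ : IrrCharacter G, pPrimeCore q G ≤ charKer χ.1 → ¬ q ∣ charDegree χ.1 →
      ¬ p ∣ charDegree χ.1) →
    ¬ p ∣ Nat.card (pPrimeResidual q G) ∧ ¬ q ∣ Nat.card (pPrimeResidual p G)) ?_ G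
  intro G _ _ ih hps hqs h1 h2
  have key : ∀ (r : ℕ) (N : Subgroup G) [N.Normal] (χ : IrrCharacter (G ⧸ N)),
      pPrimeCore r (G ⧸ N) ≤ charKer χ.1 → pPrimeCore r G ≤ charKer (χ.inflate N).1 :=
    fun r N _ χ h => by
      rw [IrrCharacter.charKer_inflate, ← Subgroup.map_le_iff_le_comap]
      exact (map_pPrimeCore_le r _ (QuotientGroup.mk'_surjective N)).trans h
  have ih' : ∀ (N : Subgroup G) [N.Normal], N ≠ ⊥ → ¬ p ∣ Nat.card (pPrimeResidual q (G ⧸ N)) ∧
      ¬ q ∣ Nat.card (pPrimeResidual p (G ⧸ N)) := fun N _ hN =>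
    ih _ (card_quotient_lt hN) (hps.quotient N) (hqs.quotient N)
      (fun χ h h' => by simpa using h1 _ (key p N χ h) (by simpa using h'))
      (fun χ h h' => by simpa using h2 _ (key q N χ h) (by simpa using h'))
  exact ⟨not_dvd_card_pPrimeResidual_step hpq hps hqs h1 ih',
    not_dvd_card_pPrimeResidual_step hpq.symm hqs hps h2 fun N _ hN => (ih' N hN).symm⟩

end Cfsg
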