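import Cfsg.Agent.CT.OddIndex
import Cfsg.Agent.CT.ItoPSolv
import Cfsg.Agent.CT.Degrees

/-! Groups whose real irreducible characters have degrees prime to `p` (Isaacs–Navarro). -/

set_option autoImplicit false

namespace Cfsg

open scoped ComplexConjugate

universe u v

variable {G : Type u} [Group G] [Finite G]

/-- a real character whose restriction contains `θ` an odd number of times has a real
constituent over `θ`, when `θ` is conjugate to its complex conjugate -/
theorem exists_real_over_of_odd {N : Subgroup G} [N.Normal] [Fintype N] {π : G → ℂ}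
    (hπ : IsCharacter G π) (hr : ∀ g, conj (π g) = π g) {θ : IrrCharacter N} {s : G}
    (hs : θ.cconj = s • θ) {m : ℕ} (hm : Odd m) (h : classInner (fun n : N => π n) θ.1 = m) :
    ∃ χ : IrrCharacter G, (∀ g, (χ.1 g).im = 0) ∧ classInner (fun n : N => χ.1 n) θ.1 ≠ 0 := by
  classical
  haveI := Fintype.ofFinite G
  by_contra hne
  push Not at hne
  choose a ha using fun χ : IrrCharacter G => hπ.exists_classInner_eq_nat χ.isCharacter
  choose b hb using fun χ : IrrCharacter G =>
    (χ.isCharacter.res N).exists_classInner_eq_nat θ.isCharacter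
  have h1 : (m : ℂ) = ∑ χ : IrrCharacter G, (a χ : ℂ) * b χ := by
    rw [← h]
    have h2 : (fun n : N => π n) = ∑ χ : IrrCharacter G, (a χ : ℂ) • fun n : N => χ.1 n := by
      ext n
      rw [hπ.isClassFunction.eq_sum_irr, Finset.sum_apply]
      simp [ha]
    rw [h2, classInner_sum_left]
    simp only [classInner_smul_left, hb]
  have h2 : m = ∑ χ : IrrCharacter G, a χ * b χ := by exact_mod_cast h1
  have ha' : ∀ χ : IrrCharacter G, a χ.cconj = a χ := by
    intro χ
    have := classInner_galois_eq (starRingEnd ℂ) hπ.isGeneralizedCharacter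
      χ.isCharacter.isGeneralizedCharacter
    simp only [hr] at this
    have h3 : (a χ.cconj : ℂ) = a χ := by rw [← ha, ← ha, ← this]; rfl
    exact_mod_cast h3
  have hb' : ∀ χ : IrrCharacter G, b χ.cconj = b χ := by
    intro χ
    have h3 := classInner_res_galois (starRingEnd ℂ) N χ.cconj θ
    change classInner (fun n : N => χ.cconj.cconj.1 n) θ.cconj.1 = _ at h3
    rw [IrrCharacter.cconj_cconj, hs, IrrCharacter.classInner_res_smul χ.isClassFunction, hb,
      hb] at h3
    exact_mod_cast h3.symm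
  have h3 : ∑ χ : IrrCharacter G, ((a χ * b χ : ℕ) : ZMod 2) = 0 := by
    refine Finset.sum_involution (fun χ _ => χ.cconj) ?_ ?_ (fun _ _ => Finset.mem_univ _)
      (fun χ _ => χ.cconj_cconj)
    · intro χ _
      rw [ha', hb', CharTwo.add_self_eq_zero]
    · intro χ _ h4 h5
      apply h4
      have h6 := hne χ (IrrCharacter.cconj_eq_self_iff.1 h5)
      rw [hb, Nat.cast_eq_zero] at h6
      simp [h6]
  rw [← Nat.cast_sum, ← h2, ZMod.natCast_eq_zero_iff_even] at h3
  exact (Nat.not_even_iff_odd.2 hm) h3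

theorem exists_real_over_of_disjoint {N H : Subgroup G} [hN : N.Normal] [Fintype N]
    (hd : N ⊓ H = ⊥) (hi : ¬ 2 ∣ (N ⊔ H).index) {θ : IrrCharacter N}
    (hθ : ¬ 2 ∣ charDegree θ.1) {s : G} (hs : θ.cconj = s • θ) :
    ∃ χ : IrrCharacter G, (∀ g, (χ.1 g).im = 0) ∧ classInner (fun n : N => χ.1 n) θ.1 ≠ 0 := by
  classical
  haveI := Fintype.ofFinite G
  have hc : IsCharacter G (indFun H fun _ => 1) := (IrrCharacter.triv H).isCharacter.indFun
  refine exists_real_over_of_odd hc (fun g => ?_) hs (m := (N ⊔ H).index * charDegree θ.1)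
    (Nat.odd_mul.2 ⟨Nat.odd_iff.2 (Nat.two_dvd_ne_zero.1 hi),
      Nat.odd_iff.2 (Nat.two_dvd_ne_zero.1 hθ)⟩) ?_
  · rw [indFun_one_eq_card_fixedBy, map_natCast]
  · rw [classInner_def, Finset.sum_eq_single 1]
    · have h1 : H.index = Nat.card N * (N ⊔ H).index := by
        have h2 := (N ⊔ H).card_mul_index
        rw [card_sup_of_disjoint (Subgroup.le_normalizer_of_normal) hd, ← H.card_mul_index] at h2
        refine Nat.eq_of_mul_eq_mul_left (Nat.card_pos (α := H)) ?_
        rw [← h2]; ring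
      have h3 : (Nat.card N : ℂ) ≠ 0 := Nat.cast_ne_zero.2 Nat.card_pos.ne'
      rw [OneMemClass.coe_one, indFun_one, h1, θ.one_eq_charDegree, map_natCast]
      push_cast
      field_simp
    · intro n _ hn
      rw [indFun_eq_zero_of_forall_not_mem, zero_mul]
      intro x hx
      have h1 : x * n * x⁻¹ ∈ N ⊓ H := ⟨hN.conj_mem n n.2 x, hx⟩
      rw [hd, Subgroup.mem_bot, conj_eq_one_iff] at h1
      exact hn (Subtype.ext h1)
    · simp

/-- a character of a normal subgroup of odd order that is conjugate to its complex conjugate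
lies under a real character -/
theorem exists_real_over_of_odd_card {N : Subgroup G} [N.Normal] [Fintype N]
    (hodd : ¬ 2 ∣ Nat.card N) {θ : IrrCharacter N} {s : G} (hs : θ.cconj = s • θ) :
    ∃ χ : IrrCharacter G, (∀ g, (χ.1 g).im = 0) ∧ classInner (fun n : N => χ.1 n) θ.1 ≠ 0 := by
  haveI : Fact (Nat.Prime 2) := ⟨Nat.prime_two⟩
  obtain ⟨S⟩ : Nonempty (Sylow 2 G) := inferInstance
  have h1 : N ⊓ S = ⊥ :=
    inf_eq_bot_of_coprime_card (coprime_card_of_isPGroup S.isPGroup' hodd).symm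
  have h2 : ¬ 2 ∣ (N ⊔ S).index :=
    fun h => S.not_dvd_index (h.trans (Subgroup.index_dvd_of_le le_sup_right))
  exact exists_real_over_of_disjoint h1 h2
    (fun h => hodd (h.trans (IrrCharacter.charDegree_dvd_card θ))) hs

/-- a `2`-element acting nontrivially on a normal subgroup inverts a nontrivial
character -/
theorem exists_irr_cconj_eq_smul {N : Subgroup G} [hN : N.Normal] {t : G}
    (ht : ∃ k : ℕ, orderOf t = 2 ^ k) (hc : t ∉ Subgroup.centralizer (N : Set G)) :
    ∃ (θ : IrrCharacter N) (s : G), θ ≠ IrrCharacter.triv N ∧ θ.cconj = s • θ := by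
  classical
  obtain ⟨s, hs1, hs2⟩ : ∃ s : G, s ∉ Subgroup.centralizer (N : Set G) ∧
      s * s ∈ Subgroup.centralizer (N : Set G) := by
    by_contra hne
    push Not at hne
    obtain ⟨k, hk⟩ := ht
    have : ∀ j : ℕ, t ^ 2 ^ j ∉ Subgroup.centralizer (N : Set G) := by
      intro j
      induction j with
      | zero => simpa using hc
      | succ j ih => rw [pow_succ, pow_mul, sq]; exact hne _ ih
    exact this k (by rw [← hk, pow_orderOf_eq_one]; exact one_mem _)
  obtain ⟨x, hx, hxs⟩ : ∃ x ∈ N, x * s ≠ s * x := by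
    by_contra hne
    push Not at hne
    exact hs1 hne
  let π : N → N := fun n => ⟨(s * n * s⁻¹)⁻¹, N.inv_mem (hN.conj_mem n n.2 s)⟩
  have hπ : ∀ (θ : IrrCharacter N) (n : N), θ.1 (π n) = (s⁻¹ • θ).cconj.1 n := by
    intro θ n
    rw [IrrCharacter.cconj_apply', IrrCharacter.inv_smul_apply]
    exact congrArg θ.1 (Subtype.ext (by simp [π, mul_assoc]))
  have h1 := card_irr_fixed_eq_card_classes_fixed π fun θ => by
    have : (fun n => θ.1 (π n)) = (s⁻¹ • θ).cconj.1 := funext (hπ θ)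
    rw [this]
    exact (s⁻¹ • θ).cconj.2
  let m : N := ⟨x⁻¹ * (s * x * s⁻¹), N.mul_mem (N.inv_mem hx) (hN.conj_mem x hx s)⟩
  have hm1 : m ≠ 1 := by
    intro h
    have h2 : x⁻¹ * (s * x * s⁻¹) = 1 := congrArg Subtype.val h
    apply hxs
    rw [inv_mul_eq_one] at h2
    conv_lhs => rw [h2]
    group
  have hm2 : π m = m := by
    ext
    have h2 : x * (s * s) = s * s * x := hs2 x hx
    change (s * (x⁻¹ * (s * x * s⁻¹)) * s⁻¹)⁻¹ = x⁻¹ * (s * x * s⁻¹)
    calc (s * (x⁻¹ * (s * x * s⁻¹)) * s⁻¹)⁻¹ = x⁻¹ * (x * (s * s)) * x⁻¹ * s⁻¹ * x * s⁻¹ := by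
          simp [mul_assoc]
      _ = _ := by
          have h3 : x⁻¹ * (s * s * x) * x⁻¹ * s⁻¹ * x * s⁻¹ = x⁻¹ * (s * x * s⁻¹) := by group
          rw [h2, h3]
  have h2 : 1 < Nat.card {θ : IrrCharacter N // ∀ n, θ.1 (π n) = θ.1 n} := by
    rw [h1, Finite.one_lt_card_iff_nontrivial]
    refine ⟨⟨⟨ConjClasses.mk 1, 1, rfl, ?_⟩, ⟨ConjClasses.mk m, m, rfl, by rw [hm2]⟩, ?_⟩⟩
    · have : π 1 = 1 := by ext; simp [π]
      rw [this]
    · intro h
      have h3 := ConjClasses.mk_eq_mk_iff_isConj.1 (congrArg Subtype.val h)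
      exact hm1 (isConj_one_right.1 h3)
  haveI := Finite.one_lt_card_iff_nontrivial.1 h2
  obtain ⟨⟨θ, hθ⟩, hne⟩ := exists_ne (⟨IrrCharacter.triv N, fun _ => rfl⟩ :
    {θ : IrrCharacter N // ∀ n, θ.1 (π n) = θ.1 n})
  refine ⟨θ, s⁻¹, fun h => hne (Subtype.ext h), ?_⟩
  have h3 : (s⁻¹ • θ).cconj = θ := Subtype.ext (funext fun n => (hπ θ n).symm.trans (hθ n))
  conv_lhs => rw [← h3]
  exact IrrCharacter.cconj_cconj _

/-- the hypothesis that real characters have `p'`-degree passes to normal subgroups of odd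
index -/
theorem real_not_dvd_of_odd_index {p : ℕ} {N : Subgroup G} [N.Normal] (hi : ¬ 2 ∣ N.index)
    (h : ∀ χ : IrrCharacter G, (∀ g, (χ.1 g).im = 0) → ¬ p ∣ charDegree χ.1)
    (θ : IrrCharacter N) (hθ : ∀ n, (θ.1 n).im = 0) : ¬ p ∣ charDegree θ.1 := by
  haveI := Fintype.ofFinite G
  haveI := Fintype.ofFinite N
  obtain ⟨χ, ⟨h1, h2⟩, -⟩ := existsUnique_real_over (Nat.odd_iff.2 (Nat.two_dvd_ne_zero.1 hi)) θ hθ
  exact fun h3 => h χ h2 (h3.trans (clifford_charDegree_dvd χ h1))

theorem sylow_normal_of_real_not_dvd {p : ℕ} [hp : Fact p.Prime]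
    (hsolv : Group.IsSolvable (pPrimeResidual p G))
    (hreal : ∀ χ : IrrCharacter G, (∀ g, (χ.1 g).im = 0) → ¬ p ∣ charDegree χ.1)
    (hK : ∃ a, (pPrimeResidual 2 G).index = p ^ a) (P : Sylow p G) : (P : Subgroup G).Normal := by
  haveI : Fact (Nat.Prime 2) := ⟨Nat.prime_two⟩
  refine induction_on_card (P := fun G _ _ => Group.IsSolvable (pPrimeResidual p G) →
    (∀ χ : IrrCharacter G, (∀ g, (χ.1 g).im = 0) → ¬ p ∣ charDegree χ.1) →
    (∃ a, (pPrimeResidual 2 G).index = p ^ a) → ∀ P : Sylow p G, (P : Subgroup G).Normal)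
    ?_ G hsolv hreal hK P
  clear hsolv hreal hK P
  intro G _ _ ih hsolv hreal hK P
  haveI := Fintype.ofFinite G
  by_cases hR : pPrimeResidual p G = ⊥
  · have : (P : Subgroup G) = ⊥ := eq_bot_iff.2 (hR ▸ le_pPrimeResidual_of_isPGroup P.isPGroup')
    rw [this]
    infer_instance
  obtain ⟨N, hN, hNR⟩ := exists_isMinNormal_le (pPrimeResidual_normal p G) hR
  haveI := hN.1
  haveI := Fintype.ofFinite N
  obtain ⟨q, hq, hNq⟩ := hN.exists_isElementaryAbelian (isSolvable_of_le hNR hsolv)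
  haveI := Fact.mk hq
  have hPN : ((P : Subgroup G) ⊔ N).Normal := by
    refine sylow_normal_of_quotient P (ih _ (card_quotient_lt hN.2.1) ?_
      (fun χ hχ => hreal (χ.inflate N) fun g => hχ _) ?_)
    · rw [← map_pPrimeResidual p _ (QuotientGroup.mk'_surjective N)]
      exact isSolvable_map _ hsolv
    · rw [← map_pPrimeResidual 2 _ (QuotientGroup.mk'_surjective N), index_map_mk]
      obtain ⟨a, ha⟩ := hK
      obtain ⟨b, -, hb⟩ := (Nat.dvd_prime_pow hp.out).1
        (ha ▸ Subgroup.index_dvd_of_le (le_sup_left : _ ≤ pPrimeResidual 2 G ⊔ N))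
      exact ⟨b, hb⟩
  by_cases hpq : q = p
  · subst hpq
    rwa [sup_eq_left.2 (hNq.isPGroup.le_sylow_of_normal P)] at hPN
  have hpN : ¬ p ∣ Nat.card N := by
    obtain ⟨k, hk⟩ := hNq.isPGroup.exists_card_eq
    rw [hk]
    exact fun h => hpq ((Nat.prime_dvd_prime_iff_eq hp.out hq).1 (hp.out.dvd_of_dvd_pow h)).symm
  set H := Subgroup.normalizer ((P : Subgroup G) : Set G) with hH
  by_contra hnn
  have hNH : N ⊔ H = ⊤ := by
    have h1 := frattini_argument (N := (P : Subgroup G) ⊔ N) (Q := P) le_sup_left P.isPGroup'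
      (not_dvd_relIndex_sylow_of_normal P _)
    rwa [sup_comm (P : Subgroup G), sup_assoc, sup_eq_right.2 Subgroup.le_normalizer] at h1
  have hnle : ¬ N ≤ H := fun h => hnn (by
    rw [← Subgroup.normalizer_eq_top_iff, ← hH, ← hNH, sup_eq_right.2 h])
  have hcomm : ∀ a ∈ N, ∀ b ∈ N, a * b = b * a := fun a ha b hb =>
    congrArg Subtype.val (hNq.1.is_comm.comm (⟨a, ha⟩ : N) ⟨b, hb⟩)
  have hd : N ⊓ H = ⊥ := by
    have h1 : (N ⊓ H).Normal := by
      rw [← Subgroup.normalizer_eq_top_iff, eq_top_iff, ← hNH]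
      refine sup_le (fun x hx => ?_) (fun x hx => ?_)
      · exact Subgroup.centralizer_le_normalizer _ fun y hy => hcomm y hy.1 x hx
      · exact Subgroup.mem_normalizer_fintype fun y hy =>
          ⟨hN.1.conj_mem y hy.1 x, H.mul_mem (H.mul_mem hx hy.2) (H.inv_mem hx)⟩
    exact (hN.2.2 _ h1 inf_le_left).resolve_right fun h => hnle (inf_eq_left.1 h)
  haveI := hNq.1
  obtain ⟨θ, s, hθ1, hθs⟩ : ∃ (θ : IrrCharacter N) (s : G), θ ≠ IrrCharacter.triv N ∧
      θ.cconj = s • θ := by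
    by_cases hq2 : q = 2
    · have h1 : 1 < Nat.card (IrrCharacter N) := by
        rw [card_irr_of_comm]
        exact (Subgroup.one_lt_card_iff_ne_bot N).2 hN.2.1
      haveI := Finite.one_lt_card_iff_nontrivial.1 h1
      obtain ⟨θ, hθ⟩ := exists_ne (IrrCharacter.triv N)
      refine ⟨θ, 1, hθ, ?_⟩
      ext n
      rw [one_smul, IrrCharacter.cconj_apply']
      have := hNq.2 n n.2
      rw [hq2, sq] at this
      exact congrArg θ.1 (Subtype.ext (inv_eq_of_mul_eq_one_right this))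
    have hodd : ¬ 2 ∣ Nat.card N := by
      obtain ⟨k, hk⟩ := hNq.isPGroup.exists_card_eq
      rw [hk]
      exact fun h => hq2 ((Nat.prime_dvd_prime_iff_eq Nat.prime_two hq).1
        (Nat.prime_two.dvd_of_dvd_pow h)).symm
    by_contra hne
    have hcen : ∀ t : G, (∃ k : ℕ, orderOf t = 2 ^ k) → t ∈ Subgroup.centralizer (N : Set G) := by
      intro t ht
      by_contra hc
      exact hne (exists_irr_cconj_eq_smul ht hc)
    have hKH : pPrimeResidual 2 G ≤ H := by
      refine (Subgroup.closure_le _).2 fun t ht => ?_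
      obtain ⟨n, hn, h, hh, rfl⟩ := mem_sup_normal_left.1 (hNH.ge (Subgroup.mem_top t))
      obtain ⟨k, hk⟩ := ht
      have h1 : Commute n (n * h) := hcen _ ⟨k, hk⟩ n hn
      have h2 : Commute n h := by
        have := h1.eq
        rw [mul_assoc, mul_right_inj] at this
        exact this
      have h3 : n ^ 2 ^ k * h ^ 2 ^ k = 1 := by rw [← h2.mul_pow, ← hk, pow_orderOf_eq_one]
      have h4 : n ^ 2 ^ k ∈ N ⊓ H :=
        ⟨N.pow_mem hn _, by
          rw [eq_inv_of_mul_eq_one_left h3]; exact H.inv_mem (H.pow_mem hh _)⟩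
      rw [hd, Subgroup.mem_bot] at h4
      have h5 : orderOf n = 1 := Nat.eq_one_of_dvd_coprimes
        (Nat.Coprime.pow_left k ((Nat.Prime.coprime_iff_not_dvd Nat.prime_two).2 hodd))
        (orderOf_dvd_of_pow_eq_one h4) (N.orderOf_dvd_natCard hn)
      rw [orderOf_eq_one_iff.1 h5, one_mul]
      exact hh
    have h1 := sylow_sup_eq_top_of_index P hK
    exact hnle (le_top.trans (h1.ge.trans (sup_le hKH Subgroup.le_normalizer)))
  obtain ⟨l, rfl⟩ := (IrrCharacter.equivHomOfComm N).surjective θ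
  rw [IrrCharacter.equivHomOfComm_apply] at hθ1 hθs
  obtain ⟨χ, hχr, hχ⟩ := exists_real_over_of_disjoint hd (by rw [hNH]; simp)
    (by rw [IrrCharacter.charDegree_ofHom]; decide) hθs
  have hI := not_dvd_index_charInertia_of_over hχ (hreal χ hχr)
  set I := charInertia (IrrCharacter.ofHom l).1
  have hPI : (P : Subgroup G) ⊔ N ≤ I := by
    have h1 : ¬ p ∣ I.relIndex ((P : Subgroup G) ⊔ N) :=
      fun h => hI (h.trans (relIndex_dvd_index_of_normal_right _ _))
    have h2 : I.relIndex ((P : Subgroup G) ⊔ N) ∣ N.relIndex ((P : Subgroup G) ⊔ N) :=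
      Subgroup.relIndex_dvd_of_le_left _ (IrrCharacter.le_charInertia _)
    rw [Subgroup.relIndex_sup_right] at h2
    obtain ⟨k, hk⟩ := P.isPGroup'.exists_card_eq
    obtain ⟨j, -, hj⟩ := (Nat.dvd_prime_pow hp.out).1
      (hk ▸ h2.trans (Subgroup.relIndex_dvd_card _ _))
    rcases j with _ | j
    · exact Subgroup.relIndex_eq_one.1 hj
    · exact absurd (hj ▸ dvd_pow_self p (Nat.succ_ne_zero j)) h1
  have hcm : ⁅(P : Subgroup G) ⊔ N, N⁆ = ⊥ := by
    refine (hN.2.2 _ inferInstance (Subgroup.commutator_le_right _ _)).resolve_right fun h => hθ1 ?_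
    rw [← IrrCharacter.ofHom_one]
    congr 1
    have h1 : ⁅(P : Subgroup G) ⊔ N, N⁆ ≤ l.ker.map N.subtype := by
      refine Subgroup.commutator_le.2 fun x hx n hn => ?_
      refine ⟨⟨x * n * x⁻¹, hN.1.conj_mem n hn x⟩ * (⟨n, hn⟩ : N)⁻¹, ?_, rfl⟩
      rw [SetLike.mem_coe, MonoidHom.mem_ker, map_mul, map_inv,
        mem_charInertia_ofHom.1 (hPI hx) ⟨n, hn⟩, mul_inv_cancel]
    ext n
    rw [h] at h1
    obtain ⟨m, hm, hmn⟩ := h1 n.2
    rw [← Subtype.ext hmn]
    exact congrArg Units.val hm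
  apply hnle
  rw [Subgroup.commutator_eq_bot_iff_le_centralizer, Subgroup.le_centralizer_iff] at hcm
  exact hcm.trans ((Subgroup.centralizer_le (le_sup_left : (P : Subgroup G) ≤ _)).trans
    (Subgroup.centralizer_le_normalizer _))

theorem isSolvable_pPrimeResidual_subgroup {p : ℕ} [Fact p.Prime]
    (h : Group.IsSolvable (pPrimeResidual p G)) (H : Subgroup G) :
    Group.IsSolvable (pPrimeResidual p H) :=
  isSolvable_of_le (K := (pPrimeResidual p G).subgroupOf H)
    (fun x hx => map_pPrimeResidual_le p H.subtype ⟨x, hx, rfl⟩) (isSolvable_subgroupOf _ h)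

/-- a character of `p'`-degree contains in its kernel every normal subgroup contained in the
derived subgroup of a `p`-subgroup -/
theorem IrrCharacter.apply_eq_of_le_commutator {p : ℕ} [Fact p.Prime] (χ : IrrCharacter G)
    (h : ¬ p ∣ charDegree χ.1) {P M : Subgroup G} [M.Normal] (hP : IsPGroup p P)
    (hM : M ≤ ⁅P, P⁆) : ∀ n ∈ M, χ.1 n = χ.1 1 := by
  haveI := Fintype.ofFinite G
  haveI := Fintype.ofFinite M
  haveI := Fintype.ofFinite P
  have hMP : M ≤ P := hM.trans (Subgroup.commutator_le_self _)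
  obtain ⟨ψ, h1, h2⟩ := χ.isCharacter.exists_linear_constituent h hP
  obtain ⟨l, rfl⟩ := ψ.exists_eq_ofHom h2
  refine χ.over_triv_iff.1 (classInner_res_ne_zero_trans hMP χ.isCharacter _
    (IrrCharacter.triv M).isCharacter h1 ?_)
  have h3 : ∀ k : M, (IrrCharacter.ofHom l).1 ⟨k, hMP k.2⟩ = (IrrCharacter.triv M).1 k := by
    intro k
    have h4 : ⁅P, P⁆ ≤ l.ker.map P.subtype := by
      rw [← Subgroup.map_subtype_commutator]
      exact Subgroup.map_mono (Abelianization.commutator_subset_ker l)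
    obtain ⟨m, hm, hmk⟩ := h4 (hM k.2)
    have h5 : (⟨k, hMP k.2⟩ : P) = m := Subtype.ext hmk.symm
    rw [h5]
    exact congrArg Units.val hm
  rw [funext h3]
  exact (IrrCharacter.triv M).classInner_self.trans_ne _root_.one_ne_zero

end Cfsg
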