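import Cfsg.Agent.CT.OkuyamaWajima
import Cfsg.Agent.CT.GlOdd2
import Cfsg.Agent.CT.RealOdd
import Cfsg.Agent.CT.OddIndex

/-! A relative Glauberman correspondence above a normal `p`-subgroup, and the resulting bijection
for real characters (Isaacs–Navarro). -/

set_option autoImplicit false

namespace Cfsg

open scoped ComplexConjugate
open IrrCharacter

universe u v

/-- congruence up to sign -/
def CongPM (p a b : ℕ) : Prop := (b : ZMod p) = (a : ZMod p) ∨ (b : ZMod p) = -(a : ZMod p)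

theorem CongPM.mul {p a b c d : ℕ} (h : CongPM p a b) (h' : c ≡ d [MOD p]) :
    CongPM p (c * a) (d * b) := by
  have h1 := (ZMod.natCast_eq_natCast_iff _ _ _).2 h'
  rcases h with h | h
  · left; push_cast; rw [h, h1]
  · right; push_cast; rw [h, h1]; ring

theorem relIndex_stabilizer_modEq {G : Type u} [Group G] [Finite G] {Ω : Type v} [MulAction G Ω]
    {p : ℕ} [Fact p.Prime] {K L P : Subgroup G} (hP : IsPGroup p P)
    (hPK : P ≤ Subgroup.normalizer (K : Set G)) (hLK : L ≤ K)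
    (hL : L ≤ Subgroup.normalizer (P : Set G)) {ω : Ω} (hω : ∀ x ∈ P, x • ω = ω)
    (h : ∀ k ∈ K, (∀ x ∈ P, x • k • ω = k • ω) → ∃ l ∈ L, l • ω = k • ω) :
    (MulAction.stabilizer G ω).relIndex K ≡ (MulAction.stabilizer G ω).relIndex L [MOD p] := by
  have hc : ∀ U : Subgroup G, (MulAction.stabilizer G ω).relIndex U =
      Nat.card (MulAction.orbit U ω) := fun U => by
    rw [Nat.card_coe_set_eq, ← MulAction.index_stabilizer]
    rfl
  let X : SubMulAction P Ω :=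
    { carrier := MulAction.orbit K ω
      smul_mem' := by
        rintro x _ ⟨k, rfl⟩
        refine ⟨⟨x * k * (x : G)⁻¹, (Subgroup.mem_normalizer_iff.1 (hPK x.2) k).1 k.2⟩, ?_⟩
        show ((x : G) * k * (x : G)⁻¹) • ω = (x : G) • (k : G) • ω
        rw [mul_smul, hω _ (P.inv_mem x.2), mul_smul] }
  haveI : Finite X := (Finite.finite_mulAction_orbit (M := K) ω).to_subtype
  have h1 := hP.card_modEq_card_fixedPoints X
  have h2 : Nat.card (MulAction.fixedPoints P X) = Nat.card (MulAction.orbit L ω) := by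
    refine Nat.card_congr ⟨fun y => ⟨y.1.1, ?_⟩, fun y => ⟨⟨y.1, ?_⟩, ?_⟩, fun _ => rfl,
      fun _ => rfl⟩
    · obtain ⟨⟨_, k, rfl⟩, hy⟩ := y
      obtain ⟨l, hl, h2⟩ := h k k.2 fun x hx => congrArg Subtype.val (hy ⟨x, hx⟩)
      exact ⟨⟨l, hl⟩, h2⟩
    · obtain ⟨_, l, rfl⟩ := y
      exact ⟨⟨l, hLK l.2⟩, rfl⟩
    · obtain ⟨_, l, rfl⟩ := y
      intro x
      refine Subtype.ext ?_
      show (x : G) • (l : G) • ω = (l : G) • ω
      have h3 := hω _ ((Subgroup.mem_normalizer_iff''.1 (hL l.2) x).1 x.2)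
      rw [mul_smul, mul_smul, inv_smul_eq_iff] at h3
      exact h3
  rw [hc, hc, ← h2]
  exact h1

theorem RelBij.symm {α β : Type*} {R : α → β → Prop} {P : α → Prop} {Q : β → Prop}
    (h : RelBij R P Q) : RelBij (fun b a => R a b) Q P := ⟨h.2, h.1⟩

section
variable {Γ : Type u} [Group Γ] [Finite Γ] {p : ℕ} {K L U V S T Q P : Subgroup Γ}

theorem clifford_rmult (hKV : K ≤ V) (hVU : V ≤ U) (hN : U ≤ Subgroup.normalizer (K : Set Γ))
    {θ : IrrCharacter K} (hV : U ⊓ ezStab θ ≤ V) :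
    RelBij (fun (ψ : IrrCharacter U) (φ : IrrCharacter V) => rmult ψ φ ≠ 0)
      (fun ψ => rmult ψ θ ≠ 0) (fun φ => rmult φ θ ≠ 0) ∧
    ∀ (ψ : IrrCharacter U) (φ : IrrCharacter V), rmult φ θ ≠ 0 → rmult ψ φ ≠ 0 →
      rmult ψ φ = 1 ∧ charDegree ψ.1 = V.relIndex U * charDegree φ.1 := by
  obtain ⟨e, he⟩ := exists_clifford_equiv hKV hVU hN hV
  haveI := Fintype.ofFinite U
  haveI := Fintype.ofFinite (V.subgroupOf U)
  have h1 : ∀ φ (ψ : IrrCharacter U), (rmult ψ φ.1 : ℂ) = classInner ψ.1 (e φ).1.1 := by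
    intro φ ψ
    rw [cast_rmult_subgroupOf hVU, (he φ).2.2, classInner_indFun_right _ _ ψ.isClassFunction]
  have h2 : ∀ φ (ψ : IrrCharacter U), rmult ψ φ.1 ≠ 0 → ψ = (e φ).1 := fun φ ψ h =>
    eq_of_classInner_ne_zero (by rw [← h1]; exact_mod_cast h)
  refine ⟨⟨fun ψ hψ => ⟨(e.symm ⟨ψ, hψ⟩).1, ⟨(e.symm ⟨ψ, hψ⟩).2, ?_⟩, fun φ hφ => ?_⟩,
    fun φ hφ => ⟨(e ⟨φ, hφ⟩).1, ⟨(e ⟨φ, hφ⟩).2, (he ⟨φ, hφ⟩).2.1⟩,
      fun ψ h => h2 ⟨φ, hφ⟩ ψ h.2⟩⟩, fun ψ φ hφ h => ?_⟩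
  · simpa using (he (e.symm ⟨ψ, hψ⟩)).2.1
  · have h3 : e ⟨φ, hφ.1⟩ = ⟨ψ, hψ⟩ := Subtype.ext (h2 ⟨φ, hφ.1⟩ ψ hφ.2).symm
    rw [← h3, Equiv.symm_apply_apply]
  · have h3 := h2 ⟨φ, hφ⟩ ψ h
    have h4 := h1 ⟨φ, hφ⟩ ψ
    rw [← h3, ψ.classInner_self] at h4
    exact ⟨by exact_mod_cast h4, h3 ▸ (he ⟨φ, hφ⟩).1⟩

theorem rmult_clifford_eq (hQS : Q ≤ S) (hST : S ≤ T) (hSL : S ≤ L) (hTK : T ≤ K) (hLK : L ≤ K)
    (hN : K ≤ Subgroup.normalizer (Q : Set Γ)) {ν : IrrCharacter Q} (hT : K ⊓ ezStab ν ≤ T)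
    (hS : L ⊓ ezStab ν ≤ S) {β : IrrCharacter T} {γ : IrrCharacter S} {θ : IrrCharacter K}
    {η : IrrCharacter L} (hβ : rmult β ν ≠ 0) (hγ : rmult γ ν ≠ 0) (hθ : rmult θ β ≠ 0)
    (hη : rmult η γ ≠ 0) : rmult θ η = rmult β γ := by
  obtain ⟨h1, h2⟩ := clifford_rmult (hQS.trans hST) hTK hN hT
  obtain ⟨h3, h4⟩ := clifford_rmult hQS hSL (hLK.trans hN) hS
  have h5 := rmult_trans hSL hLK θ γ
  have h6 := rmult_trans hST hTK θ γ
  rw [Finset.sum_eq_single η, (h4 η γ hγ hη).1, mul_one] at h5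
  · rw [Finset.sum_eq_single β, (h2 θ β hβ hθ).1, one_mul] at h6
    · exact h5.symm.trans h6
    · intro β' _ hne
      by_contra h
      obtain ⟨h7, h8⟩ := mul_ne_zero_iff.1 h
      exact hne ((h1.1 θ (rmult_ne_zero_trans (hQS.trans hST) hTK hθ hβ)).unique
        ⟨rmult_ne_zero_trans hQS hST h8 hγ, h7⟩ ⟨hβ, hθ⟩)
    · simp
  · intro η' _ hne
    by_contra h
    obtain ⟨-, h8⟩ := mul_ne_zero_iff.1 h
    exact hne ((h3.2 γ hγ).unique ⟨rmult_ne_zero_trans hQS hSL h8 hγ, h8⟩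
      ⟨rmult_ne_zero_trans hQS hSL hη hγ, hη⟩)
  · simp

theorem RelBij.mem_ezStab_iff {F : ℕ → Prop} {A : IrrCharacter K → Prop}
    {B : IrrCharacter L → Prop} (hLK : L ≤ K)
    (h : RelBij (fun (θ : IrrCharacter K) (η : IrrCharacter L) => F (rmult θ η)) A B) {x : Γ}
    (hK : x ∈ Subgroup.normalizer (K : Set Γ)) (hL : x ∈ Subgroup.normalizer (L : Set Γ))
    {θ : IrrCharacter K} {η : IrrCharacter L} (hθ : A θ) (hη : B η) (hA : A (θ.cj x hK))
    (hB : B (η.cj x hL)) (hR : F (rmult θ η)) : x ∈ ezStab θ ↔ x ∈ ezStab η := by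
  have h1 := rmult_cj hLK θ η hK hL
  rw [← θ.cj_eq_iff hK, ← η.cj_eq_iff hL]
  constructor
  · intro h2
    rw [h2] at h1
    exact (h.1 θ hθ).unique ⟨hB, (congrArg F h1).mpr hR⟩ ⟨hη, hR⟩
  · intro h2
    rw [h2] at h1
    exact (h.2 η hη).unique ⟨hA, (congrArg F h1).mpr hR⟩ ⟨hθ, hR⟩

theorem relBij_clifford_rmult (hKV : K ≤ V) (hVU : V ≤ U)
    (hN : U ≤ Subgroup.normalizer (K : Set Γ)) {θ : IrrCharacter K} (hV : U ⊓ ezStab θ ≤ V)
    (hPU : P ≤ Subgroup.normalizer (U : Set Γ)) (hPV : P ≤ Subgroup.normalizer (V : Set Γ))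
    (hPK : P ≤ Subgroup.normalizer (K : Set Γ)) (hP : P ≤ ezStab θ) :
    RelBij (fun (φ : IrrCharacter V) (ψ : IrrCharacter U) => rmult ψ φ ≠ 0)
      (fun φ => rmult φ θ ≠ 0 ∧ P ≤ ezStab φ) (fun ψ => rmult ψ θ ≠ 0 ∧ P ≤ ezStab ψ) := by
  have h := (clifford_rmult hKV hVU hN hV).1
  refine h.symm.restrict (fun _ h => h.1) (fun _ h => h.1) fun φ ψ h1 h2 h3 => ?_
  have h4 : ∀ x (hx : x ∈ P), x ∈ ezStab ψ ↔ x ∈ ezStab φ := fun x hx =>
    RelBij.mem_ezStab_iff (F := fun n => n ≠ 0) hVU h (hPU hx) (hPV hx) h2 h1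
      ((rmult_cj_left (hKV.trans hVU) ψ θ (hPU hx) (hP hx) (hPK hx)).trans_ne h2)
      ((rmult_cj_left hKV φ θ (hPV hx) (hP hx) (hPK hx)).trans_ne h1) h3
  exact ⟨fun h5 => ⟨h2, fun x hx => (h4 x hx).2 (h5.2 hx)⟩,
    fun h5 => ⟨h1, fun x hx => (h4 x hx).1 (h5.2 hx)⟩⟩

theorem GlSetup.congPM [hp : Fact p.Prime] {C : Subgroup Γ} (h : GlSetup p K Q C)
    {θ : IrrCharacter K} (hθ : Q ≤ ezStab θ) {β : IrrCharacter C} (hβ : ¬ p ∣ rmult θ β) :
    CongPM p (charDegree θ.1) (charDegree β.1) := by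
  haveI := Fintype.ofFinite C
  obtain ⟨β', -, h1⟩ := (glBij_of_isPGroup hp.out h.isPGroup h.norm h.coprime h.eq h.le).ex θ
    ((le_ezStab_iff h.norm).1 hθ)
  obtain rfl : β = β' := h1.eq_of_not_dvd (m := rmult θ β)
    ((cast_rmult' h.le θ β).symm.trans (by simp)) (by exact_mod_cast hβ)
  obtain ⟨ε, Δ, hε, ⟨χ, ψ, hχ, hψ, rfl⟩, h2⟩ := h1
  obtain ⟨d, hd⟩ : ∃ d : ℤ, (χ - ψ) 1 = d :=
    ⟨charDegree χ - charDegree ψ, by simp [hχ.one_eq_charDegree, hψ.one_eq_charDegree]⟩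
  have h3 := h2 1
  rw [map_one, θ.one_eq_charDegree, β.one_eq_charDegree, hd] at h3
  have h4 : (charDegree θ.1 : ℤ) = ε * charDegree β.1 + p * d := by exact_mod_cast h3
  have h5 := congrArg (Int.cast : ℤ → ZMod p) h4
  push_cast at h5
  rw [ZMod.natCast_self, zero_mul, add_zero] at h5
  rcases hε with rfl | rfl
  · left; simpa using h5.symm
  · right; rw [h5]; simp

theorem GlSetup.relBij [hp : Fact p.Prime] {C : Subgroup Γ} (h : GlSetup p K Q C) :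
    RelBij (fun (θ : IrrCharacter K) (β : IrrCharacter C) => ¬ p ∣ rmult θ β)
      (fun θ => Q ≤ ezStab θ) (fun β => Q ≤ ezStab β) := by
  have h1 : ∀ β : IrrCharacter C, Q ≤ ezStab β := fun β =>
    (Subgroup.le_centralizer_iff.1 h.le_centralizer).trans (centralizer_le_ezStab β)
  constructor
  · intro θ hθ
    obtain ⟨β, hβ⟩ := h.exists_corr hθ
    exact ⟨β, ⟨h1 β, hβ⟩, fun β' h' => h.unique hθ h'.2 hβ⟩
  · intro β _
    obtain ⟨θ, hθ, hβ⟩ := h.surj β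
    exact ⟨θ, ⟨hθ, hβ⟩, fun θ' h' => h.inj h'.1 hθ h'.2 hβ⟩

theorem relBij_inflate_twist [Q.Normal] (hQU : Q ≤ U) (μ : U →* ℂˣ) (lam : Q →* ℂˣ)
    (hμ : ∀ q : Q, μ ⟨q, hQU q.2⟩ = lam q) (hPU : P ≤ Subgroup.normalizer (U : Set Γ))
    (hP : ∀ x ∈ P, ∀ u u' : U, (u' : Γ) = x * u * x⁻¹ → μ u' = μ u) :
    RelBij (fun (β' : IrrCharacter (U.map (QuotientGroup.mk' Q))) (β : IrrCharacter U) =>
        β = (β'.comap ((QuotientGroup.mk' Q).subgroupMap U)
          (MonoidHom.subgroupMap_surjective _ _)).twist μ)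
      (fun β' => P.map (QuotientGroup.mk' Q) ≤ ezStab β')
      (fun β => rmult β (ofHom lam) ≠ 0 ∧ P ≤ ezStab β) := by
  haveI := Fintype.ofFinite U
  haveI := Fintype.ofFinite (Q.subgroupOf U)
  have hker : ((QuotientGroup.mk' Q).subgroupMap U).ker = Q.subgroupOf U := by
    ext x
    rw [MonoidHom.mem_ker, Subtype.ext_iff, Subgroup.mem_subgroupOf]
    exact QuotientGroup.eq_one_iff _
  have hext : ∀ n : Q.subgroupOf U, (ofHom μ).1 n = ((ofHom lam).subgroupOf hQU).1 n :=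
    fun n => congrArg Units.val (hμ ⟨n, n.2⟩)
  have hPU' : P.map (QuotientGroup.mk' Q) ≤
      Subgroup.normalizer (U.map (QuotientGroup.mk' Q) : Set (Γ ⧸ Q)) :=
    (Subgroup.map_mono hPU).trans (Subgroup.le_normalizer_map _)
  have h : RelBij (fun (β' : IrrCharacter (U.map (QuotientGroup.mk' Q))) (β : IrrCharacter U) =>
        β = (β'.comap ((QuotientGroup.mk' Q).subgroupMap U)
          (MonoidHom.subgroupMap_surjective _ _)).twist μ) (fun _ => True)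
      (fun β => rmult β (ofHom lam) ≠ 0) := by
    constructor
    · intro β' _
      refine ⟨_, ⟨?_, rfl⟩, fun _ h => h.2⟩
      show rmult _ _ ≠ 0
      rw [rmult_eq_of_ez_eq (e := charDegree β'.1) hQU]
      · exact β'.charDegree_pos.ne'
      · intro q hq
        rw [ez_of_mem _ (hQU hq), ez_of_mem _ hq, twist_apply, comap_apply, ofHom_apply,
          hμ ⟨q, hq⟩, show (QuotientGroup.mk' Q).subgroupMap U ⟨q, hQU hq⟩ = 1 from
            hker.ge (show _ ∈ Q.subgroupOf U from hq), β'.one_eq_charDegree, mul_comm]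
    · intro β hβ
      obtain ⟨β', h⟩ := gallagher_surj' _ (MonoidHom.subgroupMap_surjective _ _) hker
        (ofHom μ).isCharacter hext β ((rmult_ne_zero_iff_subgroupOf hQU).1 hβ)
      refine ⟨β', ⟨trivial, Subtype.ext (h.trans (funext fun _ => mul_comm _ _))⟩,
        fun β'' h' => gallagher_inj' _ (MonoidHom.subgroupMap_surjective _ _) hker
          (ofHom μ).isCharacter (isIrr_res_of_extends hext) fun g => ?_⟩
      rw [← congrFun h g, h'.2]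
      exact mul_comm _ _
  refine h.restrict (fun _ _ => trivial) (fun _ h => h.1) fun β' β _ h1 h2 => ?_
  rw [le_ezStab_iff hPU', le_ezStab_iff hPU, and_iff_right h1]
  subst h2
  constructor
  · intro h x hx u u' hu
    rw [twist_apply, twist_apply, comap_apply, comap_apply, hP x hx u u' hu,
      h _ (Subgroup.mem_map_of_mem _ hx) ((QuotientGroup.mk' Q).subgroupMap U u)
        ((QuotientGroup.mk' Q).subgroupMap U u') (congrArg (QuotientGroup.mk' Q) hu)]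
  · rintro h _ ⟨x, hx, rfl⟩ ⟨_, u, hu, rfl⟩ u' hu'
    have h3 : x * u * x⁻¹ ∈ U := (Subgroup.mem_normalizer_iff.1 (hPU hx) u).1 hu
    have h4 := h x hx ⟨u, hu⟩ ⟨_, h3⟩ rfl
    rw [twist_apply, twist_apply, comap_apply, comap_apply, hP x hx ⟨u, hu⟩ ⟨_, h3⟩ rfl] at h4
    have h5 : u' = (QuotientGroup.mk' Q).subgroupMap U ⟨_, h3⟩ := Subtype.ext hu'
    rw [h5]
    exact mul_left_cancel₀ (Units.ne_zero _) h4

theorem rmult_inflate [Q.Normal] (hST : S ≤ T) (β : IrrCharacter (T.map (QuotientGroup.mk' Q)))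
    (γ : IrrCharacter (S.map (QuotientGroup.mk' Q))) :
    rmult (β.comap ((QuotientGroup.mk' Q).subgroupMap T) (MonoidHom.subgroupMap_surjective _ _))
      (γ.comap ((QuotientGroup.mk' Q).subgroupMap S) (MonoidHom.subgroupMap_surjective _ _)) =
      rmult β γ := by
  haveI := Fintype.ofFinite S
  haveI := Fintype.ofFinite (S.map (QuotientGroup.mk' Q))
  refine Nat.cast_injective (R := ℂ) ?_
  rw [cast_rmult' hST, cast_rmult' (Subgroup.map_mono hST), ← classInner_comp_surjective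
    ((QuotientGroup.mk' Q).subgroupMap S) (MonoidHom.subgroupMap_surjective _ _)]
  rfl

end

end Cfsg
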