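import Cfsg.Agent.CT.RelGl
import Cfsg.Agent.CT.RelCount

/-! The relative Glauberman correspondence above a normal `p`-subgroup. -/

set_option autoImplicit false

namespace Cfsg

open scoped ComplexConjugate
open IrrCharacter

universe u v

section
variable {Γ : Type u} [Group Γ] [Finite Γ] {p : ℕ} [hp : Fact p.Prime] {K L U V S T Q P : Subgroup Γ}

theorem exists_invariant_hom_extension [hQn : Q.Normal] (hQ : IsPGroup p Q) (hQT : Q ≤ T)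
    (hi : ¬ p ∣ Q.relIndex T) {lam : Q →* ℂˣ} (hT : T ≤ ezStab (ofHom lam))
    (hP : P ≤ ezStab (ofHom lam)) :
    ∃ μ : T →* ℂˣ, (∀ q : Q, μ ⟨q, hQT q.2⟩ = lam q) ∧
      ∀ x ∈ P, ∀ u u' : T, (u' : Γ) = x * u * x⁻¹ → μ u' = μ u := by
  have hinv : ∀ {X : Subgroup Γ}, X ≤ ezStab (ofHom lam) → ∀ x ∈ X, ∀ q q' : Q,
      (q' : Γ) = x * q * x⁻¹ → lam q' = lam q := fun h x hx q q' hq =>
    Units.ext ((le_ezStab_iff Subgroup.le_normalizer_of_normal).1 h x hx q q' hq)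
  obtain ⟨k, hk⟩ := hQ.exists_card_eq
  have hc : (Nat.card Q).Coprime (Q.relIndex T) := by
    rw [hk]
    exact ((Nat.Prime.coprime_iff_not_dvd hp.out).2 hi).pow_left k
  obtain ⟨H, hH⟩ := Subgroup.exists_right_complement'_of_coprime (N := Q.subgroupOf T)
    (by rwa [Nat.card_congr (Subgroup.subgroupOfEquivOfLe hQT).toEquiv])
  obtain ⟨μ, h1, h2⟩ := exists_extension_linear_of_complement hH
    (lam.comp (Subgroup.subgroupOfEquivOfLe hQT).toMonoidHom) fun g n => hinv hT g g.2 _ _ rfl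
  have h3 : ∀ q : Q, μ ⟨q, hQT q.2⟩ = lam q := fun q => h1 ⟨⟨q, hQT q.2⟩, q.2⟩
  have h4 : ∀ u : T, μ u ^ Nat.card Q = 1 := fun u => by
    obtain ⟨⟨n, h⟩, rfl⟩ := hH.2 u
    show μ (n * h) ^ _ = 1
    rw [map_mul, h2 _ h.2, mul_one, h1, ← map_pow, ← Nat.card_congr
      (Subgroup.subgroupOfEquivOfLe hQT).toEquiv, pow_card_eq_one', map_one]
  refine ⟨μ, h3, fun x hx u u' hu => ?_⟩
  have h5 : ∀ u : T, (u : Γ) ^ Q.relIndex T ∈ Q := fun u => Subgroup.pow_index_mem (Q.subgroupOf T) u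
  have h6 : ∀ u : T, μ u ^ Q.relIndex T = lam ⟨_, h5 u⟩ := fun u => by
    rw [← map_pow]; exact h3 ⟨_, h5 u⟩
  have h7 : (μ u' / μ u) ^ Q.relIndex T = 1 := by
    rw [div_pow, h6, h6, hinv hP x hx ⟨_, h5 u⟩ ⟨_, h5 u'⟩ (by simp [hu]), div_self']
  have h8 : (μ u' / μ u) ^ Nat.card Q = 1 := by rw [div_pow, h4, h4, div_self']
  have h9 := pow_gcd_eq_one.2 ⟨h8, h7⟩
  rwa [hc, pow_one, div_eq_one] at h9

theorem relGl_invariant [hQn : Q.Normal] (hP : IsPGroup p P) (hQP : Q ≤ P) (hQT : Q ≤ T)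
    (hi : ¬ p ∣ Q.relIndex T) (hPT : P ≤ Subgroup.normalizer (T : Set Γ))
    (hS : S = T ⊓ Subgroup.normalizer (P : Set Γ)) {lam : Q →* ℂˣ} (hT : T ≤ ezStab (ofHom lam))
    (hPl : P ≤ ezStab (ofHom lam)) :
    RelBij (fun (β : IrrCharacter T) (γ : IrrCharacter S) => ¬ p ∣ rmult β γ)
      (fun β => rmult β (ofHom lam) ≠ 0 ∧ P ≤ ezStab β)
      (fun γ => rmult γ (ofHom lam) ≠ 0 ∧ P ≤ ezStab γ) ∧
    ∀ (β : IrrCharacter T) (γ : IrrCharacter S), rmult β (ofHom lam) ≠ 0 ∧ P ≤ ezStab β →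
      rmult γ (ofHom lam) ≠ 0 ∧ P ≤ ezStab γ → ¬ p ∣ rmult β γ →
      CongPM p (charDegree β.1) (charDegree γ.1) := by
  obtain ⟨μ, h1, h2⟩ := exists_invariant_hom_extension (hP.to_le hQP) hQT hi hT hPl
  have hST : S ≤ T := hS ▸ inf_le_left
  have hQS : Q ≤ S := hS ▸ le_inf hQT (hQP.trans Subgroup.le_normalizer)
  have hPS : P ≤ Subgroup.normalizer (S : Set Γ) := hS ▸
    (le_inf hPT (Subgroup.le_normalizer.trans Subgroup.le_normalizer)).trans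
      Subgroup.inf_normalizer_le_normalizer_inf
  set π := QuotientGroup.mk' Q with hπ
  have hker : π.ker = Q := QuotientGroup.ker_mk' Q
  have hcard : ¬ p ∣ Nat.card (T.map π) := by rwa [← Subgroup.relIndex_ker, hker]
  have hnorm : P.map π ≤ Subgroup.normalizer (T.map π : Set (Γ ⧸ Q)) :=
    (Subgroup.map_mono hPT).trans (Subgroup.le_normalizer_map _)
  have hG : GlSetup p (T.map π) (P.map π) (S.map π) := by
    refine ⟨hnorm, hcard, hP.map _, ?_⟩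
    obtain ⟨k, hk⟩ := (hP.map π).exists_card_eq
    rw [← inf_normalizer_eq_inf_centralizer hnorm (inf_eq_bot_of_coprime_card
      (hk ▸ (((Nat.Prime.coprime_iff_not_dvd hp.out).2 hcard).pow_left k).symm)), hS,
      ← Subgroup.comap_map_eq_self (hker.le.trans hQP), ← Subgroup.comap_normalizer_eq_of_surjective
        _ (QuotientGroup.mk'_surjective Q), Subgroup.comap_map_eq_self (hker.le.trans hQP)]
    refine SetLike.coe_injective ?_
    simp only [Subgroup.coe_map, Subgroup.coe_inf, Subgroup.coe_comap]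
    exact Set.image_inter_preimage _ _ _
  have hM := relBij_inflate_twist hQT μ lam h1 hPT h2
  have hN := relBij_inflate_twist hQS (μ.comp (Subgroup.inclusion hST)) lam h1 hPS
    fun x hx u u' hu => h2 x hx _ _ hu
  have hR : ∀ (β' : IrrCharacter (T.map π)) (γ' : IrrCharacter (S.map π)),
      rmult ((β'.comap (π.subgroupMap T) (MonoidHom.subgroupMap_surjective _ _)).twist μ)
        ((γ'.comap (π.subgroupMap S) (MonoidHom.subgroupMap_surjective _ _)).twist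
          (μ.comp (Subgroup.inclusion hST))) = rmult β' γ' := fun β' γ' => by
    rw [rmult_twist hST _ _ _ _ fun _ => rfl, rmult_inflate hST]
  refine ⟨hG.relBij.transfer hM hN ?_, fun β γ hβ hγ h => ?_⟩
  · rintro β' _ γ' _ - - rfl rfl
    rw [hR]
  · obtain ⟨β', ⟨h3, rfl⟩, -⟩ := hM.2 β hβ
    obtain ⟨γ', ⟨-, rfl⟩, -⟩ := hN.2 γ hγ
    rw [hR] at h
    rw [charDegree_twist, charDegree_twist, charDegree_comap, charDegree_comap]
    exact hG.congPM h3 h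

theorem exists_smul_eq_of_le_ezStab {N : Subgroup Γ} [N.Normal] [K.Normal] (hP : IsPGroup p P)
    (hi : ¬ p ∣ P.index) {ν : IrrCharacter N} (hν : P ≤ ezStab ν) {k : Γ} (hk : k ∈ K)
    (h : P ≤ ezStab (k • ν)) : ∃ l ∈ K ⊓ Subgroup.normalizer (P : Set Γ), l • ν = k • ν := by
  have hN : ∀ x : Γ, x ∈ Subgroup.normalizer (N : Set Γ) := fun x =>
    Subgroup.le_normalizer_of_normal (Subgroup.mem_top x)
  rw [smul_eq_cj _ _ (hN k)] at h
  obtain ⟨n, hn, h1, h2⟩ := exists_cj_of_le_ezStab (U := K ⊔ P) (fun x _ => hN x) le_sup_right hP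
    (fun h => hi (h.trans (Dvd.intro _ (Subgroup.relIndex_mul_index le_sup_right)))) hν
    (Subgroup.mem_sup_left hk) h
  rw [← smul_eq_cj, ← smul_eq_cj] at h2
  have hn' : n ∈ ((K ⊔ P : Subgroup Γ) : Set Γ) := hn
  rw [Subgroup.normal_mul] at hn'
  obtain ⟨l, hl, x, hx, rfl⟩ := hn'
  refine ⟨l, ⟨hl, ?_⟩, ?_⟩
  · simpa using mul_mem h1 (Subgroup.le_normalizer (P.inv_mem hx))
  · rw [← h2, mul_smul, smul_eq_cj ν x (hN x), (ν.cj_eq_iff _).2 (hν hx)]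

theorem relIndex_ezStab_modEq {N : Subgroup Γ} [N.Normal] [K.Normal] (hP : IsPGroup p P)
    (hi : ¬ p ∣ P.index) {ν : IrrCharacter N} (hν : P ≤ ezStab ν) :
    (ezStab ν).relIndex K ≡ (ezStab ν).relIndex (K ⊓ Subgroup.normalizer (P : Set Γ)) [MOD p] := by
  have h1 : ∀ ν : IrrCharacter N, ezStab ν = MulAction.stabilizer Γ ν := fun ν => by
    rw [ezStab_eq_charInertia, charInertia_eq_stabilizer]
  rw [h1] at hν ⊢
  exact relIndex_stabilizer_modEq hP Subgroup.le_normalizer_of_normal inf_le_left inf_le_right hν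
    fun k hk h => exists_smul_eq_of_le_ezStab hP hi ((h1 ν).symm ▸ hν) hk ((h1 _).symm ▸ h)

theorem relGl_over [Q.Normal] [K.Normal] (hP : IsPGroup p P) (hPi : ¬ p ∣ P.index) (hQP : Q ≤ P)
    (hQK : Q ≤ K) (hi : ¬ p ∣ Q.relIndex K) (hL : L = K ⊓ Subgroup.normalizer (P : Set Γ))
    {lam : Q →* ℂˣ} (hPl : P ≤ ezStab (ofHom lam)) :
    RelBij (fun (θ : IrrCharacter K) (η : IrrCharacter L) => ¬ p ∣ rmult θ η)
      (fun θ => rmult θ (ofHom lam) ≠ 0 ∧ P ≤ ezStab θ)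
      (fun η => rmult η (ofHom lam) ≠ 0 ∧ P ≤ ezStab η) ∧
    ∀ (θ : IrrCharacter K) (η : IrrCharacter L), rmult θ (ofHom lam) ≠ 0 ∧ P ≤ ezStab θ →
      rmult η (ofHom lam) ≠ 0 ∧ P ≤ ezStab η → ¬ p ∣ rmult θ η →
      CongPM p (charDegree θ.1) (charDegree η.1) := by
  set ν := ofHom lam with hν
  have hLK : L ≤ K := hL ▸ inf_le_left
  have hQL : Q ≤ L := hL ▸ le_inf hQK (hQP.trans Subgroup.le_normalizer)
  have hPK : P ≤ Subgroup.normalizer (K : Set Γ) := Subgroup.le_normalizer_of_normal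
  have hPL : P ≤ Subgroup.normalizer (L : Set Γ) := hL ▸
    (le_inf hPK (Subgroup.le_normalizer.trans Subgroup.le_normalizer)).trans
      Subgroup.inf_normalizer_le_normalizer_inf
  have hP' : ∀ {U : Subgroup Γ}, P ≤ Subgroup.normalizer (U : Set Γ) →
      P ≤ Subgroup.normalizer ((U ⊓ ezStab ν : Subgroup Γ) : Set Γ) := fun h =>
    (le_inf h (hPl.trans Subgroup.le_normalizer)).trans Subgroup.inf_normalizer_le_normalizer_inf
  have hQT : Q ≤ K ⊓ ezStab ν := le_inf hQK (le_ezStab ν)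
  have hQS : Q ≤ L ⊓ ezStab ν := le_inf hQL (le_ezStab ν)
  obtain ⟨h1, h2⟩ := relGl_invariant (S := L ⊓ ezStab ν) hP hQP hQT
    (not_dvd_relIndex_of_le hQT inf_le_left hi) (hP' hPK) (by rw [hL, inf_right_comm])
    inf_le_right hPl
  have hM := relBij_clifford_rmult hQT inf_le_left Subgroup.le_normalizer_of_normal le_rfl hPK
    (hP' hPK) Subgroup.le_normalizer_of_normal hPl
  have hN := relBij_clifford_rmult hQS inf_le_left Subgroup.le_normalizer_of_normal le_rfl hPL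
    (hP' hPL) Subgroup.le_normalizer_of_normal hPl
  have hR := fun (β : IrrCharacter ↥(K ⊓ ezStab ν)) (γ : IrrCharacter ↥(L ⊓ ezStab ν))
    (θ : IrrCharacter K) (η : IrrCharacter L) => rmult_clifford_eq (β := β) (γ := γ) (θ := θ)
      (η := η) hQS (inf_le_inf_right _ hLK) inf_le_left inf_le_left hLK
      Subgroup.le_normalizer_of_normal le_rfl le_rfl
  refine ⟨h1.transfer hM hN fun β θ γ η hβ hγ hθ hη => by rw [hR β γ θ η hβ.1 hγ.1 hθ hη],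
    fun θ η hθ hη h => ?_⟩
  obtain ⟨β, ⟨hβ, h3⟩, -⟩ := hM.2 θ hθ
  obtain ⟨γ, ⟨hγ, h4⟩, -⟩ := hN.2 η hη
  rw [hR β γ θ η hβ.1 hγ.1 h3 h4] at h
  rw [((clifford_rmult hQT inf_le_left Subgroup.le_normalizer_of_normal le_rfl).2 θ β hβ.1 h3).2,
    ((clifford_rmult hQS inf_le_left Subgroup.le_normalizer_of_normal le_rfl).2 η γ hγ.1 h4).2,
    Subgroup.inf_relIndex_left, Subgroup.inf_relIndex_left]
  exact (h2 β γ hβ hγ h).mul (hL ▸ relIndex_ezStab_modEq hP hPi hPl)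

theorem exists_invariant_hom_under [Q.Normal] (hP : IsPGroup p P) (hQP : Q ≤ P) (hQU : Q ≤ U)
    (hi : ¬ p ∣ Q.relIndex U) (hPU : P ≤ Subgroup.normalizer (U : Set Γ)) {ψ : IrrCharacter U}
    (h1 : P ≤ ezStab ψ) (h2 : ¬ p ∣ charDegree ψ.1) :
    ∃ lam : Q →* ℂˣ, rmult ψ (ofHom lam) ≠ 0 ∧ P ≤ ezStab (ofHom lam) := by
  haveI := Fintype.ofFinite Q
  obtain ⟨k, hk⟩ := hP.exists_card_eq
  obtain ⟨ν, h3, h4⟩ := exists_invariant_under hQU hPU Subgroup.le_normalizer_of_normal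
    (hk ▸ (((Nat.Prime.coprime_iff_not_dvd hp.out).2 hi).pow_left k).symm)
    (Or.inr (by haveI := hP.isNilpotent; infer_instance)) ψ ((le_ezStab_iff hPU).1 h1)
  rw [← rmult_ne_zero_iff hQU] at h3
  obtain ⟨lam, rfl⟩ := ν.exists_eq_ofHom (ν.charDegree_eq_one_of_isPGroup (hP.to_le hQP)
    fun h => h2 (h.trans (charDegree_dvd_of_rmult hQU Subgroup.le_normalizer_of_normal h3)))
  exact ⟨lam, h3, (le_ezStab_iff Subgroup.le_normalizer_of_normal).2 h4⟩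

/-- The relative Glauberman correspondence above a normal Sylow subgroup. -/
theorem relGl [Q.Normal] [K.Normal] (hP : IsPGroup p P) (hPi : ¬ p ∣ P.index) (hQP : Q ≤ P)
    (hQK : Q ≤ K) (hi : ¬ p ∣ Q.relIndex K) (hL : L = K ⊓ Subgroup.normalizer (P : Set Γ)) :
    RelBij (fun (θ : IrrCharacter K) (η : IrrCharacter L) => ¬ p ∣ rmult θ η)
      (fun θ => P ≤ ezStab θ ∧ ¬ p ∣ charDegree θ.1)
      (fun η => P ≤ ezStab η ∧ ¬ p ∣ charDegree η.1) ∧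
    ∀ (θ : IrrCharacter K) (η : IrrCharacter L), P ≤ ezStab θ →
      P ≤ ezStab η ∧ ¬ p ∣ charDegree η.1 → ¬ p ∣ rmult θ η →
      CongPM p (charDegree θ.1) (charDegree η.1) := by
  have hLK : L ≤ K := hL ▸ inf_le_left
  have hQL : Q ≤ L := hL ▸ le_inf hQK (hQP.trans Subgroup.le_normalizer)
  have hPK : P ≤ Subgroup.normalizer (K : Set Γ) := Subgroup.le_normalizer_of_normal
  have hPL : P ≤ Subgroup.normalizer (L : Set Γ) := hL ▸
    (le_inf hPK (Subgroup.le_normalizer.trans Subgroup.le_normalizer)).trans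
      Subgroup.inf_normalizer_le_normalizer_inf
  have hi' := not_dvd_relIndex_of_le hQL hLK hi
  have h0 : ∀ {θ : IrrCharacter K} {η : IrrCharacter L}, ¬ p ∣ rmult θ η → rmult θ η ≠ 0 :=
    fun h h' => h (h' ▸ dvd_zero p)
  have hd : ∀ {U : Subgroup Γ}, Q ≤ U → ¬ p ∣ Q.relIndex U → ∀ {ψ : IrrCharacter U}
      {lam : Q →* ℂˣ}, rmult ψ (ofHom lam) ≠ 0 → ¬ p ∣ charDegree ψ.1 := by
    intro U h1 h2 ψ lam h3
    obtain ⟨e, h4, h5⟩ := exists_charDegree_eq_mul_of_rmult h1 Subgroup.le_normalizer_of_normal h3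
    rw [h4, charDegree_ofHom, mul_one]
    exact fun h => h2 (h.trans h5)
  refine ⟨⟨fun θ hθ => ?_, fun η hη => ?_⟩, fun θ η hθ hη h => ?_⟩
  · obtain ⟨lam, h1, h2⟩ := exists_invariant_hom_under hP hQP hQK hi hPK hθ.1 hθ.2
    obtain ⟨η, ⟨h3, h4⟩, h5⟩ := (relGl_over hP hPi hQP hQK hi hL h2).1.1 θ ⟨h1, hθ.1⟩
    refine ⟨η, ⟨⟨h3.2, hd hQL hi' h3.1⟩, h4⟩, fun η' h => h5 η' ⟨⟨?_, h.1.1⟩, h.2⟩⟩
    obtain ⟨lam', h6, h7⟩ := exists_invariant_hom_under hP hQP hQL hi' hPL h.1.1 h.1.2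
    obtain ⟨k, hk, h8⟩ := clifford_exists_cj hQK Subgroup.le_normalizer_of_normal h1
      (rmult_ne_zero_trans hQL hLK (h0 h.2) h6)
    rw [← smul_eq_cj] at h8
    obtain ⟨l, hl, h9⟩ := exists_smul_eq_of_le_ezStab hP hPi h2 hk (h8 ▸ h7)
    rw [← hL] at hl
    rwa [← h8, ← h9, smul_eq_cj _ _ (Subgroup.le_normalizer_of_normal hl),
      rmult_cj_right_of_mem hQL _ _ hl] at h6
  · obtain ⟨lam, h1, h2⟩ := exists_invariant_hom_under hP hQP hQL hi' hPL hη.1 hη.2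
    obtain ⟨θ, ⟨h3, h4⟩, h5⟩ := (relGl_over hP hPi hQP hQK hi hL h2).1.2 η ⟨h1, hη.1⟩
    exact ⟨θ, ⟨⟨h3.2, hd hQK hi h3.1⟩, h4⟩, fun θ' h =>
      h5 θ' ⟨⟨rmult_ne_zero_trans hQL hLK (h0 h.2) h1, h.1.1⟩, h.2⟩⟩
  · obtain ⟨lam, h1, h2⟩ := exists_invariant_hom_under hP hQP hQL hi' hPL hη.1 hη.2
    exact (relGl_over hP hPi hQP hQK hi hL h2).2 θ η
      ⟨rmult_ne_zero_trans hQL hLK (h0 h) h1, hθ⟩ ⟨h1, hη.1⟩ h

omit hp in
theorem real_rmult_of_odd (hKU : K ≤ U) (hN : U ≤ Subgroup.normalizer (K : Set Γ))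
    (hodd : Odd (K.relIndex U)) :
    (∀ θ : IrrCharacter K, (∀ g, (θ.1 g).im = 0) →
      ∃! ψ : IrrCharacter U, rmult ψ θ ≠ 0 ∧ ∀ g, (ψ.1 g).im = 0) ∧
    ∀ (ψ : IrrCharacter U) (θ : IrrCharacter K), (∀ g, (ψ.1 g).im = 0) → rmult ψ θ ≠ 0 →
      (∀ g, (θ.1 g).im = 0) ∧ charDegree ψ.1 = (ezStab θ).relIndex U * charDegree θ.1 := by
  haveI := Fintype.ofFinite (K.subgroupOf U)
  haveI : (K.subgroupOf U).Normal := (Subgroup.normal_subgroupOf_iff_le_normalizer hKU).2 hN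
  refine ⟨fun θ hθ => ?_, fun ψ θ hψ h => ⟨fun g => ?_, ?_⟩⟩
  · simp only [rmult_ne_zero_iff_subgroupOf hKU]
    exact existsUnique_real_over hodd (θ.subgroupOf hKU) fun n => hθ _
  · exact real_of_under ψ (fun n _ => hψ n) _ ((rmult_ne_zero_iff_subgroupOf hKU).1 h)
      (odd_index_charInertia hodd _) ⟨⟨g, hKU g.2⟩, g.2⟩
  · have h1 := classInner_res_eq_one_of_real hodd ψ ((rmult_ne_zero_iff_subgroupOf hKU).1 h) hψ
    rw [← cast_rmult_subgroupOf hKU, Nat.cast_eq_one] at h1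
    rw [clifford_charDegree_rmult hKU hN h, h1, one_mul]

omit hp in
theorem ezStab_cconj (θ : IrrCharacter K) : ezStab θ.cconj = ezStab θ := by
  have h : ∀ x, θ.cconj.ez x = conj (θ.ez x) := fun x => by
    by_cases hx : x ∈ K
    · rw [ez_of_mem _ hx, ez_of_mem _ hx]; rfl
    · rw [ez_of_notMem _ hx, ez_of_notMem _ hx, map_zero]
  ext g
  simp only [mem_ezStab, h, (RingHom.injective _).eq_iff]

theorem RelBij.exists_bijective {α β : Type*} {R : α → β → Prop} {A : α → Prop} {B : β → Prop}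
    (h : RelBij R A B) : ∃ f : {a // A a} → {b // B b}, Function.Bijective f ∧
      ∀ a, R a.1 (f a).1 := by
  choose f hf using fun a : {a // A a} => (h.1 a.1 a.2).exists
  refine ⟨fun a => ⟨f a, (hf a).1⟩, ⟨fun a a' haa => Subtype.ext ?_, fun b => ?_⟩,
    fun a => (hf a).2⟩
  · have h1 : f a = f a' := congrArg Subtype.val haa
    exact (h.2 _ (hf a).1).unique ⟨a.2, (hf a).2⟩ ⟨a'.2, h1 ▸ (hf a').2⟩
  · obtain ⟨a, ha, -⟩ := h.2 b.1 b.2
    exact ⟨⟨a, ha.1⟩, Subtype.ext ((h.1 a ha.1).unique (hf ⟨a, ha.1⟩) ⟨b.2, ha.2⟩)⟩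

/-- The Isaacs–Navarro bijection for real characters. -/
theorem exists_relBij_real [Q.Normal] [K.Normal] {N : Subgroup Γ} (hP : IsPGroup p P)
    (hPi : ¬ p ∣ P.index) (hQP : Q ≤ P) (hQK : Q ≤ K) (hi : ¬ p ∣ Q.relIndex K)
    (hodd : Odd K.index) (hN : N = Subgroup.normalizer (P : Set Γ))
    (hreal : ∀ χ : IrrCharacter Γ, (∀ g, (χ.1 g).im = 0) → ¬ p ∣ charDegree χ.1) :
    ∃ R : IrrCharacter Γ → IrrCharacter N → Prop,
      RelBij R (fun χ => ∀ g, (χ.1 g).im = 0)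
        (fun ξ => (∀ g, (ξ.1 g).im = 0) ∧ ¬ p ∣ charDegree ξ.1) ∧
      ∀ χ ξ, (∀ g, (χ.1 g).im = 0) → (∀ g, (ξ.1 g).im = 0) → R χ ξ →
        CongPM p (charDegree χ.1) (charDegree ξ.1) := by
  obtain ⟨L, hL⟩ : ∃ L, L = K ⊓ N := ⟨_, rfl⟩
  obtain ⟨h1, h2⟩ := relGl hP hPi hQP hQK hi (hN ▸ hL)
  have hLK : L ≤ K := hL ▸ inf_le_left
  have hLN : L ≤ N := hL ▸ inf_le_right
  have hPN : P ≤ N := hN ▸ Subgroup.le_normalizer
  have hK : ∀ x, x ∈ Subgroup.normalizer (K : Set Γ) := fun x =>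
    Subgroup.le_normalizer_of_normal (Subgroup.mem_top x)
  have hNL : N ≤ Subgroup.normalizer (L : Set Γ) := hL ▸
    (le_inf (fun x _ => hK x) Subgroup.le_normalizer).trans
      Subgroup.inf_normalizer_le_normalizer_inf
  obtain ⟨h3, h4⟩ := real_rmult_of_odd (le_top (a := K)) (fun x _ => hK x)
    (by rwa [Subgroup.relIndex_top_right])
  obtain ⟨h5, h6⟩ := real_rmult_of_odd hLN hNL (by
    rw [hL, Subgroup.inf_relIndex_right]
    exact hodd.of_dvd_nat (Subgroup.relIndex_dvd_index_of_normal _ _))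
  have h7 := h1.restrict
    (P' := fun θ => (P ≤ ezStab θ ∧ ¬ p ∣ charDegree θ.1) ∧ ∀ g, (θ.1 g).im = 0)
    (Q' := fun η => (P ≤ ezStab η ∧ ¬ p ∣ charDegree η.1) ∧ ∀ g, (η.1 g).im = 0)
    (fun _ h => h.1) (fun _ h => h.1) fun θ η hθ hη h => by
      rw [and_iff_right hθ, and_iff_right hη, ← cconj_eq_self_iff, ← cconj_eq_self_iff]
      have h8 := rmult_cconj hLK θ η
      constructor
      · intro h9
        rw [h9] at h8
        exact (h1.1 θ hθ).unique ⟨by simpa only [ezStab_cconj, charDegree_cconj], by simpa only [h8]⟩ ⟨hη, h⟩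
      · intro h9
        rw [h9] at h8
        exact (h1.2 η hη).unique ⟨by simpa only [ezStab_cconj, charDegree_cconj], by simpa only [h8]⟩ ⟨hθ, h⟩
  have hcj : ∀ {U : Subgroup Γ} {θ : IrrCharacter U} {n : Γ} (hn : n ∈ N)
      (hU : n ∈ Subgroup.normalizer (U : Set Γ)), (P ≤ ezStab θ ∧ ¬ p ∣ charDegree θ.1) →
      (P ≤ ezStab (θ.cj n hU) ∧ ¬ p ∣ charDegree (θ.cj n hU).1) := fun hn hU h =>
    ⟨le_ezStab_cj hU (hN ▸ hn) h.1, by rw [charDegree_cj]; exact h.2⟩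
  have hunder : ∀ {U V : Subgroup Γ}, V ≤ U → U ≤ Subgroup.normalizer (V : Set Γ) → P ≤ U →
      ∀ {ψ : IrrCharacter U}, ¬ p ∣ charDegree ψ.1 → ∃ θ : IrrCharacter V, rmult ψ θ ≠ 0 ∧
        P ≤ ezStab θ ∧ ¬ p ∣ charDegree θ.1 := fun hVU hU hPU ψ hψ => by
    obtain ⟨θ, h8, h9⟩ := exists_rmult_under_le_ezStab hVU hU hPU hP hψ
    exact ⟨θ, h8, h9, fun h => hψ (h.trans (charDegree_dvd_of_rmult hVU hU h8))⟩
  refine ⟨fun χ ξ => ∃ (θ : IrrCharacter K) (η : IrrCharacter L),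
    (P ≤ ezStab θ ∧ ¬ p ∣ charDegree θ.1) ∧ (P ≤ ezStab η ∧ ¬ p ∣ charDegree η.1) ∧
      ¬ p ∣ rmult θ η ∧ rmult (toTop χ) θ ≠ 0 ∧ rmult ξ η ≠ 0,
    ⟨fun χ hχ => ?_, fun ξ hξ => ?_⟩, ?_⟩
  · obtain ⟨θ, a1, a2⟩ := hunder le_top (fun x _ => hK x) le_top (ψ := toTop χ)
      (by rw [charDegree_toTop]; exact hreal χ hχ)
    obtain ⟨η, ⟨a3, a4⟩, -⟩ := h7.1 θ ⟨a2, (h4 _ θ (fun g => hχ g) a1).1⟩
    obtain ⟨ξ, ⟨a5, a6⟩, a7⟩ := h5 η a3.2
    refine ⟨ξ, ⟨⟨a6, ?_⟩, θ, η, a2, a3.1, a4, a1, a5⟩, ?_⟩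
    · rw [(h6 ξ η a6 a5).2, hp.out.dvd_mul, not_or]
      exact ⟨not_dvd_relIndex_of_le' a3.1.1 fun h => hPi (h.trans
        (Dvd.intro _ (Subgroup.relIndex_mul_index hPN))), a3.1.2⟩
    · rintro ξ' ⟨b1, θ', η', b2, b3, b4, b5, b6⟩
      refine a7 ξ' ⟨?_, b1.1⟩
      obtain ⟨g, hg, b7⟩ := clifford_exists_cj le_top (fun x _ => hK x) a1 b5
      rw [← smul_eq_cj] at b7
      obtain ⟨n, hn, b8⟩ := exists_smul_eq_of_le_ezStab hP hPi a2.1 hg (b7 ▸ b2.1)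
      have hn' : n ∈ N := hN ▸ hn.2
      rw [b7, smul_eq_cj _ _ (hK n)] at b8
      have b9 : η' = η.cj n (hNL hn') := (h1.1 θ' b2).unique ⟨b3, b4⟩
        ⟨hcj hn' _ a3.1, by simpa only [← b8, rmult_cj hLK] using a4⟩
      rwa [b9, rmult_cj_right_of_mem hLN _ _ hn'] at b6
  · obtain ⟨η, a1, a2⟩ := hunder hLN hNL hPN hξ.2
    obtain ⟨θ, ⟨a3, a4⟩, -⟩ := h7.2 η ⟨a2, (h6 ξ η hξ.1 a1).1⟩
    obtain ⟨ψ, ⟨a5, a6⟩, a7⟩ := h3 θ a3.2
    obtain ⟨χ, rfl⟩ := toTop.surjective ψ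
    refine ⟨χ, ⟨fun g => a6 ⟨g, trivial⟩, θ, η, a3.1, a2, a4, a5, a1⟩, ?_⟩
    rintro χ' ⟨b1, θ', η', b2, b3, b4, b5, b6⟩
    refine toTop.injective (a7 _ ⟨?_, fun g => b1 g⟩)
    obtain ⟨n, hn, b7⟩ := clifford_exists_cj hLN hNL a1 b6
    have b9 : θ' = θ.cj n (hK n) := (h1.2 η' b3).unique ⟨b2, b4⟩
      ⟨hcj hn _ a3.1, by simpa only [← b7, rmult_cj hLK] using a4⟩
    rwa [b9, rmult_cj_right_of_mem le_top _ _ (Subgroup.mem_top n)] at b5
  · rintro χ ξ hχ hξ ⟨θ, η, a1, a2, a3, a4, a5⟩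
    rw [← charDegree_toTop, (h4 _ θ (fun g => hχ g) a4).2, (h6 ξ η hξ a5).2]
    refine (h2 θ η a1.1 a2 a3).mul ?_
    have a6 : ezStab θ ⊓ N = ezStab η ⊓ N := by
      ext x
      exact and_congr_left fun hx => RelBij.mem_ezStab_iff (F := fun n => ¬ p ∣ n) hLK h1 (hK x)
        (hNL hx) a1 a2 (hcj hx _ a1) (hcj hx _ a2) a3
    rw [← Subgroup.inf_relIndex_right (ezStab η), ← a6, Subgroup.inf_relIndex_right]
    have a7 := relIndex_ezStab_modEq (K := ⊤) hP hPi a1.1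
    rwa [top_inf_eq, ← hN] at a7

end

end Cfsg
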