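import Cfsg.Agent.CT.Galois
import Cfsg.Agent.Grp.PPart

/-! The power map raising `p`-elements to the power `1 + p` and fixing the `p'`-elements. -/

set_option autoImplicit false

namespace Cfsg

universe u

variable {G : Type u} [Group G] [Finite G] {p k : ℕ} [hp : Fact p.Prime]

theorem sigma_coprime_card (hk₁ : ∀ g : G, (∃ j : ℕ, orderOf g = p ^ j) → g ^ k = g ^ (1 + p))
    (hk₂ : ∀ g : G, ¬ p ∣ orderOf g → g ^ k = g) : k.Coprime (Nat.card G) := by
  refine Nat.Coprime.symm (Nat.coprime_of_dvd fun q hq hqG hqk => ?_)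
  haveI := Fact.mk hq
  obtain ⟨g, hg⟩ := exists_prime_orderOf_dvd_card' (G := G) q hqG
  have h1 : g ^ k = 1 := orderOf_dvd_iff_pow_eq_one.1 (hg ▸ hqk)
  have h2 : g = 1 := by
    by_cases hpq : p = q
    · have h3 := hk₁ g ⟨1, by rw [hg, hpq, pow_one]⟩
      rw [h1, pow_add, pow_one, hpq, ← hg, pow_orderOf_eq_one, mul_one] at h3
      exact h3.symm
    · rw [← hk₂ g (by rw [hg]; exact fun h => hpq ((Nat.prime_dvd_prime_iff_eq hp.out hq).1 h)),
        h1]
  rw [h2, orderOf_one] at hg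
  exact hq.one_lt.ne hg

theorem sigma_pow_pElement (hk₁ : ∀ g : G, (∃ j : ℕ, orderOf g = p ^ j) → g ^ k = g ^ (1 + p))
    {g : G} (hg : ∃ j : ℕ, orderOf g = p ^ j) (i : ℕ) : g ^ k ^ i = g ^ (1 + p) ^ i := by
  induction i with
  | zero => simp
  | succ i ih =>
    rw [pow_succ', pow_mul, hk₁ g hg, ← pow_mul, mul_comm, pow_mul, ih, ← pow_mul, ← pow_succ]

theorem exists_sigma_pow_eq_self
    (hk₁ : ∀ g : G, (∃ j : ℕ, orderOf g = p ^ j) → g ^ k = g ^ (1 + p))
    (hk₂ : ∀ g : G, ¬ p ∣ orderOf g → g ^ k = g) : ∃ e : ℕ, ∀ g : G, g ^ k ^ p ^ e = g := by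
  refine ⟨(Nat.card G).factorization p, fun g => ?_⟩
  set e := (Nat.card G).factorization p
  have h1 : ∀ i, pRegPart p g ^ k ^ i = pRegPart p g := by
    intro i
    induction i with
    | zero => simp
    | succ i ih => rw [pow_succ, pow_mul, ih, hk₂ _ (not_dvd_orderOf_pRegPart g)]
  have h2 : pPart p g ^ k ^ p ^ e = pPart p g := by
    rw [sigma_pow_pElement hk₁ (exists_orderOf_pPart g)]
    conv_rhs => rw [← pow_one (pPart p g)]
    rw [pow_eq_pow_iff_modEq]
    have h3 : ((p : ℤ) ^ (e + 1)) ∣ ((1 + p : ℕ) : ℤ) ^ p ^ e - 1 ^ p ^ e :=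
      dvd_sub_pow_of_dvd_sub (by simp) e
    have h4 : orderOf (pPart p g) ∣ p ^ (e + 1) := by
      rw [orderOf_pPart]
      refine pow_dvd_pow _ (Nat.le_succ_of_le ?_)
      exact (Nat.factorization_le_iff_dvd (orderOf_pos g).ne' Nat.card_pos.ne').2
        (orderOf_dvd_natCard g) p
    refine Nat.ModEq.of_dvd h4 (Nat.ModEq.symm ?_)
    rw [Nat.modEq_iff_dvd]
    simpa using h3
  conv_lhs => rw [← pPart_mul_pRegPart p g, (commute_pPart_pRegPart p g).mul_pow, h1, h2]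
  exact pPart_mul_pRegPart p g

end Cfsg
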