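import Cfsg.Agent.Grp.Suzuki
import Cfsg.Agent.CT.Burnside
import Cfsg.Prelude.Def_DegreeGraph
import Mathlib.Analysis.Fourier.FiniteAbelian.PontryaginDuality

/-! The character degrees of the Suzuki groups. -/

set_option autoImplicit false
set_option linter.style.haveILetI false

namespace Cfsg

open scoped ComplexConjugate Matrix commutatorElement

theorem exists_irr_over_central {U A : Type*} [Group U] [Finite U] [Group A] (z : A →* U)
    (hz : Function.Injective z) (hc : ∀ a, z a ∈ Subgroup.center U) (ν : A →* ℂˣ) :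
    ∃ ω : IrrCharacter U, ∀ a u, ω.1 (z a * u) = ν a * ω.1 u := by
  classical
  haveI := Finite.of_injective z hz
  haveI := Fintype.ofFinite A
  obtain ⟨ω, h⟩ : ∃ ω : IrrCharacter U, classInner (fun a => ω.1 (z a)) (fun a => ν a) ≠ 0 := by
    by_contra h
    push Not at h
    have h1 : ∑ ω : IrrCharacter U, ω.1 1 * classInner (fun a => ω.1 (z a)) (fun a => ν a) = 0 := by
      simp [h]
    simp only [classInner_def, Finset.mul_sum, mul_left_comm _ (_ : ℂ)⁻¹] at h1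
    rw [Finset.sum_comm] at h1
    simp [← Finset.mul_sum, ← mul_assoc _ _ (starRingEnd ℂ _), ← Finset.sum_mul, sum_irr_one_mul, map_eq_one_iff z hz, Nat.card_pos.ne'] at h1
  obtain ⟨l, h1, h2, -⟩ := ω.isCharacter.exists_hom_of_le_charCenter
    (fun h => ω.one_ne_zero (congrFun h 1)) (Z := z.range)
    (by rintro _ ⟨a, rfl⟩; exact ω.center_le_charCenter (hc a))
  rw [show (fun a => ω.1 (z a)) = fun a => ω.1 1 * l (z.rangeRestrict a) from
    funext fun a => h2 (z.rangeRestrict a), classInner_const_mul_left] at h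
  obtain rfl := IrrCharacter.ofHom_injective (IrrCharacter.eq_of_classInner_ne_zero
    (χ := .ofHom (l.comp z.rangeRestrict)) (ψ := .ofHom ν) (right_ne_zero_of_mul h))
  exact ⟨ω, fun a => h1 (z.rangeRestrict a)⟩

variable {F : Type*} [Field F] [CharP F 2] [Fintype F] {θ : F →+* F}

theorem exists_addChar_invariant (θ : F →+* F) :
    ∃ ν : AddChar F ℂ, ν ≠ 1 ∧ ∀ x, ν (θ x) = ν x := by
  obtain ⟨a, ha⟩ : ∃ a, a ∉ (θ.toAddMonoidHom - AddMonoidHom.id F).range := by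
    by_contra h
    push Not at h
    exact one_ne_zero ((injective_iff_map_eq_zero _).1 (Finite.injective_iff_surjective.2 h) 1
      (by simp))
  obtain ⟨ψ, h⟩ := AddChar.exists_apply_ne_zero.2 ((QuotientAddGroup.eq_zero_iff a).not.2 ha)
  refine ⟨ψ.compAddMonoidHom (QuotientAddGroup.mk' _), fun h' => h (DFunLike.congr_fun h' a),
    fun x => congrArg ψ (QuotientAddGroup.eq_iff_sub_mem.2 ⟨x, rfl⟩)⟩

theorem one_add_sum_addChar {ν : AddChar F ℂ} (hν : ν ≠ 1) [DecidableEq F] {f : Fˣ → F}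
    (h0 : ∀ t, f t ≠ 0) (hf : Function.Injective f) (b : F) :
    1 + ∑ t, ν (f t * b) = if b = 0 then (Fintype.card F : ℂ) else 0 := by
  rw [← Nat.cast_zero (R := ℂ), ← Nat.cast_ite, ← AddChar.sum_mulShift b (.of_ne_one hν),
    ← Equiv.sum_comp (Equiv.optionSubtypeNe (0 : F)), Fintype.sum_option,
    ← Equiv.sum_comp unitsEquivNeZero]
  simp only [Equiv.optionSubtypeNe_none, zero_mul, AddChar.map_zero_eq_one, add_right_inj]
  exact Fintype.sum_bijective (fun t => Units.mk0 (f t) (h0 t))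
    (Finite.injective_iff_bijective.1 fun s t h => hf (congrArg Units.val h)) _ _ fun _ => rfl

/-- linear characters of the Sylow 2-subgroup -/
noncomputable def SzU.lin (θ : F →+* F) (ν : AddChar F ℂ) : SzU θ →* ℂˣ :=
  ν.toMonoidHom.toHomUnits.comp (MonoidHom.mk' (fun u => .ofAdd u.a) fun _ _ => rfl)

omit [Fintype F] in
theorem SzU.coe_lin (ν : AddChar F ℂ) (u : SzU θ) : (SzU.lin θ ν u : ℂ) = ν u.a := rfl

theorem SzU.exists_irr (hθ : ∀ x, θ (θ x) = x ^ 2) {ν : AddChar F ℂ} (hν : ν ≠ 1)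
    (hν' : ∀ x, ν (θ x) = ν x) : ∃ ω : IrrCharacter (SzU θ),
      2 * charDegree ω.1 ^ 2 = Fintype.card F ∧ (∀ b, ω.1 ⟨0, b⟩ = charDegree ω.1 * ν b) ∧
        ∀ u, ω.1 u = 0 ↔ u.a ≠ 0 ∧ u.a ≠ 1 := by
  classical
  have := CharTwo.two_eq_zero (R := F)
  obtain ⟨ω, h⟩ := exists_irr_over_central (U := SzU θ) (MonoidHom.mk'
    (fun b : Multiplicative F => ⟨0, b.toAdd⟩) fun _ _ => by ext <;> simp)
    (fun _ _ h => congrArg SzU.b h)
    (fun b => Subgroup.mem_center_iff.2 fun u => by ext <;> simp [add_comm])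
    ν.toMonoidHom.toHomUnits
  have h1 : ∀ b, ω.1 ⟨0, b⟩ = charDegree ω.1 * ν b := fun b => by
    simpa [ω.one_eq_charDegree, mul_comm] using h (.ofAdd b) 1
  have h2 : ∀ u v : SzU θ, ⁅u, v⁆ = ⟨0, u.a * θ v.a + v.a * θ u.a⟩ := fun u v => by
    ext <;> simp [commutatorElement_def] <;> grind
  have h3 : ∀ u v : SzU θ, ⁅u, v⁆ ∈ charKer ω.1 ↔ ν ((u.a + u.a ^ 2) * θ v.a) = 1 := fun u v => by
    rw [ω.mem_charKer, h2, h1, ω.one_eq_charDegree,
      mul_eq_left₀ (Nat.cast_ne_zero.2 ω.charDegree_pos.ne'), AddChar.map_add_eq_mul,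
      ← hν' (v.a * _), map_mul θ, hθ, add_mul, AddChar.map_add_eq_mul, mul_comm (θ v.a)]
  have h4 : ∀ u : SzU θ, u ∈ charCenter ω.1 ↔ u.a = 0 ∨ u.a = 1 := fun u => by
    simp only [ω.mem_charCenter_iff_commutator, h3]
    refine ⟨fun h => ?_, fun h v => by rcases h with h | h <;> simp [h, CharTwo.add_self_eq_zero]⟩
    by_contra h5
    refine AddChar.IsPrimitive.of_ne_one hν (a := u.a + u.a ^ 2) (by grind) (AddChar.ext _ _
      fun x => ?_)
    obtain ⟨y, rfl⟩ := Finite.injective_iff_surjective.1 θ.injective x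
    exact h ⟨y, 0⟩
  have h5 : ∀ u, ‖ω.1 u‖ = if u.a = 0 ∨ u.a = 1 then (charDegree ω.1 : ℝ) else 0 := fun u => by
    split_ifs with h5
    · exact ω.mem_charCenter.1 ((h4 u).2 h5)
    · rw [← h4, ω.mem_charCenter_iff_commutator] at h5
      obtain ⟨v, hv⟩ := not_forall.1 h5
      exact norm_eq_zero.2 (ω.isCharacter.eq_zero_of_commutator_mem_charCenter
        ((h4 _).2 (Or.inl (by rw [h2]))) hv)
  refine ⟨ω, ?_, h1, fun u => by simp [← norm_eq_zero (a := ω.1 u), h5, ω.charDegree_pos.ne']⟩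
  have h6 := ω.sum_norm_sq
  rw [← Equiv.sum_comp SzU.equivProd.symm, Fintype.sum_prod_type, Nat.card_eq_fintype_card,
    SzU.card_eq] at h6
  simp only [h5, SzU.equivProd, Equiv.coe_fn_symm_mk, Finset.sum_const, Finset.card_univ,
    nsmul_eq_mul, ← Finset.mul_sum] at h6
  rw [Finset.sum_eq_add 0 1 zero_ne_one (fun c _ h => by simp [h]) (by simp) (by simp)] at h6
  simp only [true_or, or_true, if_true, Finset.sum_const, Finset.card_univ, nsmul_eq_mul,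
    ← mul_add] at h6
  refine Nat.eq_of_mul_eq_mul_left (Fintype.card_pos (α := F)) ?_
  rw [← sq, two_mul]
  exact_mod_cast h6

theorem sz_not_dvd {k y : ℤ} (h2 : 2 ∣ k) (hk : 0 < k) (hy : y ^ 2 ≤ 1) :
    ¬ 2 * k ^ 2 + 1 + k * y ∣ (2 * k ^ 2) ^ 2 * ((2 * k ^ 2) ^ 2 + 1) := fun h => by
  obtain ⟨j, hj⟩ := h2
  have h1 : IsCoprime (2 * k ^ 2 + 1 + k * y) k := ⟨1, -(2 * k + y), by ring⟩
  have h3 : IsCoprime (2 * k ^ 2 + 1 + k * y) 2 := ⟨1, -(k ^ 2 + j * y), by rw [hj]; ring⟩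
  have h4 := (dvd_mul_right _ (2 * k ^ 2 + 1 - k * y)).sub
    ((h3.mul_right h1.pow_right).pow_right.dvd_of_dvd_mul_left h)
  rw [show _ - _ = k ^ 2 * (4 - y ^ 2) by ring] at h4
  have h5 := Int.le_of_dvd (by omega) (h1.pow_right.dvd_of_dvd_mul_left h4)
  have h6 : 2 ≤ k := by omega
  nlinarith [abs_le_one_iff_mul_self_le_one.2 (sq y ▸ hy), neg_abs_le y, sq_nonneg y]

omit [Fintype F] in
theorem sz_sq_mul_injective (hθ : ∀ x, θ (θ x) = x ^ 2) :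
    Function.Injective fun t : Fˣ => (t : F) ^ 2 * θ t := fun s t h => by
  have h1 := congrArg θ h
  simp only [map_mul, map_pow, hθ, ← mul_pow, CharTwo.sq_inj] at h h1
  refine Units.ext (mul_right_cancel₀ (b := θ t * t) (by simp) ?_)
  linear_combination h - s * h1

theorem sz_count {ι : Type*} [Fintype ι] {k : ℤ} (h2 : 2 ∣ k) (hk : 0 < k) {m b c₁ c₂ d : ι → ℤ}
    {St : ι} (s0b : ∑ χ, m χ * b χ = 2 * k ^ 2 - 1) (sbb : ∑ χ, b χ * b χ = 2 * k ^ 2)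
    (sb1 : ∑ χ, b χ * c₁ χ = (2 * k ^ 2 - 1) * k) (sb2 : ∑ χ, b χ * c₂ χ = (2 * k ^ 2 - 1) * k)
    (s12 : ∑ χ, c₁ χ * c₂ χ = (2 * k ^ 2 - 1) * k ^ 2)
    (s11 : ∑ χ, c₁ χ * c₁ χ = 1 + (2 * k ^ 2 - 1) * k ^ 2)
    (s22 : ∑ χ, c₂ χ * c₂ χ = 1 + (2 * k ^ 2 - 1) * k ^ 2)
    (hd : ∀ χ, d χ = m χ + (2 * k ^ 2 - 1) * (b χ + k * (c₁ χ + c₂ χ))) (hd0 : ∀ χ, d χ ≠ 0)
    (hdvd : ∀ χ, d χ ∣ (2 * k ^ 2 - 1) * ((2 * k ^ 2) ^ 2 * ((2 * k ^ 2) ^ 2 + 1)))
    (hb : ∀ χ, b χ = 0 ∨ b χ = 1) (hc₁ : ∀ χ, 0 ≤ c₁ χ) (hc₂ : ∀ χ, 0 ≤ c₂ χ)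
    (hSt : m St = 1 ∧ b St = 1 ∧ c₁ St = k ∧ c₂ St = k)
    (hm : ∀ χ, m χ ≠ 0 → (m χ = 2 ∧ b χ = 1 ∧ c₁ χ = k ∧ c₂ χ = k) ∨
      (m χ = 1 ∧ b χ = 0 ∧ c₁ χ = 0 ∧ c₂ χ = 0) ∨ χ = St) :
    (∀ χ, d χ = 1 ∨ d χ = (2 * k ^ 2) ^ 2 ∨ d χ = (2 * k ^ 2) ^ 2 + 1 ∨
      d χ = (2 * k ^ 2 - 1) * k ∨ d χ = (2 * k ^ 2 - 1) * (2 * k ^ 2 + 1 + 2 * k) ∨
        d χ = (2 * k ^ 2 - 1) * (2 * k ^ 2 + 1 - 2 * k)) ∧ (∃ χ, d χ = (2 * k ^ 2 - 1) * k) ∧
      (∃ χ, d χ = (2 * k ^ 2 - 1) * (2 * k ^ 2 + 1 + 2 * k)) ∧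
        ∃ χ, d χ = (2 * k ^ 2 - 1) * (2 * k ^ 2 + 1 - 2 * k) := by
  classical
  have hk2 : 2 ≤ k := Int.le_of_dvd hk h2
  obtain ⟨y₁, hy₁⟩ : ∃ y : ι → ℤ, ∀ χ, c₁ χ = y χ + k * b χ := ⟨fun χ => c₁ χ - k * b χ, by simp⟩
  obtain ⟨y₂, hy₂⟩ : ∃ y : ι → ℤ, ∀ χ, c₂ χ = y χ + k * b χ := ⟨fun χ => c₂ χ - k * b χ, by simp⟩
  obtain ⟨g, hg⟩ : ∃ g : ι → ℤ, ∀ χ, g χ = 2 * (b χ * b χ) - m χ * b χ - if χ = St then 1 else 0 :=
    ⟨_, fun _ => rfl⟩
  have sg : ∑ χ, g χ = 2 * k ^ 2 := by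
    simp only [hg, Finset.sum_sub_distrib, ← Finset.mul_sum, sbb, s0b, Finset.sum_ite_eq',
      Finset.mem_univ, if_true]
    ring
  have sy : ∑ χ, 2 * (y₁ χ * y₂ χ) = 2 * k ^ 2 := by
    rw [Finset.sum_congr rfl fun χ _ => show _ = 2 * (c₁ χ * c₂ χ - k * (b χ * c₁ χ) -
      k * (b χ * c₂ χ) + k ^ 2 * (b χ * b χ)) by rw [hy₁, hy₂]; ring]
    simp only [Finset.sum_sub_distrib, Finset.sum_add_distrib, ← Finset.mul_sum, sbb, sb1, sb2, s12]
    ring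
  have sd : ∑ χ, (y₁ χ - y₂ χ) ^ 2 = 2 := by
    rw [Finset.sum_congr rfl fun χ _ => show _ = c₁ χ * c₁ χ - 2 * (c₁ χ * c₂ χ) +
      c₂ χ * c₂ χ by rw [hy₁, hy₂]; ring]
    simp only [Finset.sum_sub_distrib, Finset.sum_add_distrib, ← Finset.mul_sum, s11, s22, s12]
    ring
  have sb : ∑ χ, 2 * (b χ * y₁ χ) = -(2 * k) := by
    rw [Finset.sum_congr rfl fun χ _ => show _ = 2 * (b χ * c₁ χ - k * (b χ * b χ)) by
      rw [hy₁]; ring]
    simp only [Finset.sum_sub_distrib, ← Finset.mul_sum, sbb, sb1]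
    ring
  have hA : ∀ χ, m χ ≠ 0 → y₁ χ = 0 ∧ y₂ χ = 0 ∧ g χ = 0 ∧ (d χ = 1 ∨
      d χ = (2 * k ^ 2) ^ 2 ∨ d χ = (2 * k ^ 2) ^ 2 + 1) := fun χ h => by
    have h3 := hy₁ χ
    have h4 := hy₂ χ
    rw [hg, hd]
    rcases hm χ h with h | h | rfl
    · have h5 : χ ≠ St := fun h' => by rw [h'] at h; omega
      simp only [h, h5, if_false] at h3 h4 ⊢
      exact ⟨by omega, by omega, by ring, Or.inr (Or.inr (by ring))⟩
    · have h5 : χ ≠ St := fun h' => by rw [h'] at h; omega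
      simp only [h, h5, if_false] at h3 h4 ⊢
      exact ⟨by omega, by omega, by ring, Or.inl (by ring)⟩
    · simp only [hSt, if_true] at h3 h4 ⊢
      exact ⟨by omega, by omega, by ring, Or.inr (Or.inl (by ring))⟩
  have hdl : ∀ χ, (y₁ χ - y₂ χ) ^ 2 ≤ 2 := fun χ =>
    sd ▸ Finset.single_le_sum (f := fun χ => (y₁ χ - y₂ χ) ^ 2) (fun _ _ => sq_nonneg _)
      (Finset.mem_univ χ)
  have hB : ∀ χ, m χ = 0 → (b χ = 0 ∧ g χ = 0 ∧ 0 ≤ y₁ χ ∧ 0 ≤ y₂ χ ∧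
      d χ = (2 * k ^ 2 - 1) * k * (y₁ χ + y₂ χ)) ∨ (b χ = 1 ∧ g χ = 2 ∧
        d χ = (2 * k ^ 2 - 1) * (2 * k ^ 2 + 1 + k * (y₁ χ + y₂ χ))) := fun χ h => by
    have h3 : χ ≠ St := fun h' => by rw [h'] at h; omega
    have h5 := hc₁ χ
    have h6 := hc₂ χ
    rw [hg, hd, hy₁, hy₂] at *
    refine (hb χ).imp (fun h4 => ?_) fun h4 => ?_
    · simp only [h, h3, h4, if_false, mul_zero, add_zero] at h5 h6 ⊢
      exact ⟨trivial, by ring, h5, h6, by ring⟩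
    · simp only [h, h3, h4, if_false]
      exact ⟨trivial, by ring, by ring⟩
  have hle : ∀ χ ∈ Finset.univ, g χ ≤ 2 * (y₁ χ * y₂ χ) := fun χ _ => by
    by_cases h : m χ = 0
    swap
    · simp [hA χ h]
    rcases hB χ h with ⟨-, h4, h5, h6, -⟩ | ⟨-, h4, h3⟩
    · rw [h4]; positivity
    have h5 := hdvd χ
    rw [h3, mul_dvd_mul_iff_left (by nlinarith)] at h5
    have h6 := not_le.1 fun h => sz_not_dvd h2 hk h h5
    have h7 := hdl χ
    have h8 : 4 ≤ (y₁ χ + y₂ χ) ^ 2 := by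
      rw [one_lt_sq_iff_one_lt_abs] at h6
      nlinarith [sq_abs (y₁ χ + y₂ χ)]
    have : 0 < y₁ χ * y₂ χ := by nlinarith
    omega
  have heq := (Finset.sum_eq_sum_iff_of_le hle).1 (sg.trans sy.symm)
  have key : ∀ χ, (y₁ χ = y₂ χ ∧ b χ * y₁ χ = 0 ∧ g χ = 0 ∧ (d χ = 1 ∨
      d χ = (2 * k ^ 2) ^ 2 ∨ d χ = (2 * k ^ 2) ^ 2 + 1)) ∨
      (b χ * y₁ χ = 0 ∧ g χ = 0 ∧ d χ = (2 * k ^ 2 - 1) * k) ∨
      (y₁ χ = y₂ χ ∧ 2 * (b χ * y₁ χ) = g χ ∧ d χ = (2 * k ^ 2 - 1) * (2 * k ^ 2 + 1 + 2 * k)) ∨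
      (y₁ χ = y₂ χ ∧ 2 * (b χ * y₁ χ) = -g χ ∧
        d χ = (2 * k ^ 2 - 1) * (2 * k ^ 2 + 1 - 2 * k)) := fun χ => by
    by_cases h : m χ = 0
    swap
    · simp [hA χ h]
    have h5 := heq χ (Finset.mem_univ _)
    rcases hB χ h with ⟨h3, h4, h8, h9, h6⟩ | ⟨h3, h4, h6⟩
    · have h7 := hdl χ
      have h10 : y₁ χ + y₂ χ ≠ 0 := fun h => hd0 χ (by rw [h6, h, mul_zero])
      have : y₁ χ + y₂ χ < 2 := by nlinarith
      exact Or.inr (Or.inl ⟨by simp [h3], h4, by rw [h6, show y₁ χ + y₂ χ = 1 by omega, mul_one]⟩)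
    rcases Int.mul_eq_one_iff_eq_one_or_neg_one.1 (show y₁ χ * y₂ χ = 1 by omega) with
      ⟨h8, h9⟩ | ⟨h8, h9⟩
    · exact Or.inr (Or.inr (Or.inl ⟨by omega, by simp [h3, h4, h8], by rw [h6, h8, h9]; ring⟩))
    · exact Or.inr (Or.inr (Or.inr ⟨by omega, by simp [h3, h4, h8], by rw [h6, h8, h9]; ring⟩))
  refine ⟨fun χ => by have := key χ; tauto, ?_, ?_, ?_⟩ <;> by_contra h <;> push Not at h
  · rw [Finset.sum_eq_zero fun χ _ => by
      rw [show y₁ χ = y₂ χ by have := key χ; have := h χ; tauto]; simp] at sd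
    omega
  · rw [Finset.sum_congr rfl fun χ _ => show _ = -g χ by
      have := key χ; have := h χ; omega, Finset.sum_neg_distrib, sg] at sb
    nlinarith
  · rw [Finset.sum_congr rfl fun χ _ => show _ = g χ by
      have := key χ; have := h χ; omega, sg] at sb
    nlinarith

theorem sz_restriction [DecidableEq F] [Fintype (szGrp θ)] (hθ : ∀ x, θ (θ x) = x ^ 2) : ∃ (ψ ω₁ ω₂ : IrrCharacter (SzU θ)),
    charDegree ψ.1 = 1 ∧ 2 * charDegree ω₁.1 ^ 2 = Fintype.card F ∧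
    charDegree ω₂.1 = charDegree ω₁.1 ∧
    (∀ χ : IrrCharacter (szGrp θ), (szRankOne hθ).m ψ.1 χ.1 ≤ 1) ∧
    (∀ α ∈ ({ψ, ω₁, ω₂} : Set _), ∀ t, (∀ u, α.1 ((szRankOne hθ).act t u) = α.1 u) → t = 1) ∧
    (∀ t, ¬ ∀ u, ψ.1 ((szRankOne hθ).act t u) = 1) ∧
    (∀ t, ¬ ∀ u, ω₂.1 ((szRankOne hθ).act t u) = ω₁.1 u) ∧
    regFun (SzU θ) = (fun _ => 1) + ∑ t, ((fun u => ψ.1 ((szRankOne hθ).act t u)) +
      (charDegree ω₁.1 : ℂ) • ((fun u => ω₁.1 ((szRankOne hθ).act t u)) +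
        fun u => ω₂.1 ((szRankOne hθ).act t u))) := by
  obtain ⟨ν, hν, hν'⟩ := exists_addChar_invariant θ
  obtain ⟨ω, h1, h2, h3⟩ := SzU.exists_irr hθ hν hν'
  obtain ⟨c, hc⟩ := DFunLike.ne_iff.1 hν
  replace hc : ν c = -1 := (mul_self_eq_one_iff.1 (by
    rw [← AddChar.map_add_eq_mul, CharTwo.add_self_eq_zero, AddChar.map_zero_eq_one])).resolve_left hc
  have ha : ∀ t u, (szRankOne hθ).act t u = ⟨θ t * u.a, t ^ 2 * θ t * u.b⟩ := fun _ _ => rfl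
  have h4 : ∀ {a a' : F}, (∀ b, ν (a * b) = ν (a' * b)) → a = a' := fun h =>
    AddChar.to_mulShift_inj_of_isPrimitive (.of_ne_one hν) (AddChar.ext _ _ h)
  have h5 : ∀ t : Fˣ, (∀ u, ν ((szRankOne hθ).act t u).a = ν u.a) → t = 1 := fun t h =>
    Units.ext (θ.injective ((h4 fun b => by simpa [ha] using h ⟨b, 0⟩).trans (map_one θ).symm))
  have h6 : ∀ t : Fˣ, (∀ b, ω.1 ((szRankOne hθ).act t ⟨0, b⟩) = ω.1 ⟨0, b⟩) → t = 1 := fun t h =>
    sz_sq_mul_injective hθ (h4 fun b => by simpa [ha, h2, ω.charDegree_pos.ne'] using h b)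
  refine ⟨.ofHom (SzU.lin θ ν), ω, ω.twist (SzU.lin θ (ν.mulShift c)), by simp, h1, by simp,
    (szRankOne hθ).m_le_one _ (·⁻¹) mul_inv_rev (Equiv.inv _) (fun u => (map_inv _ _).symm)
      (fun _ => rfl) (fun t => ?_) fun t => ?_, ?_, fun t h => ?_, fun t h => ?_, funext fun u => ?_⟩
  · rw [mul_inv_rev, ← map_inv, ← (szRankOne hθ).n_h, mul_inv_cancel_right,
      inv_eq_of_mul_eq_one_right (a := (szRankOne hθ).n) szN_mul_szN]
    rfl
  · refine (em (t = 1)).imp (fun h => by simp [h]) fun h => ?_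
    by_contra h7
    push Not at h7
    exact h (h5 t fun u => congrArg Units.val (h7 u))
  · rintro _ (rfl | rfl | rfl) t h
    · exact h5 t h
    · exact h6 t fun b => h _
    · exact h6 t fun b => by simpa [SzU.coe_lin, ha] using h ⟨0, b⟩
  · simpa using h4 (a := θ t) (a' := 0) fun b => by simpa [SzU.coe_lin, ha] using h ⟨b, 0⟩
  · obtain rfl := h6 t fun b => by simpa [SzU.coe_lin, ha] using h ⟨0, b⟩
    simpa [SzU.coe_lin, hc, h3, neg_eq_self] using h ⟨1, 0⟩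
  have h7 : ∀ v, ω.1 v + ν (c * v.a) * ω.1 v =
      if v.a = 0 then 2 * (charDegree ω.1 * ν v.b) else 0 := fun v => by
    split_ifs with h
    · obtain ⟨_, b⟩ := v
      subst h
      simp [h2, two_mul]
    · by_cases h' : v.a = 1
      · simp [h', hc]
      · simp [(h3 v).2 ⟨h, h'⟩]
  have h8 := one_add_sum_addChar hν (f := fun t => θ t) (by simp)
    (θ.injective.comp Units.val_injective) u.a
  have h9 := one_add_sum_addChar hν (by simp) (sz_sq_mul_injective hθ) u.b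
  simp only [Pi.add_apply, Finset.sum_apply, Pi.smul_apply, IrrCharacter.ofHom_apply, SzU.coe_lin,
    IrrCharacter.twist_apply, AddChar.mulShift_apply, h7, ha, Finset.sum_add_distrib, ← add_assoc,
    h8, regFun, SzU.ext_iff, SzU.one_a, SzU.one_b, mul_eq_zero, map_eq_zero, Units.ne_zero,
    false_or, Nat.card_eq_fintype_card, SzU.card_eq, smul_eq_mul]
  have h10 : (Fintype.card F : ℂ) = 2 * charDegree ω.1 ^ 2 := by exact_mod_cast h1.symm
  by_cases h : u.a = 0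
  · simp only [h, if_true, true_and, ← Finset.mul_sum, eq_sub_of_add_eq' h9]
    split_ifs <;> simp [h10] <;> ring
  · simp [h]

theorem sz_degrees (hθ : ∀ x, θ (θ x) = x ^ 2) {k : ℕ} (hk : Fintype.card F = 2 * k ^ 2)
    (h2 : 2 ∣ k) (d : ℕ) : d ∈ charDegrees (szGrp θ) ↔ (d : ℤ) = 1 ∨ (d : ℤ) = (2 * k ^ 2) ^ 2 ∨
      (d : ℤ) = (2 * k ^ 2) ^ 2 + 1 ∨ (d : ℤ) = (2 * k ^ 2 - 1) * k ∨
      (d : ℤ) = (2 * k ^ 2 - 1) * (2 * k ^ 2 + 1 + 2 * k) ∨
      (d : ℤ) = (2 * k ^ 2 - 1) * (2 * k ^ 2 + 1 - 2 * k) := by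
  classical
  haveI := Fintype.ofFinite (szGrp θ)
  obtain ⟨ψ, ω₁, ω₂, d0, d1, d2, hb, hself, h01, h12, hreg⟩ := sz_restriction hθ
  set D := szRankOne hθ
  have hk0 : 0 < k := Nat.pos_of_ne_zero fun h => by simp [h] at hk
  have hk2 : 2 ≤ k := Nat.le_of_dvd hk0 h2
  replace d1 : charDegree ω₁.1 = k := by
    rw [hk, mul_right_inj' two_ne_zero] at d1
    exact Nat.pow_left_injective two_ne_zero d1
  rw [d1] at d2 hreg
  have hinj : ∀ t, D.h t = 1 → t = 1 := fun t h => Units.ext (by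
    simpa [D, szRankOne, coe_szH] using congrArg (fun g : szGrp θ => g.1.1 1 1) h)
  have hκ : Nat.card D.h.ker = 1 := by
    rwa [Subgroup.card_eq_one, MonoidHom.ker_eq_bot_iff, injective_iff_map_eq_one]
  obtain ⟨t₀, ht₀⟩ : ∃ t : Fˣ, t ≠ 1 := Fintype.exists_ne_of_one_lt_card (by
    rw [Fintype.card_units, hk, Nat.lt_sub_iff_add_lt]; nlinarith) 1
  have hsq' : Function.Injective fun s : Fˣ => s ^ 2 := fun _ _ h =>
    Units.ext (CharTwo.sq_injective (congrArg Units.val h))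
  have hT : (Fintype.card Fˣ : ℤ) = 2 * k ^ 2 - 1 := by
    rw [Fintype.card_units, Nat.cast_sub Fintype.card_pos, hk]; push_cast; rfl
  have hU : Nat.card (SzU θ) = (2 * k ^ 2) ^ 2 := by rw [Nat.card_eq_fintype_card, SzU.card_eq, hk]
  have hG : (Nat.card (szGrp θ) : ℤ) =
      (2 * k ^ 2 - 1) * ((2 * k ^ 2) ^ 2 * ((2 * k ^ 2) ^ 2 + 1)) := by
    have := D.card_G
    rw [hκ, SzU.card_eq, hk, Nat.cast_one, one_mul] at this
    rw [← hT, show Nat.card (szGrp θ) = _ by exact_mod_cast this]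
    push_cast; ring
  let M : IrrCharacter (SzU θ) → IrrCharacter (szGrp θ) → ℤ := fun α χ => D.m α.1 χ.1
  let e := IrrCharacter.triv (SzU θ)
  have hne : ∀ {α β : IrrCharacter (SzU θ)}, (∀ t, ¬ ∀ u, β.1 (D.act t u) = α.1 u) →
      ∑ χ, M α χ * M β χ = (2 * k ^ 2 - 1) * (charDegree α.1 * charDegree β.1) := fun h => by
    have := D.sum_m_mul_of_ne h
    rw [hκ, one_mul] at this
    rw [← hT]
    simp only [M]
    exact_mod_cast this
  have hsq : ∀ α ∈ ({ψ, ω₁, ω₂} : Set _), ∑ χ, M α χ * M α χ =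
      1 + (2 * k ^ 2 - 1) * (charDegree α.1 * charDegree α.1) := fun α h => by
    have := D.sum_m_mul_self (hself α h)
    rw [hκ, one_mul] at this
    rw [← hT]
    simp only [M]
    exact_mod_cast this
  have hd : ∀ {ω : IrrCharacter (SzU θ)}, charDegree ω.1 = k →
      ∀ t, ¬ ∀ u, ω.1 (D.act t u) = ψ.1 u := fun h t h' => by
    have := h' 1
    rw [map_one, IrrCharacter.one_eq_charDegree, ψ.one_eq_charDegree, h, d0, Nat.cast_inj] at this
    omega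
  have s0b := hne (α := e) h01
  have s12 := hne h12
  have sb1 := hne (hd d1)
  have sb2 := hne (hd d2)
  have sbb := hsq ψ (by simp)
  have s11 := hsq ω₁ (by simp)
  have s22 := hsq ω₂ (by simp)
  have hdeg : ∀ χ : IrrCharacter (szGrp θ), (charDegree χ.1 : ℤ) =
      M e χ + (2 * k ^ 2 - 1) * (M ψ χ + k * (M ω₁ χ + M ω₂ χ)) := fun χ => by
    have h1 := congrArg conj (classInner_regFun fun u => χ.1 (D.x u))
    have h3 : ∀ (α : IrrCharacter (SzU θ)) t, classInner (fun u => χ.1 (D.x u))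
        (fun u => α.1 (D.act t u)) = D.m α.1 χ.1 := fun α t => by
      rw [← D.m_act t χ.isClassFunction]
      exact (D.cast_m (α.isCharacter.comp (D.act t).toMonoidHom) χ.isCharacter).symm
    simp only [conj_classInner, Complex.conj_conj, map_one, hreg, classInner_add_right,
      classInner_sum_right, classInner_smul_right, h3, χ.one_eq_charDegree, map_natCast,
      ← D.cast_m IsCharacter.one χ.isCharacter, Finset.sum_const, Finset.card_univ,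
      nsmul_eq_mul] at h1
    rw [← hT]
    simp only [M]
    exact_mod_cast h1.symm
  obtain ⟨St, hSt, hP⟩ := D.exists_St
  have hne1 : ∀ α ∈ ({ψ, ω₁, ω₂} : Set _), cmult (fun _ => 1) α.1 = 0 := fun α h =>
    cmult_eq_of ((IrrCharacter.classInner_of_ne (χ := e) fun h' =>
      ht₀ (hself α h t₀ fun u => by rw [← h']; rfl)).trans Nat.cast_zero.symm)
  have he1 : cmult (fun _ : SzU θ => 1) e.1 = 1 :=
    cmult_eq_of (e.classInner_self.trans Nat.cast_one.symm)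
  have hMSt : ∀ α, M α St = charDegree α.1 := fun α =>
    congrArg _ (D.m_eq_of_reg α.isCharacter hSt)
  simp only [d0, d1, d2, show charDegree e.1 = 1 from IrrCharacter.charDegree_triv, Nat.cast_one,
    one_mul, mul_one, ← sq (k : ℤ), add_sub_cancel] at s0b s12 sb1 sb2 sbb s11 s22
  obtain ⟨h3, h4⟩ := sz_count (St := St) (by exact_mod_cast h2) (by exact_mod_cast hk0) s0b sbb sb1
    sb2 s12 s11 s22 hdeg (fun χ => Nat.cast_ne_zero.2 χ.charDegree_pos.ne')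
    (fun χ => hG ▸ Int.natCast_dvd_natCast.2 χ.charDegree_dvd_card)
    (fun χ => by have := hb χ; simp only [M]; omega) (fun _ => Nat.cast_nonneg _)
    (fun _ => Nat.cast_nonneg _) (by simp [hMSt, d0, d1, d2, e]) fun χ h => by
      rcases hP χ (Nat.cast_ne_zero.1 h) with h | rfl | rfl | ⟨-, -, -, -, -, μ, h3, h4⟩
      · have h3 : ∀ α, M α χ = cmult (fun _ => 1) α.1 + charDegree α.1 := fun α => by
          simp only [M, D.m_eq_of_prin α.isCharacter h, Nat.cast_add]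
        simp [h3, hne1, he1, d0, d1, d2, show charDegree e.1 = 1 from IrrCharacter.charDegree_triv]
      · exact Or.inr (Or.inl ⟨Nat.cast_eq_one.2 he1, Nat.cast_eq_zero.2 (hne1 _ (by simp)),
          Nat.cast_eq_zero.2 (hne1 _ (by simp)), Nat.cast_eq_zero.2 (hne1 _ (by simp))⟩)
      · exact Or.inr (Or.inr rfl)
      · refine absurd (MonoidHom.ext fun t => ?_) h3
        obtain ⟨s, rfl⟩ := Finite.injective_iff_surjective.1 hsq' t
        rw [map_pow, h4, MonoidHom.one_apply]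
  refine ⟨fun ⟨χ, h⟩ => h ▸ h3 χ, fun h => ?_⟩
  suffices ∃ χ : IrrCharacter (szGrp θ), (charDegree χ.1 : ℤ) = d from
    this.imp fun _ h => Nat.cast_injective h
  rcases h with h | h | h | h | h | h <;> rw [h]
  · exact ⟨.triv _, by simp⟩
  · exact ⟨St, by exact_mod_cast charDegree_eq_of_one_eq (n := (2 * k ^ 2) ^ 2) (by
      simpa [regFun, -Nat.card_eq_fintype_card, hU] using hSt 1)⟩
  · obtain ⟨χ, h⟩ := D.exists_prin (t := t₀) fun h => ht₀ (hsq' (by simpa using hinj _ h))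
    exact ⟨χ, by exact_mod_cast charDegree_eq_of_one_eq (n := (2 * k ^ 2) ^ 2 + 1) (by
      simpa [regFun, -Nat.card_eq_fintype_card, hU, add_comm] using h 1)⟩
  exacts [h4.1, h4.2.1, h4.2.2]

end Cfsg
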